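import Mathlib
import Cfsg.Agent.Schreier.Basic

/-!
# Homogeneous finite groups: basic lemmas (helper486, for S3923/S3924)

`Homog G` : every isomorphism between subgroups of `G` is induced by an automorphism of `G`.
* `Homog.exists_aut` : every automorphism of a subgroup is induced;
* `inner_of_perfect` : under the Schreier property `Sch G`, an element of a perfect group of automorphisms of a
  subgroup `E` is induced by conjugation with an element of `G`.
-/

set_option autoImplicit false

namespace Cfsg.Agent.H486.Hg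

open Subgroup Cfsg.Agent.Schreier.Basic

universe u

/-- Every isomorphism between subgroups extends to an automorphism. -/
def Homog (G : Type*) [Group G] : Prop :=
  ∀ (A B : Subgroup G) (e : ↥A ≃* ↥B), ∃ φ : G ≃* G, ∀ a : ↥A, φ (a : G) = (e a : G)

variable {G : Type u} [Group G]

theorem Homog.exists_aut (h : Homog G) {E : Subgroup G} (f : MulAut E) :
    ∃ φ : MulAut G, ∀ x : E, φ (x : G) = (f x : G) := h E E f

/-- automorphisms of `G` inducing an element of `Π` on `E` -/
def lft (E : Subgroup G) (P : Subgroup (MulAut E)) : Subgroup (MulAut G) where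
  carrier := {φ | ∃ f ∈ P, ∀ x : E, φ (x : G) = (f x : G)}
  mul_mem' := by
    rintro φ ψ ⟨f, hf, h1⟩ ⟨g, hg, h2⟩
    refine ⟨f * g, P.mul_mem hf hg, fun x => ?_⟩
    rw [MulAut.mul_apply, h2, h1]
    rfl
  one_mem' := ⟨1, P.one_mem, fun _ => rfl⟩
  inv_mem' := by
    rintro φ ⟨f, hf, h1⟩
    refine ⟨f⁻¹, P.inv_mem hf, fun x => ?_⟩
    have h2 := h1 (f⁻¹ x)
    rw [MulAut.apply_inv_self] at h2
    rw [← h2, MulAut.inv_apply_self]

/-- restriction to `E` -/
noncomputable def lftHom (E : Subgroup G) (P : Subgroup (MulAut E)) : lft E P →* P where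
  toFun φ := ⟨φ.2.choose, φ.2.choose_spec.1⟩
  map_one' := by
    apply Subtype.ext
    apply MulEquiv.ext
    intro x
    apply Subtype.ext
    exact ((1 : lft E P).2.choose_spec.2 x).symm
  map_mul' φ ψ := by
    apply Subtype.ext
    apply MulEquiv.ext
    intro x
    apply Subtype.ext
    have h1 := (φ * ψ).2.choose_spec.2 x
    have h2 := ψ.2.choose_spec.2 x
    have h3 := φ.2.choose_spec.2 (ψ.2.choose x)
    refine h1.symm.trans ?_
    change (φ : MulAut G) ((ψ : MulAut G) x) = _
    rw [h2, h3]
    rfl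

theorem lftHom_spec (E : Subgroup G) (P : Subgroup (MulAut E)) (φ : lft E P) (x : E) :
    (φ : MulAut G) (x : G) = ((lftHom E P φ : MulAut E) x : G) := φ.2.choose_spec.2 x

theorem lftHom_surjective (hH : Homog G) (E : Subgroup G) (P : Subgroup (MulAut E)) :
    Function.Surjective (lftHom E P) := by
  rintro ⟨f, hf⟩
  obtain ⟨φ, hφ⟩ := hH.exists_aut f
  refine ⟨⟨φ, f, hf, hφ⟩, ?_⟩
  apply Subtype.ext
  apply MulEquiv.ext
  intro x
  apply Subtype.ext
  rw [← lftHom_spec]
  exact hφ x

/-- A surjective homomorphism from a finite group onto a perfect group is surjective on a perfect subgroup. -/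
theorem exists_perfect_cover {A B : Type*} [Group A] [Group B] [Finite A] (ρ : A →* B)
    (hρ : Function.Surjective ρ) (hB : ⁅(⊤ : Subgroup B), (⊤ : Subgroup B)⁆ = ⊤) :
    ∃ R : Subgroup A, ⁅R, R⁆ = R ∧ ∀ b : B, ∃ r ∈ R, ρ r = b := by
  have hanti : Antitone (derivedSeries A) := derivedSeries_antitone A
  have hst : ∃ n, derivedSeries A (n + 1) = derivedSeries A n := by
    by_contra hcon
    push Not at hcon
    have hlt : ∀ n, derivedSeries A (n + 1) < derivedSeries A n := fun n =>
      lt_of_le_of_ne (hanti (Nat.le_succ n)) (hcon n)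
    have hsa : StrictAnti (derivedSeries A) := strictAnti_nat_of_succ_lt hlt
    exact not_injective_infinite_finite _ hsa.injective
  obtain ⟨n, hn⟩ := hst
  have hB' : ∀ n, derivedSeries B n = ⊤ := by
    intro n
    induction n with
    | zero => rfl
    | succ n ih => rw [derivedSeries_succ, ih, hB]
  refine ⟨derivedSeries A n, by rw [← derivedSeries_succ, hn], fun b => ?_⟩
  have h1 : b ∈ (derivedSeries A n).map ρ := by
    rw [map_derivedSeries_eq hρ, hB']
    trivial
  exact h1

/-- **An element of a perfect group of automorphisms of a subgroup is induced by conjugation.** -/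
theorem inner_of_perfect [Finite G] (hS : Sch G) (hH : Homog G) (E : Subgroup G) {P : Subgroup (MulAut E)}
    (hP : ⁅P, P⁆ = P) {f : MulAut E} (hf : f ∈ P) : ∃ g : G, ∀ x : E, g * x * g⁻¹ = (f x : G) := by
  have hfin : Finite (MulAut G) := inferInstance
  have hP' : ⁅(⊤ : Subgroup P), (⊤ : Subgroup P)⁆ = ⊤ := by
    apply (Subgroup.map_injective P.subtype_injective)
    rw [Subgroup.map_commutator, ← MonoidHom.range_eq_map, Subgroup.range_subtype, hP]
  obtain ⟨R, hR, hR2⟩ := exists_perfect_cover (lftHom E P) (lftHom_surjective hH E P) hP'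
  obtain ⟨φ, hφ, hφf⟩ := hR2 ⟨f, hf⟩
  obtain ⟨g, hg⟩ := hS (R.map (lft E P).subtype) (map_perfect _ hR) ⟨φ, hφ, rfl⟩
  refine ⟨g, fun x => ?_⟩
  have h1 := DFunLike.congr_fun hg (x : G)
  rw [MulAut.conj_apply] at h1
  rw [h1]
  change (φ : MulAut G) x = _
  rw [lftHom_spec, hφf]

end Cfsg.Agent.H486.Hg
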