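import Mathlib
import Cfsg.Agent.H486.Sn

/-!
# Sylow subgroups of subgroups (helper486)

`IsSyl p Y P` : `P` is a Sylow `p`-subgroup of the subgroup `Y` of `G`, by cardinality.
-/

set_option autoImplicit false

namespace Cfsg.Agent.H486.Hg

open Subgroup Cfsg.Agent.H486.Sn

variable {G : Type*} [Group G]

/-- `P` is a Sylow `p`-subgroup of `Y`. -/
def IsSyl (p : ℕ) (Y P : Subgroup G) : Prop :=
  P ≤ Y ∧ IsPGroup p P ∧ ∀ Q ≤ Y, IsPGroup p Q → Nat.card Q ≤ Nat.card P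

theorem IsSyl.le {p : ℕ} {Y P : Subgroup G} (h : IsSyl p Y P) : P ≤ Y := h.1

theorem IsSyl.isPGroup {p : ℕ} {Y P : Subgroup G} (h : IsSyl p Y P) : IsPGroup p P := h.2.1

theorem IsSyl.restrict {p : ℕ} {Y Y' P : Subgroup G} (h : IsSyl p Y P) (h1 : P ≤ Y') (h2 : Y' ≤ Y) :
    IsSyl p Y' P := ⟨h1, h.2.1, fun Q hQ hQp => h.2.2 Q (hQ.trans h2) hQp⟩

theorem isPGroup_map {p : ℕ} {P : Subgroup G} (h : IsPGroup p P) (φ : MulAut G) :
    IsPGroup p (P.map φ.toMonoidHom) := h.map _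

theorem isPGroup_cj {p : ℕ} {P : Subgroup G} (h : IsPGroup p P) (g : G) : IsPGroup p (cj g P) := by
  intro x
  obtain ⟨x, hx⟩ := x
  rw [mem_cj] at hx
  obtain ⟨k, hk⟩ := h ⟨_, hx⟩
  refine ⟨k, Subtype.ext ?_⟩
  have h1 : (g⁻¹ * x * g) ^ p ^ k = 1 := congrArg Subtype.val hk
  have h2 : g⁻¹ * x * g = g⁻¹ * x * (g⁻¹)⁻¹ := by rw [inv_inv]
  rw [h2, conj_pow] at h1
  have h3 : x ^ p ^ k = 1 := by
    have := congrArg (fun y => g * y * g⁻¹) h1
    simpa [mul_assoc] using this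
  exact h3

section finite

variable [Finite G] {p : ℕ} [hp : Fact p.Prime]

theorem IsSyl.subgroupOf {Y P : Subgroup G} (h : IsSyl p Y P) :
    ∃ S : Sylow p Y, (S : Subgroup Y) = P.subgroupOf Y := by
  have h1 : IsPGroup p (P.subgroupOf Y) := h.2.1.comap_of_injective Y.subtype Y.subtype_injective
  obtain ⟨S, hS⟩ := h1.exists_le_sylow
  refine ⟨S, ?_⟩
  symm
  apply Subgroup.eq_of_le_of_card_ge hS
  have h2 : IsPGroup p ((S : Subgroup Y).map Y.subtype) := S.isPGroup'.map _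
  have h3 := h.2.2 _ (Subgroup.map_subtype_le _) h2
  rw [Subgroup.card_map_of_injective Y.subtype_injective] at h3
  rwa [Nat.card_congr (Subgroup.subgroupOfEquivOfLe h.1).toEquiv]

theorem isSyl_of_sylow {Y : Subgroup G} (S : Sylow p Y) : IsSyl p Y ((S : Subgroup Y).map Y.subtype) := by
  refine ⟨Subgroup.map_subtype_le _, S.isPGroup'.map _, fun Q hQ hQp => ?_⟩
  have h1 : IsPGroup p (Q.subgroupOf Y) := hQp.comap_of_injective Y.subtype Y.subtype_injective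
  obtain ⟨S', hS'⟩ := h1.exists_le_sylow
  rw [Subgroup.card_map_of_injective Y.subtype_injective, ← Nat.card_congr (Subgroup.subgroupOfEquivOfLe hQ).toEquiv]
  refine (Subgroup.card_le_of_le hS').trans ?_
  rw [Sylow.card_eq_multiplicity, Sylow.card_eq_multiplicity]

/-- Every `p`-subgroup of `Y` lies in a Sylow subgroup. -/
theorem exists_isSyl_ge {Y Q : Subgroup G} (hQ : Q ≤ Y) (hQp : IsPGroup p Q) :
    ∃ P, IsSyl p Y P ∧ Q ≤ P := by
  have h1 : IsPGroup p (Q.subgroupOf Y) := hQp.comap_of_injective Y.subtype Y.subtype_injective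
  obtain ⟨S, hS⟩ := h1.exists_le_sylow
  refine ⟨_, isSyl_of_sylow S, fun x hx => ⟨⟨x, hQ hx⟩, hS hx, rfl⟩⟩

theorem exists_isSyl (p : ℕ) [Fact p.Prime] (Y : Subgroup G) : ∃ P, IsSyl p Y P := by
  obtain ⟨P, hP, -⟩ := exists_isSyl_ge (p := p) (Y := Y) (Q := ⊥) bot_le (IsPGroup.of_bot)
  exact ⟨P, hP⟩

/-- Sylow's theorem: every `p`-subgroup of `Y` is conjugate in `Y` to a subgroup of `P`. -/
theorem IsSyl.exists_conj_le {Y P Q : Subgroup G} (h : IsSyl p Y P) (hQ : Q ≤ Y) (hQp : IsPGroup p Q) :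
    ∃ y ∈ Y, Q ≤ cj y P := by
  obtain ⟨S, hS⟩ := h.subgroupOf
  have h1 : IsPGroup p (Q.subgroupOf Y) := hQp.comap_of_injective Y.subtype Y.subtype_injective
  obtain ⟨S', hS'⟩ := h1.exists_le_sylow
  obtain ⟨y, hy⟩ := MulAction.exists_smul_eq Y S S'
  refine ⟨y, y.2, fun x hx => ?_⟩
  have h2 : (⟨x, hQ hx⟩ : Y) ∈ (S' : Subgroup Y) := hS' hx
  rw [← hy] at h2
  have h3 : y⁻¹ * ⟨x, hQ hx⟩ * y ∈ (S : Subgroup Y) := by
    rw [Sylow.coe_subgroup_smul] at h2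
    obtain ⟨s, hs, hs2⟩ := h2
    have : y⁻¹ * ⟨x, hQ hx⟩ * y = s := by
      rw [← hs2]
      change y⁻¹ * (y * s * y⁻¹) * y = s
      group
    rw [this]
    exact hs
  rw [hS] at h3
  rw [mem_cj]
  exact h3

theorem IsSyl.conj {Y P Q : Subgroup G} (h : IsSyl p Y P) (hQ : IsSyl p Y Q) : ∃ y ∈ Y, Q = cj y P := by
  obtain ⟨y, hy, hle⟩ := h.exists_conj_le hQ.1 hQ.2.1
  refine ⟨y, hy, Subgroup.eq_of_le_of_card_ge hle ?_⟩
  rw [card_cj]
  exact hQ.2.2 _ h.1 h.2.1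

theorem IsSyl.of_card_le {Y P Q : Subgroup G} (h : IsSyl p Y P) (hQ : Q ≤ Y) (hQp : IsPGroup p Q)
    (hc : Nat.card P ≤ Nat.card Q) : IsSyl p Y Q :=
  ⟨hQ, hQp, fun R hR hRp => (h.2.2 R hR hRp).trans hc⟩

theorem IsSyl.map {Y P : Subgroup G} (h : IsSyl p Y P) (φ : MulAut G) :
    IsSyl p (Y.map φ.toMonoidHom) (P.map φ.toMonoidHom) := by
  refine ⟨Subgroup.map_mono h.1, h.2.1.map _, fun Q hQ hQp => ?_⟩
  have h1 : Q.map φ.symm.toMonoidHom ≤ Y := by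
    rintro _ ⟨q, hq, rfl⟩
    obtain ⟨y, hy, hy2⟩ := hQ hq
    have : φ.symm q = y := by rw [← hy2]; exact φ.symm_apply_apply y
    change φ.symm q ∈ Y
    rw [this]
    exact hy
  have h2 := h.2.2 _ h1 (hQp.map _)
  have h3 : Nat.card (P.map φ.toMonoidHom) = Nat.card P := Subgroup.card_map_of_injective φ.injective
  have h4 : Nat.card (Q.map φ.symm.toMonoidHom) = Nat.card Q := Subgroup.card_map_of_injective φ.symm.injective
  rwa [h4, ← h3] at h2

/-- A `p`-element of `Y` normalising the Sylow subgroup `P` lies in `P`. -/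
theorem IsSyl.mem_of_normalizes {Y P : Subgroup G} (h : IsSyl p Y P) {u : G} (hu : u ∈ Y)
    (hup : ∃ k, u ^ p ^ k = 1) (hn : u ∈ normalizer (P : Set G)) : u ∈ P := by
  have h1 : IsPGroup p (zpowers u) := by
    obtain ⟨k, hk⟩ := hup
    rintro ⟨_, i, rfl⟩
    refine ⟨k, Subtype.ext ?_⟩
    change (u ^ i) ^ p ^ k = 1
    rw [← zpow_natCast, ← zpow_mul, mul_comm, zpow_mul, zpow_natCast, hk, one_zpow]
  have h2 : zpowers u ≤ normalizer (P : Set G) := by rwa [Subgroup.zpowers_le]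
  have h3 : IsPGroup p (zpowers u ⊔ P : Subgroup G) := h1.to_sup_of_normal_right' h.2.1 h2
  have h4 := h.2.2 _ (sup_le (by rwa [Subgroup.zpowers_le]) h.1) h3
  have h5 : P = zpowers u ⊔ P := Subgroup.eq_of_le_of_card_ge le_sup_right h4
  rw [h5]
  exact Subgroup.mem_sup_left (Subgroup.mem_zpowers u)

/-- A Sylow subgroup of `Y` meets a subgroup `C ≤ Y` normalised by `Y` in a Sylow subgroup. -/
theorem IsSyl.inf_normal {Y P C : Subgroup G} (h : IsSyl p Y P) (hC : C ≤ Y)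
    (hn : ∀ y ∈ Y, ∀ c ∈ C, y * c * y⁻¹ ∈ C) : IsSyl p C (P ⊓ C) := by
  refine ⟨inf_le_right, h.2.1.to_le inf_le_left, fun Q hQ hQp => ?_⟩
  obtain ⟨y, hy, hle⟩ := h.exists_conj_le (hQ.trans hC) hQp
  have h1 : cj y C = C := by
    have : ∀ y ∈ Y, cj y C ≤ C := by
      intro y hy x hx
      rw [mem_cj] at hx
      have := hn y hy _ hx
      have h2 : y * (y⁻¹ * x * y) * y⁻¹ = x := by group
      rwa [h2] at this
    apply le_antisymm (this y hy)
    have h2 := this y⁻¹ (Y.inv_mem hy)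
    rw [cj_le_iff, inv_inv] at h2
    exact h2
  have h2 : Q ≤ cj y (P ⊓ C) := by
    rw [cj_inf, h1]
    exact le_inf hle hQ
  have h3 := Subgroup.card_le_of_le h2
  rwa [card_cj] at h3

end finite

end Cfsg.Agent.H486.Hg
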