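import Mathlib
import Cfsg.Agent.H486.HgBase
import Cfsg.Agent.H486.HgSyl
import Cfsg.Agent.S0248
import Cfsg.Agent.PLocal.SL2Perfect

/-!
# Homogeneous finite groups: matrices acting on elementary abelian subgroups (helper486)
-/

set_option autoImplicit false
set_option linter.unusedSectionVars false

namespace Cfsg.Agent.H486.Hg

open Subgroup Cfsg.Agent.H486.Sn Cfsg.Agent.Schreier.Basic Matrix

universe u

section equiv

variable {A : Type*} [Group A] [Finite A] {p : ℕ} [hp : Fact p.Prime]

theorem equiv_aux {V : Type*} [AddCommGroup V] [Module (ZMod p) V] [Finite V] {k : ℕ} (hk : Nat.card V = p ^ k) :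
    Nonempty (V ≃ₗ[ZMod p] (Fin k → ZMod p)) := by
  have : Module.Finite (ZMod p) V := Module.Finite.of_finite
  have h1 : Module.finrank (ZMod p) V = k := by
    have h2 : Nat.card V = Nat.card (ZMod p) ^ Module.finrank (ZMod p) V :=
      Module.natCard_eq_pow_finrank
    rw [Nat.card_zmod, hk] at h2
    exact (Nat.pow_right_injective hp.out.two_le h2).symm
  exact ⟨(Module.finBasisOfFinrankEq (ZMod p) V h1).equivFun⟩

/-- An elementary abelian group of order `p ^ k`. -/
theorem exists_equiv {k : ℕ} (hc : ∀ x y : A, x * y = y * x) (he : ∀ x : A, x ^ p = 1) (hk : Nat.card A = p ^ k) :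
    Nonempty (A ≃* Multiplicative (Fin k → ZMod p)) := by
  let _ : CommGroup A := { (inferInstance : Group A) with mul_comm := hc }
  let _ : Module (ZMod p) (Additive A) := AddCommGroup.zmodModule (fun x => by
    have := he (Additive.toMul x)
    exact congrArg Additive.ofMul this)
  obtain ⟨c⟩ := equiv_aux (p := p) (V := Additive A) hk
  exact ⟨AddEquiv.toMultiplicativeRight c.toAddEquiv⟩

theorem basis2_aux {V : Type*} [AddCommGroup V] [Module (ZMod p) V] [Finite V] (hk : Nat.card V = p ^ 2) {z e : V}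
    (hz : z ≠ 0) (hze : ∀ a : ZMod p, a • z ≠ e) :
    ∃ c : V ≃ₗ[ZMod p] (Fin 2 → ZMod p), c z = ![1, 0] ∧ c e = ![0, 1] := by
  have : Module.Finite (ZMod p) V := Module.Finite.of_finite
  have h1 : Module.finrank (ZMod p) V = 2 := by
    have h2 : Nat.card V = Nat.card (ZMod p) ^ Module.finrank (ZMod p) V :=
      Module.natCard_eq_pow_finrank
    rw [Nat.card_zmod, hk] at h2
    exact (Nat.pow_right_injective hp.out.two_le h2).symm
  have hli : LinearIndependent (ZMod p) ![z, e] := by
    rw [LinearIndependent.pair_iff' hz]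
    exact hze
  let b : Module.Basis (Fin 2) (ZMod p) V :=
    basisOfLinearIndependentOfCardEqFinrank hli (by rw [h1]; simp)
  have hb0 : b 0 = z := by simp [b]
  have hb1 : b 1 = e := by simp [b]
  refine ⟨b.equivFun, ?_, ?_⟩
  · rw [← hb0]
    ext i
    fin_cases i <;> simp
  · rw [← hb1]
    ext i
    fin_cases i <;> simp

/-- The coordinates given by two independent elements. -/
theorem exists_basis2 (hc : ∀ x y : A, x * y = y * x) (he : ∀ x : A, x ^ p = 1) (hk : Nat.card A = p ^ 2) {z e : A}
    (hz : z ≠ 1) (hze : e ∉ zpowers z) :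
    ∃ c : A ≃* Multiplicative (Fin 2 → ZMod p), c z = Multiplicative.ofAdd ![1, 0] ∧
      c e = Multiplicative.ofAdd ![0, 1] := by
  let _ : CommGroup A := { (inferInstance : Group A) with mul_comm := hc }
  let _ : Module (ZMod p) (Additive A) := AddCommGroup.zmodModule (fun x => by
    have := he (Additive.toMul x)
    exact congrArg Additive.ofMul this)
  obtain ⟨c, h1, h2⟩ := basis2_aux (p := p) (V := Additive A) hk (z := Additive.ofMul z) (e := Additive.ofMul e) hz (by
    intro a ha
    apply hze
    refine ⟨(a.val : ℤ), ?_⟩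
    have h2 : ((a.val : ℕ) : ZMod p) • Additive.ofMul z = Additive.ofMul e := by
      rw [ZMod.natCast_val, ZMod.cast_id', id, ha]
    rw [Nat.cast_smul_eq_nsmul] at h2
    have h3 : z ^ a.val = e := h2
    change z ^ ((a.val : ℕ) : ℤ) = e
    rw [zpow_natCast, h3])
  exact ⟨AddEquiv.toMultiplicativeRight c.toAddEquiv, congrArg Multiplicative.ofAdd h1, congrArg Multiplicative.ofAdd h2⟩

end equiv

section aut

variable {G : Type u} [Group G] {p : ℕ} [hp : Fact p.Prime] {k : ℕ} {E : Subgroup G}

/-- the automorphism of `E` given by a linear map in the coordinates `c` -/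
noncomputable def autOf (c : E ≃* Multiplicative (Fin k → ZMod p))
    (L : (Fin k → ZMod p) ≃ₗ[ZMod p] (Fin k → ZMod p)) : MulAut E :=
  (c.trans (AddEquiv.toMultiplicative L.toAddEquiv)).trans c.symm

theorem autOf_apply (c : E ≃* Multiplicative (Fin k → ZMod p))
    (L : (Fin k → ZMod p) ≃ₗ[ZMod p] (Fin k → ZMod p)) (x : E) :
    autOf c L x = c.symm (Multiplicative.ofAdd (L (Multiplicative.toAdd (c x)))) := rfl

noncomputable def slAut (c : E ≃* Multiplicative (Fin k → ZMod p)) :
    SpecialLinearGroup (Fin k) (ZMod p) →* MulAut E where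
  toFun M := autOf c (SpecialLinearGroup.toLin' M)
  map_one' := by
    ext x
    rw [autOf_apply, map_one]
    simp
  map_mul' M N := by
    ext x
    rw [MulAut.mul_apply, autOf_apply, autOf_apply, autOf_apply, map_mul]
    simp

theorem slAut_apply (c : E ≃* Multiplicative (Fin k → ZMod p)) (M : SpecialLinearGroup (Fin k) (ZMod p)) (x : E) :
    slAut c M x = c.symm (Multiplicative.ofAdd (M.1.mulVec (Multiplicative.toAdd (c x)))) := by
  change autOf c (SpecialLinearGroup.toLin' M) x = _
  rw [autOf_apply, SpecialLinearGroup.toLin'_apply, Matrix.toLin'_apply]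

/-- `SL_k(p)` is perfect -/
theorem perfect_sl (h : 3 ≤ k ∨ (k = 2 ∧ 5 ≤ p)) : _root_.commutator (SpecialLinearGroup (Fin k) (ZMod p)) = ⊤ := by
  rcases h with h | ⟨rfl, h⟩
  · exact Cfsg.Agent.S0248.result k h
  · exact Cfsg.Agent.PLocal.SL2Perfect.commutator_eq_top (by omega) (by omega)

/-- **Every matrix of `SL_k(p)` is induced by conjugation**, in a homogeneous group with the Schreier property. -/
theorem exists_inner_sl [Finite G] (hS : Sch G) (hH : Homog G) (c : E ≃* Multiplicative (Fin k → ZMod p))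
    (h : 3 ≤ k ∨ (k = 2 ∧ 5 ≤ p)) (M : SpecialLinearGroup (Fin k) (ZMod p)) :
    ∃ g : G, ∀ x : E, g * x * g⁻¹ =
      (c.symm (Multiplicative.ofAdd (M.1.mulVec (Multiplicative.toAdd (c x)))) : G) := by
  have h1 : ⁅(slAut c).range, (slAut c).range⁆ = (slAut c).range := by
    rw [MonoidHom.range_eq_map, ← Subgroup.map_commutator, ← _root_.commutator_def, perfect_sl h]
  obtain ⟨g, hg⟩ := inner_of_perfect hS hH E h1 (f := slAut c M) ⟨M, rfl⟩
  refine ⟨g, fun x => ?_⟩
  rw [hg x, slAut_apply]

end aut

end Cfsg.Agent.H486.Hg
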