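import Mathlib
import Cfsg.Agent.H486.HgBase

/-!
# Homogeneous finite groups: the local information (helper486, for S3923)

`Loc G` collects what is proved about every homogeneous finite group (with the Schreier property) in the files
`H486/Hg*.lean` (theorem `Hg.loc`): Sylow subgroups for odd primes are cyclic, or `p = 3`, they are abelian and have a
very small automizer; there is no elementary abelian subgroup of order 16, and one of order 8 forces `1344 ∣ |G|`.
-/

set_option autoImplicit false

namespace Cfsg.Agent.H486.Hg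

open Subgroup

/-- local information about homogeneous groups -/
structure Loc (G : Type*) [Group G] : Prop where
  /-- Sylow subgroups for odd primes -/
  odd : ∀ (p : ℕ) [Fact p.Prime], p ≠ 2 → ∀ P : Sylow p G, IsCyclic (P : Subgroup G) ∨
    (p = 3 ∧ (∀ x ∈ (P : Subgroup G), ∀ y ∈ (P : Subgroup G), x * y = y * x) ∧
      ∀ g ∈ normalizer ((P : Subgroup G) : Set G),
        (∀ x ∈ (P : Subgroup G), g * x * g⁻¹ = x) ∨ (∀ x ∈ (P : Subgroup G), g * x * g⁻¹ = x⁻¹) ∨
          (∀ x ∈ (P : Subgroup G), g ^ 2 * x * (g ^ 2)⁻¹ = x⁻¹))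
  /-- no elementary abelian subgroup of order 16 -/
  two : ∀ E : Subgroup G, (∀ x ∈ E, ∀ y ∈ E, x * y = y * x) → (∀ x ∈ E, x ^ 2 = 1) → Nat.card E ≤ 8
  /-- an elementary abelian subgroup of order 8 has automizer `GL₃(2)` -/
  two8 : ∀ E : Subgroup G, (∀ x ∈ E, ∀ y ∈ E, x * y = y * x) → (∀ x ∈ E, x ^ 2 = 1) → Nat.card E = 8 →
    1344 ∣ Nat.card G

end Cfsg.Agent.H486.Hg
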