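import Mathlib
import Cfsg.Agent.H486.HgBase
import Cfsg.Agent.H486.HgSyl

/-!
# Homogeneous finite groups: the inverting automorphism (helper486)

`exists_w` : for a `p`-group `P` (`p` odd) acting on the elementary abelian `E` there is an automorphism of `G` of
2-power order leaving `P` invariant and inverting `E`;
`exists_fixed` : every element of `P` acts on `E` as a fixed point of `w` in `P`.
-/

set_option autoImplicit false
set_option linter.unusedSectionVars false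

namespace Cfsg.Agent.H486.Hg

open Subgroup Cfsg.Agent.H486.Sn

universe u

variable {G : Type u} [Group G]

/-- the elements of `G` acting on `E` as elements of `P` -/
def YP (E P : Subgroup G) (h : ∀ a ∈ P, ∀ x ∈ E, a * x * a⁻¹ ∈ E) : Subgroup G where
  carrier := {g | ∃ a ∈ P, ∀ x ∈ E, g * x * g⁻¹ = a * x * a⁻¹}
  mul_mem' := by
    rintro g g' ⟨a, ha, h1⟩ ⟨b, hb, h2⟩
    refine ⟨a * b, P.mul_mem ha hb, fun x hx => ?_⟩
    have h3 : g * g' * x * (g * g')⁻¹ = g * (g' * x * g'⁻¹) * g⁻¹ := by group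
    rw [h3, h2 x hx, h1 _ (h b hb x hx)]
    group
  one_mem' := ⟨1, P.one_mem, fun _ _ => rfl⟩
  inv_mem' := by
    rintro g ⟨a, ha, h1⟩
    refine ⟨a⁻¹, P.inv_mem ha, fun x hx => ?_⟩
    have h2 := h a⁻¹ (P.inv_mem ha) x hx
    have h3 := h1 _ h2
    have h4 : a * (a⁻¹ * x * a⁻¹⁻¹) * a⁻¹ = x := by group
    rw [h4] at h3
    have h5 : g⁻¹ * (g * (a⁻¹ * x * a⁻¹⁻¹) * g⁻¹) * g = a⁻¹ * x * a⁻¹⁻¹ := by group
    rw [h3] at h5
    rw [inv_inv, h5]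

theorem mem_YP {E P : Subgroup G} {h : ∀ a ∈ P, ∀ x ∈ E, a * x * a⁻¹ ∈ E} {g : G} :
    g ∈ YP E P h ↔ ∃ a ∈ P, ∀ x ∈ E, g * x * g⁻¹ = a * x * a⁻¹ := Iff.rfl

theorem le_YP {E P : Subgroup G} {h : ∀ a ∈ P, ∀ x ∈ E, a * x * a⁻¹ ∈ E} : P ≤ YP E P h :=
  fun a ha => ⟨a, ha, fun _ _ => rfl⟩

/-- the inversion on a commutative subgroup -/
def invE (E : Subgroup G) (hE : ∀ x ∈ E, ∀ y ∈ E, x * y = y * x) : MulAut E where
  toFun x := x⁻¹
  invFun x := x⁻¹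
  left_inv x := inv_inv x
  right_inv x := inv_inv x
  map_mul' x y := by
    rw [mul_inv_rev]
    exact Subtype.ext (hE _ (E.inv_mem y.2) _ (E.inv_mem x.2))

section

variable [Finite G] {p : ℕ} [hp : Fact p.Prime]

theorem exists_w (hp2 : p ≠ 2) (hH : Homog G) {E P : Subgroup G} (hE : ∀ x ∈ E, ∀ y ∈ E, x * y = y * x)
    (hPE : ∀ a ∈ P, ∀ x ∈ E, a * x * a⁻¹ ∈ E) (hP : IsSyl p (YP E P hPE) P) :
    ∃ w : MulAut G, (∃ a, w ^ 2 ^ a = 1) ∧ (∀ x ∈ P, w x ∈ P) ∧ ∀ x ∈ E, w x = x⁻¹ := by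
  obtain ⟨φ, hφ⟩ := hH.exists_aut (invE E hE)
  have hφE : ∀ x ∈ E, φ x = x⁻¹ := fun x hx => hφ ⟨x, hx⟩
  set Y := YP E P hPE with hY
  have hmap : Y.map φ.toMonoidHom = Y := by
    apply Subgroup.eq_of_le_of_card_ge
    · rintro _ ⟨y, ⟨a, ha, h1⟩, rfl⟩
      refine ⟨a, ha, fun x hx => ?_⟩
      have h2 : φ y * x * (φ y)⁻¹ = φ (y * x⁻¹ * y⁻¹) := by
        rw [map_mul, map_mul, map_inv, map_inv, hφE x hx, inv_inv]
      change φ y * x * (φ y)⁻¹ = _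
      rw [h2, h1 _ (E.inv_mem hx), hφE _ (hPE a ha _ (E.inv_mem hx))]
      group
    · exact (Subgroup.card_map_of_injective φ.injective).ge
  have hP' : IsSyl p Y (P.map φ.toMonoidHom) := by
    have := hP.map φ
    rwa [hmap] at this
  obtain ⟨y, ⟨a, ha, hya⟩, hconj⟩ := hP.conj hP'
  set w1 : MulAut G := MulAut.conj y⁻¹ * φ with hw1
  have hw1a : ∀ x, w1 x = y⁻¹ * φ x * y := by
    intro x
    rw [hw1, MulAut.mul_apply, MulAut.conj_apply, inv_inv]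
  have hw1P : ∀ x ∈ P, w1 x ∈ P := by
    intro x hx
    have h1 : φ x ∈ cj y P := by
      rw [← hconj]
      exact ⟨x, hx, rfl⟩
    rw [mem_cj] at h1
    rw [hw1a]
    exact h1
  have hinv : ∀ x ∈ E, y⁻¹ * x * y = a⁻¹ * x * a := by
    intro x hx
    have h2 := hPE a⁻¹ (P.inv_mem ha) x hx
    have h3 := hya _ h2
    have h4 : a * (a⁻¹ * x * a⁻¹⁻¹) * a⁻¹ = x := by group
    rw [h4] at h3
    have h5 : y⁻¹ * (y * (a⁻¹ * x * a⁻¹⁻¹) * y⁻¹) * y = a⁻¹ * x * a⁻¹⁻¹ := by group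
    rw [h3] at h5
    rw [h5, inv_inv]
  have hw1E : ∀ x ∈ E, w1 x = a⁻¹ * x⁻¹ * a := by
    intro x hx
    rw [hw1a, hφE x hx, hinv _ (E.inv_mem hx)]
  obtain ⟨n, hn⟩ := hP.isPGroup ⟨a, ha⟩
  have hn' : a ^ p ^ n = 1 := congrArg Subtype.val hn
  have hpow : ∀ k : ℕ, ∀ x ∈ E, (w1 ^ k) x = (a ^ k)⁻¹ * x ^ ((-1 : ℤ) ^ k) * a ^ k := by
    intro k
    induction k with
    | zero => intro x _; simp
    | succ k ih =>
      intro x hx
      have h1 : (a ^ k)⁻¹ * x ^ ((-1 : ℤ) ^ k) * a ^ k ∈ E := by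
        have := hPE (a ^ k)⁻¹ (P.inv_mem (P.pow_mem ha k)) _ (E.zpow_mem hx ((-1 : ℤ) ^ k))
        rwa [inv_inv] at this
      rw [pow_succ', MulAut.mul_apply, ih x hx, hw1E _ h1, pow_succ a k, pow_succ (-1 : ℤ) k, zpow_mul]
      simp only [zpow_neg, zpow_one]
      group
  have hodd : Odd (p ^ n) := (hp.out.odd_of_ne_two hp2).pow
  set w2 : MulAut G := w1 ^ p ^ n with hw2
  have hw2E : ∀ x ∈ E, w2 x = x⁻¹ := by
    intro x hx
    rw [hw2, hpow _ x hx, hn', hodd.neg_one_pow]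
    simp
  have hpowP : ∀ (v : MulAut G), (∀ x ∈ P, v x ∈ P) → ∀ k : ℕ, ∀ x ∈ P, (v ^ k) x ∈ P := by
    intro v hv k
    induction k with
    | zero => intro x hx; exact hx
    | succ k ih =>
      intro x hx
      rw [pow_succ', MulAut.mul_apply]
      exact hv _ (ih x hx)
  have hw2P : ∀ x ∈ P, w2 x ∈ P := hpowP w1 hw1P _
  obtain ⟨v, m, hm, hvm⟩ := Nat.exists_eq_two_pow_mul_odd (orderOf_pos w2).ne'
  refine ⟨w2 ^ m, ⟨v, ?_⟩, hpowP w2 hw2P m, ?_⟩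
  · rw [← pow_mul, mul_comm, ← hvm, pow_orderOf_eq_one]
  · have h3 : ∀ k : ℕ, ∀ x ∈ E, (w2 ^ k) x = x ^ ((-1 : ℤ) ^ k) := by
      intro k
      induction k with
      | zero => intro x _; simp
      | succ k ih =>
        intro x hx
        rw [pow_succ', MulAut.mul_apply, ih x hx, hw2E _ (E.zpow_mem hx _), pow_succ, zpow_mul]
        simp
    intro x hx
    rw [h3 m x hx, hm.neg_one_pow]
    simp

theorem fixed_trivial (hp2 : p ≠ 2) {E : Subgroup G} {w : MulAut G} (hw : ∀ x ∈ E, w x = x⁻¹)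
    (hmax : ∀ x, (∀ y ∈ E, x * y = y * x) → x ^ p = 1 → x ∈ E) {x : G} (hx : w x = x)
    (hxC : ∀ y ∈ E, x * y = y * x) (hxp : ∃ k, x ^ p ^ k = 1) : x = 1 := by
  by_contra hne
  obtain ⟨k, hk⟩ := hxp
  obtain ⟨j, hj, hj2⟩ := (Nat.dvd_prime_pow hp.out).1 (orderOf_dvd_of_pow_eq_one hk)
  have hj0 : j ≠ 0 := by
    rintro rfl
    rw [pow_zero] at hj2
    exact hne (orderOf_eq_one_iff.1 hj2)
  obtain ⟨i, rfl⟩ := Nat.exists_eq_succ_of_ne_zero hj0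
  set z := x ^ p ^ i with hz
  have hzp : z ^ p = 1 := by
    rw [hz, ← pow_mul, ← pow_succ, ← Nat.succ_eq_add_one, ← hj2, pow_orderOf_eq_one]
  have hz1 : z ≠ 1 := by
    intro h
    have h1 := orderOf_dvd_of_pow_eq_one h
    rw [hj2, Nat.pow_dvd_pow_iff_le_right hp.out.one_lt] at h1
    omega
  have hzC : ∀ y ∈ E, z * y = y * z := fun y hy => (Commute.pow_left (hxC y hy) _)
  have hzE := hmax z hzC hzp
  have h1 := hw z hzE
  have h2 : w z = z := by rw [hz, map_pow, hx]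
  rw [h2] at h1
  have h3 : z ^ 2 = 1 := by
    rw [pow_two]
    nth_rewrite 1 [h1]
    exact inv_mul_cancel z
  have h4 : z ^ (Nat.gcd p 2) = 1 := by
    rw [pow_gcd_eq_one]
    exact ⟨hzp, h3⟩
  rw [(Nat.coprime_primes hp.out Nat.prime_two).2 hp2, pow_one] at h4
  exact hz1 h4

theorem exists_fixed (hp2 : p ≠ 2) {E P : Subgroup G}
    (hPE : ∀ a ∈ P, ∀ x ∈ E, a * x * a⁻¹ ∈ E) (hP : IsPGroup p P) {w : MulAut G} (hw2 : ∃ a, w ^ 2 ^ a = 1)
    (hwP : ∀ x ∈ P, w x ∈ P) (hwE : ∀ x ∈ E, w x = x⁻¹) {g : G} (hg : g ∈ P) :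
    ∃ b ∈ P, w b = b ∧ ∀ x ∈ E, b * x * b⁻¹ = g * x * g⁻¹ := by
  classical
  let Ω : Type u := {x : G // x ∈ P ∧ ∀ e ∈ E, x * e * x⁻¹ = g * e * g⁻¹}
  have hmap : ∀ x : G, (x ∈ P ∧ ∀ e ∈ E, x * e * x⁻¹ = g * e * g⁻¹) →
      (w x ∈ P ∧ ∀ e ∈ E, w x * e * (w x)⁻¹ = g * e * g⁻¹) := by
    rintro x ⟨h1, h2⟩
    refine ⟨hwP x h1, fun e he => ?_⟩
    have h3 : w x * e * (w x)⁻¹ = w (x * e⁻¹ * x⁻¹) := by
      rw [map_mul, map_mul, map_inv, map_inv, hwE e he, inv_inv]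
    rw [h3, h2 _ (E.inv_mem he), hwE _ (hPE g hg _ (E.inv_mem he))]
    group
  let f : Ω → Ω := fun x => ⟨w x.1, hmap x.1 x.2⟩
  have hf : Function.Injective f := by
    intro x y hxy
    exact Subtype.ext (w.injective (congrArg Subtype.val hxy))
  have : Fintype Ω := Fintype.ofFinite _
  let σ : Equiv.Perm Ω := Equiv.ofBijective f (Finite.injective_iff_bijective.1 hf)
  have hσ : ∀ (k : ℕ) (x : Ω), ((σ ^ k) x : G) = (w ^ k) x.1 := by
    intro k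
    induction k with
    | zero => intro x; rfl
    | succ k ih =>
      intro x
      rw [pow_succ', pow_succ', Equiv.Perm.mul_apply, MulAut.mul_apply, ← ih x]
      rfl
  obtain ⟨a, ha⟩ := hw2
  have hσ2 : σ ^ 2 ^ a = 1 := by
    ext x
    rw [hσ, ha]
    rfl
  have hcard : ∃ n, Fintype.card Ω = p ^ n := by
    let D : Subgroup P := (centralizer (E : Set G)).subgroupOf P
    obtain ⟨n, hn⟩ := IsPGroup.iff_card.1 (hP.to_subgroup D)
    refine ⟨n, ?_⟩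
    rw [← hn, ← Nat.card_eq_fintype_card]
    refine Nat.card_congr ?_
    refine
      { toFun := fun x => ⟨⟨g⁻¹ * x.1, P.mul_mem (P.inv_mem hg) x.2.1⟩, ?_⟩
        invFun := fun y => ⟨g * y.1.1, P.mul_mem hg y.1.2, ?_⟩
        left_inv := fun x => Subtype.ext (by simp)
        right_inv := fun y => Subtype.ext (Subtype.ext (by simp)) }
    · rw [Subgroup.mem_subgroupOf, mem_centralizer_iff]
      intro e he
      have h1 := x.2.2 e he
      have h2 : g⁻¹ * (x.1 * e * x.1⁻¹) * g = e := by rw [h1]; group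
      have h3 : e * (g⁻¹ * x.1) = g⁻¹ * (x.1 * e * x.1⁻¹) * g * (g⁻¹ * x.1) := by rw [h2]
      change e * (g⁻¹ * x.1) = g⁻¹ * x.1 * e
      rw [h3]
      group
    · intro e he
      have h1 := y.2
      rw [Subgroup.mem_subgroupOf, mem_centralizer_iff] at h1
      have h2 : e * y.1.1 = y.1.1 * e := h1 e he
      have h3 : g * y.1.1 * e * (g * y.1.1)⁻¹ = g * (y.1.1 * e) * y.1.1⁻¹ * g⁻¹ := by group
      rw [h3, ← h2]
      group
  obtain ⟨n, hn⟩ := hcard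
  have hnd : ¬ 2 ∣ Fintype.card Ω := by
    rw [hn]
    intro h
    exact hp2 ((Nat.prime_dvd_prime_iff_eq Nat.prime_two hp.out).1 (Nat.prime_two.dvd_of_dvd_pow h)).symm
  obtain ⟨b, hb⟩ := Equiv.Perm.exists_fixed_point_of_prime (p := 2) hnd hσ2
  exact ⟨b.1, b.2.1, congrArg Subtype.val hb, b.2.2⟩

end

end Cfsg.Agent.H486.Hg
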