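import Mathlib
import Cfsg.Agent.H486.HgW
import Cfsg.Agent.H486.HgGL
import Cfsg.Prelude.Def_CaseTheorems

/-!
# Homogeneous finite groups: `p`-rank at most 2 for `p` odd (helper486)

`prankLE_two` : a homogeneous finite group with the Schreier property has `p`-rank at most 2 for every odd prime `p`.
-/

set_option autoImplicit false
set_option linter.unusedSectionVars false

namespace Cfsg.Agent.H486.Hg

open Subgroup Cfsg.Agent.H486.Sn Cfsg.Agent.Schreier.Basic Matrix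

universe u

variable {G : Type u} [Group G]

/-- the subgroup generated by commuting elements of exponent `p` -/
theorem elem_closure {p : ℕ} {S : Set G} (hc : ∀ x ∈ S, ∀ y ∈ S, x * y = y * x) (he : ∀ x ∈ S, x ^ p = 1) :
    IsMulCommutative (closure S) ∧ ∀ x ∈ closure S, x ^ p = 1 := by
  have h1 : IsMulCommutative (closure S) := isMulCommutative_closure hc
  refine ⟨h1, fun x hx => ?_⟩
  induction hx using closure_induction with
  | mem x hx => exact he x hx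
  | one => exact one_pow p
  | mul x y hx hy h2 h3 =>
    have h4 : x * y = y * x := congrArg Subtype.val (h1.is_comm.comm (⟨x, hx⟩ : closure S) ⟨y, hy⟩)
    rw [(show Commute x y from h4).mul_pow, h2, h3, one_mul]
  | inv x hx h2 => rw [inv_pow, h2, inv_one]

theorem comm_of {A : Subgroup G} (h : IsMulCommutative A) : ∀ x ∈ A, ∀ y ∈ A, x * y = y * x :=
  fun x hx y hy => congrArg Subtype.val (h.is_comm.comm (⟨x, hx⟩ : A) ⟨y, hy⟩)

section finite

variable [Finite G] {p : ℕ} [hp : Fact p.Prime]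

/-- a maximal elementary abelian subgroup contains the elements of order `p` centralising it -/
theorem mem_of_max {E : Subgroup G} (hE : ∀ x ∈ E, ∀ y ∈ E, x * y = y * x) (hEp : ∀ x ∈ E, x ^ p = 1)
    (hmax : ∀ A : Subgroup G, IsMulCommutative A → (∀ a ∈ A, a ^ p = 1) → Nat.card A ≤ Nat.card E)
    {x : G} (hx : ∀ y ∈ E, x * y = y * x) (hxp : x ^ p = 1) : x ∈ E := by
  have h1 := elem_closure (p := p) (S := (E : Set G) ∪ {x}) (by
    rintro a (ha | ha) b (hb | hb)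
    · exact hE a ha b hb
    · rw [Set.mem_singleton_iff.1 hb]; exact (hx a ha).symm
    · rw [Set.mem_singleton_iff.1 ha]; exact hx b hb
    · rw [Set.mem_singleton_iff.1 ha, Set.mem_singleton_iff.1 hb]) (by
    rintro a (ha | ha)
    · exact hEp a ha
    · rw [Set.mem_singleton_iff.1 ha]; exact hxp)
  have h2 : E ≤ closure ((E : Set G) ∪ {x}) := fun y hy => subset_closure (Or.inl hy)
  have h3 : E = closure ((E : Set G) ∪ {x}) := Subgroup.eq_of_le_of_card_ge h2 (hmax _ h1.1 h1.2)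
  rw [h3]
  exact subset_closure (Or.inr rfl)

theorem exists_p_part (g : G) (n : ℕ) : ∃ t : ℕ, (∃ j, t = 1 + p ^ n * j) ∧ ∃ k, (g ^ t) ^ p ^ k = 1 := by
  obtain ⟨k, m, hm, hg⟩ := Nat.exists_eq_pow_mul_and_not_dvd (orderOf_pos g).ne' p hp.out.ne_one
  have hcop : Nat.Coprime (p ^ n) m := Nat.Coprime.pow_left n ((hp.out.coprime_iff_not_dvd).2 hm)
  obtain ⟨t, ht1, ht2⟩ := Nat.chineseRemainder hcop 1 0
  have hm0 : 0 < m := Nat.pos_of_ne_zero (by rintro rfl; exact hm (dvd_zero p))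
  have hpn : 0 < p ^ n := pow_pos hp.out.pos n
  have h1 : t + p ^ n * m ≡ 1 [MOD p ^ n] := by
    have : t + p ^ n * m ≡ t [MOD p ^ n] := by simp [Nat.ModEq]
    exact this.trans ht1
  have h2 : t + p ^ n * m ≡ 0 [MOD m] := by
    have : t + p ^ n * m ≡ t [MOD m] := by simp [Nat.ModEq]
    exact this.trans ht2
  have h3 : 1 ≤ t + p ^ n * m := by
    have := Nat.mul_pos hpn hm0
    omega
  refine ⟨t + p ^ n * m, ?_, k, ?_⟩
  · obtain ⟨j, hj⟩ := (Nat.modEq_iff_dvd' h3).1 h1.symm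
    exact ⟨j, by omega⟩
  · rw [← pow_mul]
    obtain ⟨i, hi⟩ := (Nat.modEq_zero_iff_dvd).1 h2
    rw [hi, mul_assoc, mul_comm i, ← mul_assoc, mul_comm m, pow_mul]
    have : g ^ (p ^ k * m) = 1 := by rw [← hg, pow_orderOf_eq_one]
    rw [this, one_pow]

/-- A Sylow `p`-subgroup of `Y` covers the `p`-part of the action on `E`. -/
theorem exists_act_eq {E Y P : Subgroup G} (hP : IsSyl p Y P) (hYE : ∀ y ∈ Y, ∀ x ∈ E, y * x * y⁻¹ ∈ E)
    (hab : ∀ y ∈ Y, ∀ y' ∈ Y, ∀ x ∈ E, y * (y' * x * y'⁻¹) * y⁻¹ = y' * (y * x * y⁻¹) * y'⁻¹)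
    {g : G} (hg : g ∈ Y) {n : ℕ} (hgn : ∀ x ∈ E, g ^ p ^ n * x * (g ^ p ^ n)⁻¹ = x) :
    ∃ a ∈ P, ∀ x ∈ E, a * x * a⁻¹ = g * x * g⁻¹ := by
  obtain ⟨t, ⟨j, rfl⟩, k, hk⟩ := exists_p_part (p := p) g n
  set u := g ^ (1 + p ^ n * j) with hu
  have huY : u ∈ Y := Y.pow_mem hg _
  have hact : ∀ x ∈ E, u * x * u⁻¹ = g * x * g⁻¹ := by
    intro x hx
    have h1 : ∀ j : ℕ, ∀ x ∈ E, (g ^ p ^ n) ^ j * x * ((g ^ p ^ n) ^ j)⁻¹ = x := by
      intro j
      induction j with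
      | zero => intro x _; simp
      | succ j ih =>
        intro x hx
        have h2 : (g ^ p ^ n) ^ (j + 1) * x * ((g ^ p ^ n) ^ (j + 1))⁻¹ =
            g ^ p ^ n * ((g ^ p ^ n) ^ j * x * ((g ^ p ^ n) ^ j)⁻¹) * (g ^ p ^ n)⁻¹ := by
          rw [pow_succ' (g ^ p ^ n)]; group
        rw [h2, ih x hx, hgn x hx]
    have h3 : u * x * u⁻¹ = g * ((g ^ p ^ n) ^ j * x * ((g ^ p ^ n) ^ j)⁻¹) * g⁻¹ := by
      rw [hu, pow_add, pow_one, pow_mul]; group
    rw [h3, h1 j x hx]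
  have h1 : IsPGroup p (zpowers u) := by
    rintro ⟨_, i, rfl⟩
    refine ⟨k, Subtype.ext ?_⟩
    change (u ^ i) ^ p ^ k = 1
    rw [← zpow_natCast, ← _root_.zpow_mul, mul_comm, _root_.zpow_mul, zpow_natCast, hk, _root_.one_zpow]
  obtain ⟨y, hy, hle⟩ := hP.exists_conj_le (by rwa [zpowers_le]) h1
  have h2 := hle (mem_zpowers u)
  rw [mem_cj] at h2
  refine ⟨_, h2, fun x hx => ?_⟩
  have h3 : y⁻¹ * u * y * x * (y⁻¹ * u * y)⁻¹ = y⁻¹ * (u * (y * x * y⁻¹) * u⁻¹) * y := by group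
  rw [h3, hab u huY y hy x hx]
  have h4 : y⁻¹ * (y * (u * x * u⁻¹) * y⁻¹) * y = u * x * u⁻¹ := by group
  rw [h4, hact x hx]

/-- the matrix `v ↦ v + v₀ h` -/
theorem exists_mat {n : ℕ} (h : Fin (n + 1) → ZMod p) (h0 : h 0 = 0) :
    ∃ M : SpecialLinearGroup (Fin (n + 1)) (ZMod p), ∀ v, M.1.mulVec v = v + v 0 • h := by
  let r : Fin (n + 1) → ZMod p := Pi.single 0 1
  refine ⟨⟨1 + replicateCol Unit h * replicateRow Unit r, ?_⟩, fun v => ?_⟩
  · rw [det_one_add_replicateCol_mul_replicateRow]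
    simp [r, h0]
  · change (1 + replicateCol Unit h * replicateRow Unit r).mulVec v = _
    rw [add_mulVec, one_mulVec, ← mulVec_mulVec]
    congr 1
    ext i
    simp [mulVec, dotProduct, replicateCol, replicateRow, r, Pi.single_apply, mul_comm]

/-- a maximal elementary abelian subgroup -/
theorem exists_max_elem (p : ℕ) : ∃ E : Subgroup G, IsMulCommutative E ∧ (∀ a ∈ E, a ^ p = 1) ∧
    ∀ A : Subgroup G, IsMulCommutative A → (∀ a ∈ A, a ^ p = 1) → Nat.card A ≤ Nat.card E := by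
  have h1 : Finite {A : Subgroup G // IsMulCommutative A ∧ ∀ a ∈ A, a ^ p = 1} := Subtype.finite
  have h2 : Nonempty {A : Subgroup G // IsMulCommutative A ∧ ∀ a ∈ A, a ^ p = 1} :=
    ⟨⟨⊥, inferInstance, fun a ha => by rw [mem_bot.1 ha, one_pow]⟩⟩
  obtain ⟨E, hE⟩ := Finite.exists_max (fun A : {A : Subgroup G // IsMulCommutative A ∧ ∀ a ∈ A, a ^ p = 1} =>
    Nat.card A.1)
  exact ⟨E.1, E.2.1, E.2.2, fun A h3 h4 => hE ⟨A, h3, h4⟩⟩

section sh

variable {E : Subgroup G} {n : ℕ} (c : E ≃* Multiplicative (Fin (n + 1) → ZMod p))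

/-- the transvection `v ↦ v + v₀ h` in the coordinates `c` -/
noncomputable def sh (h : Fin (n + 1) → ZMod p) (x : E) : E :=
  c.symm (Multiplicative.ofAdd (Multiplicative.toAdd (c x) + Multiplicative.toAdd (c x) 0 • h))

theorem c_sh (h : Fin (n + 1) → ZMod p) (x : E) :
    Multiplicative.toAdd (c (sh c h x)) = Multiplicative.toAdd (c x) + Multiplicative.toAdd (c x) 0 • h := by
  rw [sh, MulEquiv.apply_symm_apply]
  rfl

theorem sh_sh {h h' : Fin (n + 1) → ZMod p} (h0 : h' 0 = 0) (x : E) : sh c h (sh c h' x) = sh c (h' + h) x := by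
  apply c.injective
  apply Multiplicative.toAdd.injective
  rw [c_sh, c_sh, c_sh]
  simp [h0, add_assoc]

theorem sh_zero (x : E) : sh c 0 x = x := by
  apply c.injective
  apply Multiplicative.toAdd.injective
  rw [c_sh]
  simp

theorem sh_inj {h h' : Fin (n + 1) → ZMod p} (hh : ∀ x, sh c h x = sh c h' x) : h = h' := by
  have h1 := hh (c.symm (Multiplicative.ofAdd (Pi.single 0 1)))
  have h2 := congrArg (fun z => Multiplicative.toAdd (c z)) h1
  simp only [c_sh, MulEquiv.apply_symm_apply, toAdd_ofAdd, Pi.single_eq_same, one_smul] at h2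
  exact add_left_cancel h2

theorem sh_fix {h : Fin (n + 1) → ZMod p} {x : E} (hx : Multiplicative.toAdd (c x) 0 = 0) : sh c h x = x := by
  apply c.injective
  apply Multiplicative.toAdd.injective
  rw [c_sh, hx]
  simp

/-- `g` acts on `E` as the transvection `h` -/
def ActSh (g : G) (h : Fin (n + 1) → ZMod p) : Prop := ∀ x : E, g * x * g⁻¹ = (sh c h x : G)

variable {c}

theorem ActSh.mul {g g' : G} {h h' : Fin (n + 1) → ZMod p} (h1 : ActSh c g h) (h2 : ActSh c g' h') (h0 : h' 0 = 0) :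
    ActSh c (g * g') (h' + h) := by
  intro x
  have h3 : g * g' * x * (g * g')⁻¹ = g * (g' * x * g'⁻¹) * g⁻¹ := by group
  rw [h3, h2 x, h1, sh_sh c h0]

theorem ActSh.one : ActSh c (1 : G) 0 := by
  intro x
  rw [sh_zero]
  group

theorem ActSh.inv {g : G} {h : Fin (n + 1) → ZMod p} (h1 : ActSh c g h) (h0 : h 0 = 0) : ActSh c g⁻¹ (-h) := by
  intro x
  have h2 := h1 (sh c (-h) x)
  rw [sh_sh c (by simp [h0])] at h2
  have h3 : -h + h = 0 := neg_add_cancel h
  rw [h3, sh_zero] at h2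
  have h4 : g⁻¹ * (g * (sh c (-h) x : G) * g⁻¹) * g = sh c (-h) x := by group
  rw [h2] at h4
  rw [inv_inv, h4]

theorem ActSh.pow {g : G} {h : Fin (n + 1) → ZMod p} (h1 : ActSh c g h) (h0 : h 0 = 0) (m : ℕ) :
    ActSh c (g ^ m) (m • h) := by
  induction m with
  | zero => rw [pow_zero, zero_smul]; exact ActSh.one
  | succ m ih =>
    rw [pow_succ, add_smul, one_smul, add_comm]
    exact ih.mul h1 h0

theorem ActSh.comm {g g' : G} {h h' : Fin (n + 1) → ZMod p} (h1 : ActSh c g h) (h2 : ActSh c g' h') (h0 : h 0 = 0)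
    (h0' : h' 0 = 0) : ActSh c (g * g' * g⁻¹ * g'⁻¹) 0 := by
  have h3 := ((h1.mul h2 h0').mul (h1.inv h0) (by simp [h0])).mul (h2.inv h0') (by simp [h0'])
  have h4 : -h' + (-h + (h' + h)) = 0 := by abel
  rwa [h4] at h3

theorem ActSh.unique {g : G} {h h' : Fin (n + 1) → ZMod p} (h1 : ActSh c g h) (h2 : ActSh c g h') : h = h' :=
  sh_inj c fun x => Subtype.ext ((h1 x).symm.trans (h2 x))

theorem ActSh.centralises {g : G} (h1 : ActSh c g 0) : ∀ y ∈ E, g * y = y * g := by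
  intro y hy
  have h2 := h1 ⟨y, hy⟩
  rw [sh_zero] at h2
  have h3 : g * y * g⁻¹ * g = y * g := by rw [h2]
  rwa [inv_mul_cancel_right] at h3

variable (c) in
/-- the group of elements acting as a transvection -/
def YSh : Subgroup G where
  carrier := {g | ∃ h, h 0 = 0 ∧ ActSh c g h}
  mul_mem' := by
    rintro g g' ⟨h, h0, h1⟩ ⟨h', h0', h1'⟩
    exact ⟨h' + h, by simp [h0, h0'], h1.mul h1' h0'⟩
  one_mem' := ⟨0, rfl, ActSh.one⟩
  inv_mem' := by
    rintro g ⟨h, h0, h1⟩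
    exact ⟨-h, by simp [h0], h1.inv h0⟩

end sh

/-- **The `p`-rank of a homogeneous group is at most 2 for odd `p`.** -/
theorem prankLE_two (hS : Sch G) (hH : Homog G) (hp2 : p ≠ 2) : PRankLE p 2 G := by
  obtain ⟨E, hEc, hEp, hmax⟩ := exists_max_elem (G := G) p
  suffices h : Nat.card E ≤ p ^ 2 from fun A h1 h2 => (hmax A h1 h2).trans h
  by_contra hcon
  push Not at hcon
  have hE : ∀ x ∈ E, ∀ y ∈ E, x * y = y * x := comm_of hEc
  have hEP : IsPGroup p E := fun x => ⟨1, Subtype.ext (by simpa using hEp x x.2)⟩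
  obtain ⟨k, hk⟩ := IsPGroup.iff_card.1 hEP
  rw [hk] at hcon
  have hk2 : 2 < k := (Nat.pow_lt_pow_iff_right hp.out.one_lt).1 hcon
  obtain ⟨n, rfl⟩ : ∃ n, k = n + 1 := ⟨k - 1, by omega⟩
  obtain ⟨c⟩ := exists_equiv (A := E) (p := p) (k := n + 1) (fun x y => Subtype.ext (hE x x.2 y y.2))
    (fun x => Subtype.ext (by simpa using hEp x x.2)) hk
  have hcE : ∀ x, (∀ y ∈ E, x * y = y * x) → x ^ p = 1 → x ∈ E := fun x h1 h2 => mem_of_max hE hEp hmax h1 h2
  obtain ⟨P, hP⟩ := exists_isSyl p (YSh c)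
  have hYE : ∀ y ∈ YSh c, ∀ x ∈ E, y * x * y⁻¹ ∈ E := by
    rintro y ⟨h, -, h1⟩ x hx
    rw [h1 ⟨x, hx⟩]
    exact (sh c h _).2
  have hPE : ∀ a ∈ P, ∀ x ∈ E, a * x * a⁻¹ ∈ E := fun a ha => hYE a (hP.le ha)
  have hYP : YP E P hPE ≤ YSh c := by
    rintro g ⟨a, ha, h1⟩
    obtain ⟨h, h0, h2⟩ := hP.le ha
    exact ⟨h, h0, fun x => (h1 x x.2).trans (h2 x)⟩
  obtain ⟨w, hw2, hwP, hwE⟩ := exists_w hp2 hH hE hPE (hP.restrict le_YP hYP)
  -- the fixed points of `w` in `P`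
  have hone : ∀ x ∈ P, w x = x → ActSh c x 0 → x = 1 := by
    intro x hx hwx hx0
    obtain ⟨k, hk⟩ := hP.isPGroup ⟨x, hx⟩
    exact fixed_trivial hp2 hwE hcE hwx hx0.centralises ⟨k, congrArg Subtype.val hk⟩
  have hfix : ∀ h : Fin n → ZMod p, ∃ b ∈ P, w b = b ∧ ActSh c b (Fin.cons 0 h : Fin (n + 1) → ZMod p) := by
    intro h
    set h' : Fin (n + 1) → ZMod p := Fin.cons 0 h with hh'
    have h0 : h' 0 = 0 := rfl
    obtain ⟨M, hM⟩ := exists_mat h' h0
    obtain ⟨g, hg⟩ := exists_inner_sl hS hH c (Or.inl (by omega)) M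
    have hgA : ActSh c g h' := by
      intro x
      rw [hg x, hM]
      rfl
    obtain ⟨a, ha, ha2⟩ := exists_act_eq (n := 1) hP hYE (by
      rintro y ⟨h1, h10, hy1⟩ y' ⟨h2, h20, hy2⟩ x hx
      rw [hy2 ⟨x, hx⟩, hy1 ⟨x, hx⟩, hy1, hy2, sh_sh c h20, sh_sh c h10, add_comm]) ⟨h', h0, hgA⟩ (by
      intro x hx
      have h1 := hgA.pow h0 (p ^ 1)
      have h2 : (p ^ 1) • h' = 0 := by
        ext i
        simp
      rw [h2] at h1
      rw [h1 ⟨x, hx⟩, sh_zero])
    obtain ⟨b, hb, hwb, hb2⟩ := exists_fixed hp2 hPE hP.isPGroup hw2 hwP hwE ha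
    exact ⟨b, hb, hwb, fun x => by rw [hb2 x x.2, ha2 x x.2, hgA x]⟩
  choose β hβP hβw hβA using hfix
  -- the elementary abelian subgroup generated by `HE` and `B`
  let T : Set G := {x | ∃ hx : x ∈ E, Multiplicative.toAdd (c ⟨x, hx⟩) 0 = 0} ∪
    {b | b ∈ P ∧ w b = b}
  have hBE : ∀ b ∈ P, ∀ x : G, ∀ hx : x ∈ E, Multiplicative.toAdd (c ⟨x, hx⟩) 0 = 0 → b * x = x * b := by
    intro b hb x hx hx0
    obtain ⟨h, h0, h1⟩ := hP.le hb
    have h2 := h1 ⟨x, hx⟩
    rw [sh_fix c hx0] at h2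
    have h3 : b * x * b⁻¹ * b = x * b := by rw [h2]
    rwa [inv_mul_cancel_right] at h3
  have hT := elem_closure (p := p) (S := T) (by
    rintro x (⟨hx, hx0⟩ | ⟨hx, hwx⟩) y (⟨hy, hy0⟩ | ⟨hy, hwy⟩)
    · exact hE x hx y hy
    · exact (hBE y hy x hx hx0).symm
    · exact hBE x hx y hy hy0
    · have h1 : x * y * x⁻¹ * y⁻¹ = 1 := by
        obtain ⟨h, h0, h2⟩ := hP.le hx
        obtain ⟨h', h0', h2'⟩ := hP.le hy
        exact hone _ (P.mul_mem (P.mul_mem (P.mul_mem hx hy) (P.inv_mem hx)) (P.inv_mem hy))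
          (by simp only [map_mul, map_inv, hwx, hwy]) (h2.comm h2' h0 h0')
      have h2 : x * y * x⁻¹ * y⁻¹ * (y * x) = y * x := by rw [h1, one_mul]
      have h3 : x * y * x⁻¹ * y⁻¹ * (y * x) = x * y := by group
      rw [← h3, h2]) (by
    rintro x (⟨hx, -⟩ | ⟨hx, hwx⟩)
    · exact hEp x hx
    · obtain ⟨h, h0, h2⟩ := hP.le hx
      have h3 := h2.pow h0 p
      have h4 : p • h = 0 := by
        ext i
        simp
      rw [h4] at h3
      exact hone _ (P.pow_mem hx p) (by rw [map_pow, hwx]) h3)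
  have hcard := hmax _ hT.1 hT.2
  let F : (Fin n → ZMod p) × (Fin n → ZMod p) → closure T := fun q =>
    ⟨(c.symm (Multiplicative.ofAdd (Fin.cons 0 q.1 : Fin (n + 1) → ZMod p)) : G) * β q.2,
      mul_mem (subset_closure (Or.inl ⟨(c.symm _).2, by
        have h1 : (⟨_, (c.symm (Multiplicative.ofAdd (Fin.cons 0 q.1 : Fin (n + 1) → ZMod p))).2⟩ : E) =
          c.symm (Multiplicative.ofAdd (Fin.cons 0 q.1 : Fin (n + 1) → ZMod p)) := rfl
        rw [h1, MulEquiv.apply_symm_apply]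
        rfl⟩)) (subset_closure (Or.inr ⟨hβP _, hβw _⟩))⟩
  have hF : Function.Injective F := by
    rintro ⟨q1, q2⟩ ⟨r1, r2⟩ hqr
    have h1 : (c.symm (Multiplicative.ofAdd (Fin.cons 0 q1 : Fin (n + 1) → ZMod p)) : G) * β q2 =
      (c.symm (Multiplicative.ofAdd (Fin.cons 0 r1 : Fin (n + 1) → ZMod p)) : G) * β r2 := congrArg Subtype.val hqr
    have h0E : ∀ e : E, ActSh c (e : G) 0 := by
      intro e x
      rw [sh_zero, hE e e.2 x x.2]
      group
    have h2 : ∀ (e : E) (b : G) (h : Fin n → ZMod p), ActSh c b (Fin.cons 0 h : Fin (n + 1) → ZMod p) →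
        ActSh c (e * b) (Fin.cons 0 h : Fin (n + 1) → ZMod p) := by
      intro e b h hb
      have := (h0E e).mul hb rfl
      rwa [add_zero] at this
    have h3 := h2 (c.symm (Multiplicative.ofAdd (Fin.cons 0 q1 : Fin (n + 1) → ZMod p))) _ _ (hβA q2)
    rw [h1] at h3
    have h4 := h3.unique (h2 (c.symm (Multiplicative.ofAdd (Fin.cons 0 r1 : Fin (n + 1) → ZMod p))) _ _ (hβA r2))
    have h5 : q2 = r2 := Fin.cons_right_injective _ h4
    subst h5
    have h6 := mul_right_cancel h1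
    have h7 := Multiplicative.ofAdd.injective (c.symm.injective (Subtype.ext h6))
    rw [Fin.cons_right_injective _ h7]
  have h1 := (Nat.card_le_card_of_injective F hF).trans hcard
  rw [Nat.card_prod, Nat.card_fun, Nat.card_zmod, Nat.card_fin, hk, ← pow_add,
    Nat.pow_le_pow_iff_right hp.out.one_lt] at h1
  omega

end finite

end Cfsg.Agent.H486.Hg
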