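import Mathlib
import Cfsg.Agent.H486.HgRank
import Cfsg.Agent.S0120
import Cfsg.Agent.S0126

/-!
# Homogeneous finite groups: tools for the Sylow subgroups for odd primes (helper486)
-/

set_option autoImplicit false
set_option linter.unusedSectionVars false

namespace Cfsg.Agent.H486.Hg

open Subgroup Cfsg.Agent.H486.Sn Cfsg.Agent.Schreier.Basic Matrix

universe u

variable {G : Type u} [Group G] [Finite G] {p : ℕ} [hp : Fact p.Prime]

theorem mem_normalizer_fin {E : Subgroup G} {g : G} (h : ∀ x ∈ E, g * x * g⁻¹ ∈ E) :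
    g ∈ normalizer (E : Set G) := by
  have h1 : cj g E = E := by
    apply Subgroup.eq_of_le_of_card_ge
    · intro x hx
      rw [mem_cj] at hx
      have h2 := h _ hx
      have h3 : g * (g⁻¹ * x * g) * g⁻¹ = x := by group
      rwa [h3] at h2
    · rw [card_cj]
  exact cj_eq_self_iff.1 h1

theorem mem_normalizer' {E : Subgroup G} {g : G} (h : g ∈ normalizer (E : Set G)) {x : G} (hx : x ∈ E) :
    g * x * g⁻¹ ∈ E := (mem_normalizer_iff.1 h x).1 hx

/-- restriction of an automorphism to an invariant subgroup -/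
noncomputable def restr (φ : MulAut G) (P : Subgroup G) (h : ∀ x ∈ P, φ x ∈ P) : MulAut P :=
  MulEquiv.ofBijective ((φ.toMonoidHom.comp P.subtype).codRestrict P (fun x => h x x.2))
    (Finite.injective_iff_bijective.1 (fun x y hxy => by
      have h1 : φ x = φ y := congrArg Subtype.val hxy
      exact Subtype.ext (φ.injective h1)))

theorem restr_apply (φ : MulAut G) (P : Subgroup G) (h : ∀ x ∈ P, φ x ∈ P) (x : P) :
    (restr φ P h x : G) = φ x := rfl

theorem restr_pow (φ : MulAut G) (P : Subgroup G) (h : ∀ x ∈ P, φ x ∈ P) (n : ℕ) (x : P) :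
    ((restr φ P h ^ n) x : G) = (φ ^ n) x := by
  induction n generalizing x with
  | zero => rfl
  | succ n ih =>
    rw [pow_succ, pow_succ, MulAut.mul_apply, MulAut.mul_apply, ih]
    rfl

/-- an automorphism of order prime to `p` on the `p`-subgroup `P` fixing the elements of order `p` -/
theorem fix_of_omega (hp2 : p ≠ 2) {P : Subgroup G} (hP : IsPGroup p P) {φ : MulAut G} (h : ∀ x ∈ P, φ x ∈ P)
    {n : ℕ} (hn : Nat.Coprime n p) (hφ : ∀ x ∈ P, (φ ^ n) x = x) (hΩ : ∀ x ∈ P, x ^ p = 1 → φ x = x) :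
    ∀ x ∈ P, φ x = x := by
  have h1 : restr φ P h ^ n = 1 := by
    apply MulEquiv.ext
    intro x
    apply Subtype.ext
    rw [restr_pow, hφ x x.2]
    rfl
  have h2 := Cfsg.Agent.S0120.result hp2 hP (restr φ P h)
    (Nat.Coprime.coprime_dvd_left (orderOf_dvd_of_pow_eq_one h1) hn) (fun x hx => by
      apply Subtype.ext
      rw [restr_apply]
      exact hΩ x x.2 (by simpa using congrArg Subtype.val hx))
  intro x hx
  have h3 := DFunLike.congr_fun h2 (⟨x, hx⟩ : P)
  exact congrArg Subtype.val h3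

theorem conj_pow_apply (g x : G) (n : ℕ) : ((MulAut.conj g) ^ n) x = g ^ n * x * (g ^ n)⁻¹ := by
  rw [← map_pow, MulAut.conj_apply]

/-- a `p`-element acting on a non-trivial `p`-group has a non-trivial fixed point -/
theorem exists_fixed_ne_one {A : Subgroup G} (hA : IsPGroup p A) (hne : A ≠ ⊥) {b : G} (hb : ∃ k, b ^ p ^ k = 1)
    (hbA : ∀ x ∈ A, b * x * b⁻¹ ∈ A) : ∃ z ∈ A, z ≠ 1 ∧ b * z * b⁻¹ = z := by
  classical
  have : Fintype A := Fintype.ofFinite _
  obtain ⟨k, hk⟩ := hb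
  let f : Function.End A := fun x => ⟨b * x * b⁻¹, hbA x x.2⟩
  have hf : ∀ (n : ℕ) (x : A), (((f ^ n : Function.End A) x : A) : G) = b ^ n * x * (b ^ n)⁻¹ := by
    intro n
    induction n with
    | zero => intro x; simp; rfl
    | succ n ih =>
      intro x
      have h1 : (f ^ (n + 1) : Function.End A) x = (f ^ n : Function.End A) (f x) := by
        rw [pow_succ]; rfl
      rw [h1, ih, pow_succ]
      change b ^ n * (b * x * b⁻¹) * (b ^ n)⁻¹ = _
      group
  have hfk : f ^ p ^ k = 1 := by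
    funext x
    apply Subtype.ext
    rw [hf, hk]
    simp
    rfl
  have h1 := Equiv.Perm.card_fixedPoints_modEq (p := p) (n := k) hfk
  have h2 : p ∣ Fintype.card A := by
    obtain ⟨n, hn⟩ := IsPGroup.iff_card.1 hA
    have hn0 : n ≠ 0 := by
      rintro rfl
      rw [pow_zero, Subgroup.card_eq_one] at hn
      exact hne hn
    rw [← Nat.card_eq_fintype_card, hn]
    exact dvd_pow_self p hn0
  have h3 : p ∣ Fintype.card (Function.fixedPoints f) := (Nat.ModEq.dvd_iff h1 dvd_rfl).1 h2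
  have h4 : (1 : A) ∈ Function.fixedPoints f := by
    change f 1 = 1
    apply Subtype.ext
    change b * 1 * b⁻¹ = 1
    group
  have h5 : 1 < Fintype.card (Function.fixedPoints f) := by
    have h6 : 0 < Fintype.card (Function.fixedPoints f) := Fintype.card_pos_iff.2 ⟨⟨1, h4⟩⟩
    exact lt_of_lt_of_le hp.out.one_lt (Nat.le_of_dvd h6 h3)
  obtain ⟨z, hz⟩ := Fintype.exists_ne_of_one_lt_card h5 ⟨1, h4⟩
  refine ⟨z.1, z.1.2, fun h => hz (Subtype.ext (Subtype.ext h)), congrArg Subtype.val z.2⟩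

/-- the shape of a non-trivial action of a `p`-element on an elementary abelian group of order `p ^ 2` -/
theorem exists_trans {E : Subgroup G} (hE : ∀ x ∈ E, ∀ y ∈ E, x * y = y * x) (hEp : ∀ x ∈ E, x ^ p = 1)
    (hEc : Nat.card E = p ^ 2) {b : G} (hb : ∃ k, b ^ p ^ k = 1)
    (hbE : ∀ x ∈ E, b * x * b⁻¹ ∈ E) {e₀ : G} (he₀ : e₀ ∈ E) (hne : b * e₀ * b⁻¹ ≠ e₀) :
    ∃ z ∈ E, z ≠ 1 ∧ ∃ e ∈ E, e ∉ zpowers z ∧ b * z * b⁻¹ = z ∧ b * e * b⁻¹ = e * z := by
  have hEP : IsPGroup p E := fun x => ⟨1, Subtype.ext (by simpa using hEp x x.2)⟩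
  -- the commutator map
  let D : E →* G :=
    { toFun := fun x => (x : G)⁻¹ * (b * x * b⁻¹)
      map_one' := by simp
      map_mul' := fun x y => by
        have h1 : (x : G)⁻¹ * (b * x * b⁻¹) ∈ E := E.mul_mem (E.inv_mem x.2) (hbE x x.2)
        have h2 := hE _ h1 _ (E.inv_mem y.2)
        have h3 : ((x * y : E) : G)⁻¹ * (b * (x * y : E) * b⁻¹) =
            (y : G)⁻¹ * ((x : G)⁻¹ * (b * x * b⁻¹)) * (b * y * b⁻¹) := by
          push_cast; group
        rw [h3, ← h2]; group }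
  have hDE : D.range ≤ E := by
    rintro _ ⟨x, rfl⟩
    exact E.mul_mem (E.inv_mem x.2) (hbE x x.2)
  have hDb : ∀ x ∈ D.range, b * x * b⁻¹ ∈ D.range := by
    rintro _ ⟨x, rfl⟩
    refine ⟨⟨b * x * b⁻¹, hbE x x.2⟩, ?_⟩
    change (b * (x : G) * b⁻¹)⁻¹ * (b * (b * x * b⁻¹) * b⁻¹) = b * ((x : G)⁻¹ * (b * x * b⁻¹)) * b⁻¹
    group
  have hDe : D ⟨e₀, he₀⟩ ≠ 1 := by
    intro h
    apply hne
    have h1 : e₀⁻¹ * (b * e₀ * b⁻¹) = 1 := h
    exact (inv_mul_eq_one.1 h1).symm
  have hDne : D.range ≠ ⊥ := by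
    intro h
    have h1 : D ⟨e₀, he₀⟩ ∈ D.range := ⟨_, rfl⟩
    rw [h, mem_bot] at h1
    exact hDe h1
  have hDP : IsPGroup p D.range := hEP.to_le hDE
  -- `|im D| = p`
  have hker : D.ker ≠ ⊥ := by
    obtain ⟨z, hz, hz1, hz2⟩ := exists_fixed_ne_one hEP (by
      intro h
      rw [h, Subgroup.card_bot] at hEc
      exact absurd hEc.symm (Nat.one_lt_pow two_ne_zero hp.out.one_lt).ne') hb hbE
    intro h
    have h1 : (⟨z, hz⟩ : E) ∈ D.ker := by
      rw [MonoidHom.mem_ker]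
      change z⁻¹ * (b * z * b⁻¹) = 1
      rw [hz2, inv_mul_cancel]
    rw [h, mem_bot] at h1
    exact hz1 (congrArg Subtype.val h1)
  have hcard : Nat.card D.range = p := by
    have h1 : Nat.card D.ker * Nat.card D.range = p ^ 2 := by
      rw [← hEc, ← Subgroup.index_ker, Subgroup.card_mul_index]
    obtain ⟨i, hi⟩ := IsPGroup.iff_card.1 (hEP.to_subgroup D.ker)
    obtain ⟨j, hj⟩ := IsPGroup.iff_card.1 hDP
    have hi0 : i ≠ 0 := by
      rintro rfl
      rw [pow_zero, Subgroup.card_eq_one] at hi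
      exact hker hi
    have hj0 : j ≠ 0 := by
      rintro rfl
      rw [pow_zero, Subgroup.card_eq_one] at hj
      exact hDne hj
    rw [hi, hj, ← pow_add] at h1
    have h2 := Nat.pow_right_injective hp.out.two_le h1
    have h3 : j = 1 := by omega
    rw [hj, h3, pow_one]
  have hfixD : ∀ x ∈ D.range, b * x * b⁻¹ = x := by
    obtain ⟨z, hz, hz1, hz2⟩ := exists_fixed_ne_one hDP hDne hb hDb
    have h1 : zpowers z = D.range := by
      apply Subgroup.eq_of_le_of_card_ge (zpowers_le.2 hz)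
      rw [hcard, Nat.card_zpowers, orderOf_eq_prime (hEp z (hDE hz)) hz1]
    intro x hx
    rw [← h1] at hx
    obtain ⟨i, rfl⟩ := mem_zpowers_iff.1 hx
    rw [← conj_zpow, hz2]
  have he1 : D ⟨e₀, he₀⟩ ∈ D.range := ⟨_, rfl⟩
  refine ⟨D ⟨e₀, he₀⟩, hDE he1, hDe, e₀, he₀, ?_, hfixD _ he1, ?_⟩
  · intro h
    apply hne
    obtain ⟨i, hi⟩ := mem_zpowers_iff.1 h
    have h1 : e₀ ∈ D.range := by rw [← hi]; exact D.range.zpow_mem he1 i
    exact hfixD _ h1
  · change _ = e₀ * (e₀⁻¹ * (b * e₀ * b⁻¹))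
    group

end Cfsg.Agent.H486.Hg
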