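import Mathlib
import Cfsg.Agent.H486.HgTool

/-!
# Homogeneous finite groups: matrices describing the action on an elementary abelian subgroup (helper486)
-/

set_option autoImplicit false
set_option linter.unusedSectionVars false

namespace Cfsg.Agent.H486.Hg

open Subgroup Cfsg.Agent.H486.Sn Cfsg.Agent.Schreier.Basic Matrix

universe u

variable {G : Type u} [Group G] {p : ℕ} [hp : Fact p.Prime] {E : Subgroup G} {k : ℕ}
  (c : E ≃* Multiplicative (Fin k → ZMod p))

/-- the element `c⁻¹ (M (c x))` -/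
noncomputable def mv (M : Matrix (Fin k) (Fin k) (ZMod p)) (x : E) : E :=
  c.symm (Multiplicative.ofAdd (M.mulVec (Multiplicative.toAdd (c x))))

theorem c_mv (M : Matrix (Fin k) (Fin k) (ZMod p)) (x : E) :
    Multiplicative.toAdd (c (mv c M x)) = M.mulVec (Multiplicative.toAdd (c x)) := by
  rw [mv, MulEquiv.apply_symm_apply]
  rfl

theorem mv_mv (M N : Matrix (Fin k) (Fin k) (ZMod p)) (x : E) : mv c M (mv c N x) = mv c (M * N) x := by
  apply c.injective
  apply Multiplicative.toAdd.injective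
  rw [c_mv, c_mv, c_mv, mulVec_mulVec]

theorem mv_mul (M : Matrix (Fin k) (Fin k) (ZMod p)) (x y : E) : mv c M (x * y) = mv c M x * mv c M y := by
  apply c.injective
  apply Multiplicative.toAdd.injective
  rw [map_mul, toAdd_mul, c_mv, c_mv, c_mv, map_mul, toAdd_mul, mulVec_add]

theorem mv_one (x : E) : mv c 1 x = x := by
  apply c.injective
  apply Multiplicative.toAdd.injective
  rw [c_mv, one_mulVec]

theorem mv_neg (M : Matrix (Fin k) (Fin k) (ZMod p)) (x : E) : mv c (-M) x = (mv c M x)⁻¹ := by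
  apply c.injective
  apply Multiplicative.toAdd.injective
  rw [map_inv, toAdd_inv, c_mv, c_mv, neg_mulVec]

theorem mv_inj {M N : Matrix (Fin k) (Fin k) (ZMod p)} (h : ∀ x, mv c M x = mv c N x) : M = N := by
  rw [Matrix.ext_iff_mulVec]
  intro v
  have h1 := congrArg (fun z => Multiplicative.toAdd (c z)) (h (c.symm (Multiplicative.ofAdd v)))
  simpa only [c_mv, MulEquiv.apply_symm_apply, toAdd_ofAdd] using h1

/-- an endomorphism of `E` is given by a matrix -/
theorem exists_matrix (f : E →* E) : ∃ M : Matrix (Fin k) (Fin k) (ZMod p), ∀ x, f x = mv c M x := by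
  let g : (Fin k → ZMod p) →+ (Fin k → ZMod p) :=
    { toFun := fun v => Multiplicative.toAdd (c (f (c.symm (Multiplicative.ofAdd v))))
      map_zero' := by simp
      map_add' := fun v w => by simp }
  let L : (Fin k → ZMod p) →ₗ[ZMod p] (Fin k → ZMod p) := g.toZModLinearMap p
  refine ⟨LinearMap.toMatrix' L, fun x => ?_⟩
  apply c.injective
  apply Multiplicative.toAdd.injective
  rw [c_mv, ← Matrix.toLin'_apply, Matrix.toLin'_toMatrix']
  change _ = Multiplicative.toAdd (c (f (c.symm (Multiplicative.ofAdd (Multiplicative.toAdd (c x))))))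
  rw [ofAdd_toAdd, MulEquiv.symm_apply_apply]

/-- `g` acts on `E` as the matrix `M` -/
def ActM (g : G) (M : Matrix (Fin k) (Fin k) (ZMod p)) : Prop := ∀ x : E, g * x * g⁻¹ = (mv c M x : G)

variable {c}

theorem ActM.mul {g g' : G} {M M' : Matrix (Fin k) (Fin k) (ZMod p)} (h : ActM c g M) (h' : ActM c g' M') :
    ActM c (g * g') (M * M') := by
  intro x
  have h3 : g * g' * x * (g * g')⁻¹ = g * (g' * x * g'⁻¹) * g⁻¹ := by group
  rw [h3, h' x, h, mv_mv]

theorem ActM.one : ActM c (1 : G) 1 := by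
  intro x
  rw [mv_one]
  group

theorem ActM.unique {g : G} {M M' : Matrix (Fin k) (Fin k) (ZMod p)} (h : ActM c g M) (h' : ActM c g M') : M = M' :=
  mv_inj c fun x => Subtype.ext ((h x).symm.trans (h' x))

theorem ActM.mem {g : G} {M : Matrix (Fin k) (Fin k) (ZMod p)} (h : ActM c g M) : ∀ x ∈ E, g * x * g⁻¹ ∈ E := by
  intro x hx
  rw [h ⟨x, hx⟩]
  exact (mv c M _).2

theorem ActM.inv {g : G} {M M' : Matrix (Fin k) (Fin k) (ZMod p)} (h : ActM c g M) (h1 : M * M' = 1) :
    ActM c g⁻¹ M' := by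
  intro x
  have h2 := h (mv c M' x)
  rw [mv_mv, h1, mv_one] at h2
  rw [← h2]
  group

theorem ActM.eq_one_of_centralises {g : G} {M : Matrix (Fin k) (Fin k) (ZMod p)} (h : ActM c g M)
    (hg : ∀ x ∈ E, g * x * g⁻¹ = x) : M = 1 := by
  refine mv_inj c fun x => Subtype.ext ?_
  rw [← h x, hg x x.2, mv_one]

theorem ActM.centralises {g : G} (h : ActM c g 1) : ∀ x ∈ E, g * x * g⁻¹ = x := by
  intro x hx
  rw [h ⟨x, hx⟩, mv_one]

variable (c) in
theorem exists_actM {g : G} (hg : ∀ x ∈ E, g * x * g⁻¹ ∈ E) : ∃ M, ActM c g M := by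
  let f : E →* E :=
    { toFun := fun x => ⟨g * x * g⁻¹, hg x x.2⟩
      map_one' := Subtype.ext (by simp)
      map_mul' := fun x y => Subtype.ext (by push_cast; group) }
  obtain ⟨M, hM⟩ := exists_matrix c f
  exact ⟨M, fun x => congrArg Subtype.val (hM x)⟩

/-- homogeneity: every invertible matrix is induced by an automorphism -/
theorem exists_autM (hH : Homog G) (c : E ≃* Multiplicative (Fin k → ZMod p)) {A B : Matrix (Fin k) (Fin k) (ZMod p)}
    (hAB : A * B = 1) (hBA : B * A = 1) : ∃ φ : MulAut G, ∀ x : E, φ x = (mv c A x : G) := by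
  obtain ⟨φ, hφ⟩ := hH.exists_aut (autOf c (Matrix.toLin'OfInv hBA hAB))
  refine ⟨φ, fun x => ?_⟩
  rw [hφ, autOf_apply]
  change ((c.symm (Multiplicative.ofAdd (Matrix.toLin' A (Multiplicative.toAdd (c x)))) : E) : G) = _
  rw [Matrix.toLin'_apply]
  rfl

theorem ActM.aut {g : G} {M A B : Matrix (Fin k) (Fin k) (ZMod p)} (h : ActM c g M) (hAB : A * B = 1)
    {φ : MulAut G} (hφ : ∀ x : E, φ x = (mv c A x : G)) : ActM c (φ g) (A * M * B) := by
  intro x
  have h1 : (x : G) = φ (mv c B x) := by rw [hφ, mv_mv, hAB, mv_one]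
  rw [h1, ← map_inv, ← map_mul, ← map_mul, h, hφ, mv_mv, mv_mv, mul_assoc]

end Cfsg.Agent.H486.Hg
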