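import Mathlib
import Cfsg.Agent.H486.HgMat

/-!
# Homogeneous finite groups: the Sylow subgroups for odd primes, I (helper486)

`St p E P` : `P` is a Sylow `p`-subgroup, `E` is a normal elementary abelian subgroup of order `p ^ 2` containing
all elements of order `p` of its centraliser.
-/

set_option autoImplicit false
set_option linter.unusedSectionVars false

namespace Cfsg.Agent.H486.Hg

open Subgroup Cfsg.Agent.H486.Sn Cfsg.Agent.Schreier.Basic Matrix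

universe u

variable {G : Type u} [Group G] [Finite G] {p : ℕ} [hp : Fact p.Prime]

/-- the setting -/
structure St (p : ℕ) (E P : Subgroup G) : Prop where
  hE : ∀ x ∈ E, ∀ y ∈ E, x * y = y * x
  hEp : ∀ x ∈ E, x ^ p = 1
  hEc : Nat.card E = p ^ 2
  hPE : ∀ a ∈ P, ∀ x ∈ E, a * x * a⁻¹ ∈ E
  hEP : E ≤ P
  hmax : ∀ x, (∀ y ∈ E, x * y = y * x) → x ^ p = 1 → x ∈ E
  hP : IsSyl p (⊤ : Subgroup G) P

theorem exists_St (hS : Sch G) (hH : Homog G) (hp2 : p ≠ 2) {P : Subgroup G} (hP : IsSyl p (⊤ : Subgroup G) P)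
    (hnc : ¬ IsCyclic P) : ∃ E : Subgroup G, St p E P := by
  obtain ⟨A, hAn, hA, hAc⟩ := Cfsg.Agent.S0126.result hp2 hP.isPGroup hnc
  have hE : ∀ x ∈ A.map P.subtype, ∀ y ∈ A.map P.subtype, x * y = y * x := by
    rintro _ ⟨x, hx, rfl⟩ _ ⟨y, hy, rfl⟩
    have h1 := congrArg Subtype.val (hA.1.is_comm.comm ⟨x, hx⟩ ⟨y, hy⟩)
    exact congrArg Subtype.val h1
  have hEp : ∀ x ∈ A.map P.subtype, x ^ p = 1 := by
    rintro _ ⟨x, hx, rfl⟩
    exact congrArg Subtype.val (hA.2 x hx)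
  have hEc : Nat.card (A.map P.subtype) = p ^ 2 := by
    rw [Subgroup.card_map_of_injective P.subtype_injective, hAc]
  refine ⟨A.map P.subtype, hE, hEp, hEc, ?_, Subgroup.map_subtype_le A, ?_, hP⟩
  · rintro a ha _ ⟨x, hx, rfl⟩
    exact ⟨_, hAn.conj_mem x hx ⟨a, ha⟩, rfl⟩
  · intro x hx hxp
    refine mem_of_max hE hEp (fun B hB1 hB2 => ?_) hx hxp
    rw [hEc]
    exact prankLE_two hS hH hp2 B hB1 hB2

namespace St

variable {E P : Subgroup G}

theorem isPGroupE (h : St p E P) : IsPGroup p E := h.hP.isPGroup.to_le h.hEP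

theorem P_le (h : St p E P) : P ≤ normalizer (E : Set G) := fun _ ha => mem_normalizer_fin (h.hPE _ ha)

theorem syl_of_le (h : St p E P) {Y : Subgroup G} (hY : P ≤ Y) : IsSyl p Y P := h.hP.restrict hY le_top

/-- the automorphism `w` -/
theorem exists_w' (h : St p E P) (hp2 : p ≠ 2) (hH : Homog G) :
    ∃ w : MulAut G, (∃ a, w ^ 2 ^ a = 1) ∧ (∀ x ∈ P, w x ∈ P) ∧ ∀ x ∈ E, w x = x⁻¹ :=
  exists_w hp2 hH h.hE h.hPE (h.syl_of_le le_YP)

theorem w_inverts (h : St p E P) (hp2 : p ≠ 2) {w : MulAut G} (hw2 : ∃ a, w ^ 2 ^ a = 1) (hwP : ∀ x ∈ P, w x ∈ P)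
    (hwE : ∀ x ∈ E, w x = x⁻¹) : ∀ x ∈ P, (∀ y ∈ E, x * y = y * x) → w x = x⁻¹ := by
  set Q : Subgroup G := P ⊓ centralizer (E : Set G) with hQ
  have hQmem : ∀ x, x ∈ Q ↔ x ∈ P ∧ ∀ y ∈ E, x * y = y * x := by
    intro x
    rw [hQ, mem_inf, mem_centralizer_iff]
    exact and_congr_right fun _ => ⟨fun h1 y hy => (h1 y hy).symm, fun h1 y hy => (h1 y hy).symm⟩
  have hwQ : ∀ x ∈ Q, w x ∈ Q := by
    intro x hx
    rw [hQmem] at hx ⊢
    refine ⟨hwP x hx.1, fun y hy => ?_⟩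
    have h1 := hx.2 y⁻¹ (E.inv_mem hy)
    have h2 := congrArg w h1
    rw [map_mul, map_mul, hwE _ (E.inv_mem hy), inv_inv] at h2
    exact h2
  have hQP : IsPGroup p Q := h.hP.isPGroup.to_le inf_le_left
  obtain ⟨a, ha⟩ := hw2
  have hw2 : ∀ x ∈ Q, (w ^ 2) x = x := by
    refine fix_of_omega hp2 hQP (φ := w ^ 2) (fun x hx => ?_) (n := 2 ^ a) ?_ ?_ ?_
    · rw [pow_two, MulAut.mul_apply]
      exact hwQ _ (hwQ _ hx)
    · exact Nat.Coprime.pow_left a ((Nat.coprime_primes Nat.prime_two hp.out).2 hp2.symm)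
    · intro x _
      rw [← pow_mul, mul_comm, pow_mul, ha, one_pow]
      rfl
    · intro x hx hxp
      have h1 : x ∈ E := h.hmax x ((hQmem x).1 hx).2 hxp
      rw [pow_two, MulAut.mul_apply, hwE x h1, hwE _ (E.inv_mem h1), inv_inv]
  have hfp : ∀ x ∈ Q, w x = x → x = 1 := by
    intro x hx hwx
    obtain ⟨k, hk⟩ := hQP ⟨x, hx⟩
    exact fixed_trivial hp2 hwE h.hmax hwx ((hQmem x).1 hx).2 ⟨k, congrArg Subtype.val hk⟩
  let F : Q → Q := fun x => ⟨(x : G)⁻¹ * w x, Q.mul_mem (Q.inv_mem x.2) (hwQ x x.2)⟩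
  have hF : Function.Injective F := by
    intro x y hxy
    have h1 : (x : G)⁻¹ * w x = (y : G)⁻¹ * w y := congrArg Subtype.val hxy
    have h2 : w ((y : G) * (x : G)⁻¹) = (y : G) * (x : G)⁻¹ := by
      rw [map_mul, map_inv]
      have h3 : w y = (y : G) * ((x : G)⁻¹ * w x) := by rw [h1]; group
      rw [h3]; group
    have h3 := hfp _ (Q.mul_mem y.2 (Q.inv_mem x.2)) h2
    exact Subtype.ext (mul_inv_eq_one.1 h3).symm
  have hFs : Function.Surjective F := Finite.injective_iff_surjective.1 hF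
  intro x hx hxE
  obtain ⟨y, hy⟩ := hFs ⟨x, (hQmem x).2 ⟨hx, hxE⟩⟩
  have h1 : (y : G)⁻¹ * w y = x := congrArg Subtype.val hy
  have h2 : w (w y) = y := by
    have := hw2 y y.2
    rwa [pow_two, MulAut.mul_apply] at this
  rw [← h1, map_mul, map_inv, h2]
  group

/-- the centraliser of `E` in `P` is abelian -/
theorem comm (h : St p E P) (hp2 : p ≠ 2) (hH : Homog G) {x y : G} (hx : x ∈ P) (hy : y ∈ P)
    (hxE : ∀ e ∈ E, x * e = e * x) (hyE : ∀ e ∈ E, y * e = e * y) : x * y = y * x := by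
  obtain ⟨w, hw2, hwP, hwE⟩ := h.exists_w' hp2 hH
  have h1 := h.w_inverts hp2 hw2 hwP hwE x hx hxE
  have h2 := h.w_inverts hp2 hw2 hwP hwE y hy hyE
  have h3 := h.w_inverts hp2 hw2 hwP hwE _ (P.mul_mem hx hy) (fun e he => by
    rw [mul_assoc, hyE e he, ← mul_assoc, hxE e he, mul_assoc])
  rw [map_mul, h1, h2, _root_.mul_inv_rev] at h3
  have h4 : (x⁻¹ * y⁻¹)⁻¹ = (y⁻¹ * x⁻¹)⁻¹ := by rw [h3]
  rw [_root_.mul_inv_rev, _root_.mul_inv_rev, inv_inv, inv_inv] at h4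
  exact h4.symm

/-- if `P` centralises `E`, the `p`-elements of `N(E)` centralise `E` -/
theorem act_trivial (h : St p E P) (hC : ∀ a ∈ P, ∀ x ∈ E, a * x = x * a) {g : G}
    (hg : ∀ x ∈ E, g * x * g⁻¹ ∈ E) {n : ℕ} (hgn : ∀ x ∈ E, g ^ p ^ n * x * (g ^ p ^ n)⁻¹ = x) :
    ∀ x ∈ E, g * x * g⁻¹ = x := by
  obtain ⟨t, ⟨j, rfl⟩, k, hk⟩ := exists_p_part (p := p) g n
  set u := g ^ (1 + p ^ n * j) with hu
  have hact : ∀ x ∈ E, u * x * u⁻¹ = g * x * g⁻¹ := by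
    intro x hx
    have h1 : ∀ j : ℕ, ∀ x ∈ E, (g ^ p ^ n) ^ j * x * ((g ^ p ^ n) ^ j)⁻¹ = x := by
      intro j
      induction j with
      | zero => intro x _; simp
      | succ j ih =>
        intro x hx
        have h2 : (g ^ p ^ n) ^ (j + 1) * x * ((g ^ p ^ n) ^ (j + 1))⁻¹ =
            g ^ p ^ n * ((g ^ p ^ n) ^ j * x * ((g ^ p ^ n) ^ j)⁻¹) * (g ^ p ^ n)⁻¹ := by
          rw [pow_succ' (g ^ p ^ n)]; group
        rw [h2, ih x hx, hgn x hx]
    have h3 : u * x * u⁻¹ = g * ((g ^ p ^ n) ^ j * x * ((g ^ p ^ n) ^ j)⁻¹) * g⁻¹ := by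
      rw [hu, pow_add, pow_one, pow_mul]; group
    rw [h3, h1 j x hx]
  have hgN : g ∈ normalizer (E : Set G) := mem_normalizer_fin hg
  have huN : u ∈ normalizer (E : Set G) := pow_mem hgN _
  have h1 : IsPGroup p (zpowers u) := by
    rintro ⟨_, i, rfl⟩
    refine ⟨k, Subtype.ext ?_⟩
    change (u ^ i) ^ p ^ k = 1
    rw [← zpow_natCast, ← _root_.zpow_mul, mul_comm, _root_.zpow_mul, zpow_natCast, hk, _root_.one_zpow]
  obtain ⟨y, hy, hle⟩ := (h.syl_of_le h.P_le).exists_conj_le (by rwa [zpowers_le]) h1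
  have h2 := hle (mem_zpowers u)
  rw [mem_cj] at h2
  intro x hx
  rw [← hact x hx]
  have h3 : y⁻¹ * x * y ∈ E := by
    have := mem_normalizer' (inv_mem hy) hx
    rwa [inv_inv] at this
  have h4 := hC _ h2 _ h3
  have h5 : u * x * u⁻¹ = y * ((y⁻¹ * u * y) * (y⁻¹ * x * y)) * y⁻¹ * u⁻¹ := by group
  rw [h5, h4]
  group

/-- if `P` centralises `E` then `p = 3` -/
theorem lt_five (h : St p E P) (hS : Sch G) (hH : Homog G) (hC : ∀ a ∈ P, ∀ x ∈ E, a * x = x * a) : ¬ 5 ≤ p := by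
  intro h5
  obtain ⟨c⟩ := exists_equiv (A := E) (p := p) (k := 2) (fun x y => Subtype.ext (h.hE x x.2 y y.2))
    (fun x => Subtype.ext (by simpa using h.hEp x x.2)) h.hEc
  obtain ⟨M, hM⟩ := exists_mat (p := p) (n := 1) ![0, 1] rfl
  obtain ⟨g, hg⟩ := exists_inner_sl hS hH c (Or.inr ⟨rfl, h5⟩) M
  have hgA : ActSh (n := 1) c g ![0, 1] := by
    intro x
    rw [hg x, hM]
    rfl
  have h1 := h.act_trivial hC (g := g) (fun x hx => by
    rw [hgA ⟨x, hx⟩]; exact (sh (n := 1) c _ _).2) (n := 1) (by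
      intro x hx
      have h1 := hgA.pow rfl (p ^ 1)
      have h2 : (p ^ 1) • (![0, 1] : Fin 2 → ZMod p) = 0 := by
        ext i
        simp
      rw [h2] at h1
      rw [h1 ⟨x, hx⟩, sh_zero])
  have h2 : ActSh (n := 1) c g 0 := fun x => by
    rw [sh_zero]; exact h1 x x.2
  have h3 := congrFun (hgA.unique h2) 1
  simp at h3

/-- a `p'`-part: `g ^ m` centralises `P` for some `m` prime to `p` -/
theorem exists_coprime (h : St p E P) (hcomm : ∀ x ∈ P, ∀ y ∈ P, x * y = y * x) {g : G}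
    (hg : g ∈ normalizer (P : Set G)) : ∃ m, Nat.Coprime m p ∧ ∀ x ∈ P, g ^ m * x * (g ^ m)⁻¹ = x := by
  obtain ⟨k, m, hm, hgo⟩ := Nat.exists_eq_pow_mul_and_not_dvd (orderOf_pos g).ne' p hp.out.ne_one
  refine ⟨m, ((hp.out.coprime_iff_not_dvd).2 hm).symm, fun x hx => ?_⟩
  have h1 : g ^ m ∈ P := by
    refine h.hP.mem_of_normalizes trivial ⟨k, ?_⟩ (pow_mem hg m)
    rw [← pow_mul, mul_comm, ← hgo, pow_orderOf_eq_one]
  rw [hcomm _ h1 x hx]
  group

/-- an element of `N(P)` centralising `E` centralises `P` -/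
theorem centralises_of (h : St p E P) (hp2 : p ≠ 2) (hcomm : ∀ x ∈ P, ∀ y ∈ P, x * y = y * x) {g : G}
    (hg : g ∈ normalizer (P : Set G)) (hgE : ∀ x ∈ E, g * x * g⁻¹ = x) : ∀ x ∈ P, g * x * g⁻¹ = x := by
  obtain ⟨m, hm, hgm⟩ := h.exists_coprime hcomm hg
  exact fix_of_omega hp2 h.hP.isPGroup (φ := MulAut.conj g) (fun x hx => mem_normalizer' hg hx) hm
    (fun x hx => by rw [conj_pow_apply, hgm x hx])
    (fun x hx hxp => hgE x (h.hmax x (fun y hy => hcomm x hx y (h.hEP hy)) hxp))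

/-- an element of `N(P)` inverting `E` inverts `P` -/
theorem inverts_of (h : St p E P) (hp2 : p ≠ 2) (hH : Homog G) (hcomm : ∀ x ∈ P, ∀ y ∈ P, x * y = y * x) {g : G}
    (hg : g ∈ normalizer (P : Set G)) (hgE : ∀ x ∈ E, g * x * g⁻¹ = x⁻¹) : ∀ x ∈ P, g * x * g⁻¹ = x⁻¹ := by
  obtain ⟨m, hm, hgm⟩ := h.exists_coprime hcomm hg
  obtain ⟨w, hw2, hwP, hwE⟩ := h.exists_w' hp2 hH
  have hwP' : ∀ x ∈ P, w x = x⁻¹ := fun x hx =>
    h.w_inverts hp2 hw2 hwP hwE x hx (fun y hy => hcomm x hx y (h.hEP hy))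
  have hgP : ∀ x ∈ P, g * x * g⁻¹ ∈ P := fun x hx => mem_normalizer' hg hx
  have hφ : ∀ x ∈ P, (w * MulAut.conj g) x = (g * x * g⁻¹)⁻¹ := fun x hx => by
    rw [MulAut.mul_apply, MulAut.conj_apply, hwP' _ (hgP x hx)]
  have h1 : ∀ x ∈ P, (w * MulAut.conj g) x = x := by
    refine fix_of_omega hp2 h.hP.isPGroup (φ := w * MulAut.conj g) (fun x hx => ?_) (n := 2 * m) ?_ ?_ ?_
    · rw [hφ x hx]; exact P.inv_mem (hgP x hx)
    · exact Nat.Coprime.mul_left ((Nat.coprime_primes Nat.prime_two hp.out).2 hp2.symm) hm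
    · have h2 : ∀ n : ℕ, ∀ x ∈ P, ((w * MulAut.conj g) ^ (2 * n)) x = g ^ (2 * n) * x * (g ^ (2 * n))⁻¹ := by
        intro n
        induction n with
        | zero => intro x _; simp
        | succ n ih =>
          intro x hx
          have h3 : 2 * (n + 1) = 2 * n + 1 + 1 := by ring
          have h4 : (w * MulAut.conj g) x ∈ P := by rw [hφ x hx]; exact P.inv_mem (hgP x hx)
          have h5 : (w * MulAut.conj g) ((w * MulAut.conj g) x) = g * (g * x * g⁻¹) * g⁻¹ := by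
            rw [hφ _ h4, hφ x hx]
            simp only [_root_.mul_inv_rev, inv_inv, mul_assoc]
          rw [h3, pow_succ, pow_succ, MulAut.mul_apply, MulAut.mul_apply, h5,
            ih _ (hgP _ (hgP x hx))]
          group
      intro x hx
      rw [h2 m x hx]
      have h3 : g ^ (2 * m) * x * (g ^ (2 * m))⁻¹ = g ^ m * (g ^ m * x * (g ^ m)⁻¹) * (g ^ m)⁻¹ := by
        rw [two_mul, pow_add]; group
      rw [h3, hgm x hx, hgm x hx]
    · intro x hx hxp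
      have h2 : x ∈ E := h.hmax x (fun y hy => hcomm x hx y (h.hEP hy)) hxp
      rw [hφ x hx, hgE x h2, inv_inv]
  intro x hx
  have h2 := h1 x hx
  rw [hφ x hx] at h2
  rw [← h2, inv_inv]
  rw [h2]

end St

section three

/-- 2×2-matrices over `𝔽₃` as tuples -/
abbrev T3 := ZMod 3 × ZMod 3 × ZMod 3 × ZMod 3

def mm (X Y : T3) : T3 :=
  (X.1 * Y.1 + X.2.1 * Y.2.2.1, X.1 * Y.2.1 + X.2.1 * Y.2.2.2,
    X.2.2.1 * Y.1 + X.2.2.2 * Y.2.2.1, X.2.2.1 * Y.2.1 + X.2.2.2 * Y.2.2.2)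

def toM (X : T3) : Matrix (Fin 2) (Fin 2) (ZMod 3) := !![X.1, X.2.1; X.2.2.1, X.2.2.2]

theorem toM_mm (X Y : T3) : toM (mm X Y) = toM X * toM Y := by
  simp [toM, mm]

theorem toM_one : toM (1, 0, 0, 1) = 1 := by
  simp [toM, Matrix.one_fin_two]

theorem toM_neg : toM (2, 0, 0, 2) = -1 := by
  have : (2 : ZMod 3) = -1 := by decide
  simp [toM, Matrix.one_fin_two, this]

theorem toM_inj {X Y : T3} (h : toM X = toM Y) : X = Y := by
  have h00 := congrFun (congrFun h 0) 0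
  have h01 := congrFun (congrFun h 0) 1
  have h10 := congrFun (congrFun h 1) 0
  have h11 := congrFun (congrFun h 1) 1
  simp [toM] at h00 h01 h10 h11
  exact Prod.ext h00 (Prod.ext h01 (Prod.ext h10 h11))

theorem exists_toM (M : Matrix (Fin 2) (Fin 2) (ZMod 3)) : ∃ X, toM X = M :=
  ⟨(M 0 0, M 0 1, M 1 0, M 1 1), (Matrix.eta_fin_two M).symm⟩

/-- the element `([X, A]) ^ 2` -/
def cm (X X' A B : T3) : T3 := mm (mm (mm X A) (mm X' B)) (mm (mm X A) (mm X' B))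

/-- `Z` has order 3 -/
def ord3 (Z : T3) : Bool := decide (Z ≠ (1, 0, 0, 1)) && decide (mm Z (mm Z Z) = (1, 0, 0, 1))

def badB (X X' : T3) : Bool := ord3 (cm X X' (0, 1, 1, 0) (0, 1, 1, 0)) || ord3 (cm X X' (0, 1, 1, 1) (2, 1, 1, 0))

def okB (X X' : T3) : Bool :=
  decide (mm X X' ≠ (1, 0, 0, 1)) || decide (X = (1, 0, 0, 1)) || decide (X = (2, 0, 0, 2)) ||
    decide (mm X X = (2, 0, 0, 2)) || badB X X'

theorem chk : ∀ X X' : T3, okB X X' = true := by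
  decide +kernel

theorem chk' (X X' : T3) (h : mm X X' = (1, 0, 0, 1)) : X = (1, 0, 0, 1) ∨ X = (2, 0, 0, 2) ∨ mm X X = (2, 0, 0, 2) ∨
    ∃ A B, mm A B = (1, 0, 0, 1) ∧ mm B A = (1, 0, 0, 1) ∧ cm X X' A B ≠ (1, 0, 0, 1) ∧
      mm (cm X X' A B) (mm (cm X X' A B) (cm X X' A B)) = (1, 0, 0, 1) := by
  have h1 := chk X X'
  simp only [okB, badB, ord3, Bool.or_eq_true, decide_eq_true_eq, Bool.and_eq_true] at h1
  rcases h1 with (((h1 | h1) | h1) | h1) | (h1 | h1)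
  · exact absurd h h1
  · exact Or.inl h1
  · exact Or.inr (Or.inl h1)
  · exact Or.inr (Or.inr (Or.inl h1))
  · exact Or.inr (Or.inr (Or.inr ⟨_, _, by decide, by decide, h1.1, h1.2⟩))
  · exact Or.inr (Or.inr (Or.inr ⟨_, _, by decide, by decide, h1.1, h1.2⟩))

end three

/-- **The automizer of an abelian non-cyclic Sylow 3-subgroup.** -/
theorem St.three {E P : Subgroup G} (h : St 3 E P) (hH : Homog G) (hC : ∀ a ∈ P, ∀ x ∈ E, a * x = x * a) :
    (∀ x ∈ P, ∀ y ∈ P, x * y = y * x) ∧ ∀ g ∈ normalizer (P : Set G),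
        (∀ x ∈ P, g * x * g⁻¹ = x) ∨ (∀ x ∈ P, g * x * g⁻¹ = x⁻¹) ∨
          (∀ x ∈ P, g ^ 2 * x * (g ^ 2)⁻¹ = x⁻¹) := by
  have : Fact (Nat.Prime 3) := ⟨Nat.prime_three⟩
  have hcomm : ∀ x ∈ P, ∀ y ∈ P, x * y = y * x := fun x hx y hy => h.comm (by norm_num) hH hx hy (hC x hx) (hC y hy)
  refine ⟨hcomm, fun g hg => ?_⟩
  obtain ⟨c⟩ := exists_equiv (A := E) (p := 3) (k := 2) (fun x y => Subtype.ext (h.hE x x.2 y y.2))
    (fun x => Subtype.ext (by simpa using h.hEp x x.2)) h.hEc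
  have hgE : ∀ g ∈ normalizer (P : Set G), ∀ x ∈ E, g * x * g⁻¹ ∈ E := by
    intro g hg x hx
    have h1 := mem_normalizer' hg (h.hEP hx)
    refine h.hmax _ (fun y hy => hcomm _ h1 _ (h.hEP hy)) ?_
    rw [conj_pow, h.hEp x hx]
    group
  obtain ⟨M, hM⟩ := exists_actM c (hgE g hg)
  obtain ⟨M', hM'⟩ := exists_actM c (hgE _ (inv_mem hg))
  obtain ⟨X, rfl⟩ := exists_toM M
  obtain ⟨X', rfl⟩ := exists_toM M'
  have h1 : ActM c (g * g⁻¹) (toM X * toM X') := hM.mul hM'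
  rw [mul_inv_cancel] at h1
  have h2 : mm X X' = (1, 0, 0, 1) := toM_inj (by rw [toM_mm, h1.unique ActM.one, toM_one])
  have hneg : ∀ g : G, ActM c g (toM (2, 0, 0, 2)) → ∀ x ∈ E, g * x * g⁻¹ = x⁻¹ := by
    intro g hg x hx
    have h1 := hg ⟨x, hx⟩
    rw [toM_neg, mv_neg, mv_one] at h1
    exact h1
  rcases chk' X X' h2 with h3 | h3 | h3 | ⟨A, B, hAB, hBA, h4, h5⟩
  · left
    subst h3
    rw [toM_one] at hM
    exact h.centralises_of (by norm_num) hcomm hg hM.centralises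
  · right; left
    subst h3
    exact h.inverts_of (by norm_num) hH hcomm hg (hneg g hM)
  · right; right
    have h4 := hM.mul hM
    rw [← toM_mm, h3, ← pow_two] at h4
    exact h.inverts_of (by norm_num) hH hcomm (pow_mem hg 2) (hneg _ h4)
  · exfalso
    have hAB' : toM A * toM B = 1 := by rw [← toM_mm, hAB, toM_one]
    have hBA' : toM B * toM A = 1 := by rw [← toM_mm, hBA, toM_one]
    obtain ⟨φ, hφ⟩ := exists_autM hH c hAB' hBA'
    have h6 : ActM c (g * φ g⁻¹) (toM X * (toM A * toM X' * toM B)) := hM.mul (hM'.aut hAB' hφ)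
    have h7 := h6.mul h6
    have h8 : toM X * (toM A * toM X' * toM B) * (toM X * (toM A * toM X' * toM B)) = toM (cm X X' A B) := by
      rw [cm, toM_mm, toM_mm, toM_mm, toM_mm]
      simp only [mul_assoc]
    rw [h8] at h7
    have h9 := h7.mul (h7.mul h7)
    rw [← toM_mm, ← toM_mm, h5, toM_one] at h9
    have h10 := h.act_trivial hC h7.mem (n := 1) (by
      intro x hx
      have h11 := h9.centralises x hx
      have h12 : (g * φ g⁻¹ * (g * φ g⁻¹)) ^ 3 ^ 1 =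
        g * φ g⁻¹ * (g * φ g⁻¹) * (g * φ g⁻¹ * (g * φ g⁻¹) * (g * φ g⁻¹ * (g * φ g⁻¹))) := by
        rw [pow_one, pow_succ', pow_two]
      rw [h12]
      exact h11)
    apply h4
    apply toM_inj
    rw [toM_one]
    exact h7.eq_one_of_centralises h10

end Cfsg.Agent.H486.Hg
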