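import Mathlib
import Cfsg.Agent.H486.HgOdd

/-!
# Homogeneous finite groups: the Sylow subgroups for odd primes, II (helper486)

The case where `P` does not centralise `E` is impossible.
-/

set_option autoImplicit false
set_option linter.unusedSectionVars false

namespace Cfsg.Agent.H486.Hg

open Subgroup Cfsg.Agent.H486.Sn Cfsg.Agent.Schreier.Basic Matrix

universe u

variable {G : Type u} [Group G] [Finite G] {p : ℕ} [hp : Fact p.Prime]

/-- a `p`-group acting on a non-trivial `p`-group has a non-trivial fixed point -/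
theorem exists_common_fixed {A P : Subgroup G} (hA : IsPGroup p A) (hne : A ≠ ⊥) (hP : IsPGroup p P)
    (hPA : ∀ a ∈ P, ∀ x ∈ A, a * x * a⁻¹ ∈ A) : ∃ z ∈ A, z ≠ 1 ∧ ∀ a ∈ P, a * z * a⁻¹ = z := by
  let _ : MulAction P A :=
    { smul := fun a x => ⟨a * x * (a : G)⁻¹, hPA a a.2 x x.2⟩
      one_smul := fun x => Subtype.ext (by change (1 : G) * x * (1 : G)⁻¹ = x; group)
      mul_smul := fun a b x => Subtype.ext (by
        change ((a : G) * b) * x * ((a : G) * b)⁻¹ = a * (b * x * (b : G)⁻¹) * (a : G)⁻¹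
        group) }
  have hsm : ∀ (a : P) (x : A), ((a • x : A) : G) = a * x * (a : G)⁻¹ := fun a x => rfl
  have h1 : p ∣ Nat.card A := by
    obtain ⟨n, hn⟩ := IsPGroup.iff_card.1 hA
    have hn0 : n ≠ 0 := by
      rintro rfl
      rw [pow_zero, Subgroup.card_eq_one] at hn
      exact hne hn
    rw [hn]
    exact dvd_pow_self p hn0
  obtain ⟨z, hz, hz1⟩ := hP.exists_fixed_point_of_prime_dvd_card_of_fixed_point A h1 (a := 1) (by
    intro a
    apply Subtype.ext
    rw [hsm]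
    simp)
  refine ⟨z, z.2, fun h => hz1 (Subtype.ext h.symm), fun a ha => ?_⟩
  exact congrArg Subtype.val (hz ⟨a, ha⟩)

namespace St

variable {E P : Subgroup G}

/-- automorphisms of `E` are induced by automorphisms of `G` leaving `Q = C_P(E)` invariant -/
theorem exists_aut_Q (h : St p E P) (hH : Homog G) (f : MulAut E) :
    ∃ φ : MulAut G, (∀ x : E, φ x = (f x : G)) ∧
      ∀ x ∈ P, (∀ e ∈ E, x * e = e * x) → φ x ∈ P ∧ ∀ e ∈ E, φ x * e = e * φ x := by
  obtain ⟨φ, hφ⟩ := hH.exists_aut f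
  set C : Subgroup G := centralizer (E : Set G) with hC
  have hCmem : ∀ x, x ∈ C ↔ ∀ e ∈ E, x * e = e * x := by
    intro x
    rw [hC, mem_centralizer_iff]
    exact ⟨fun h1 y hy => (h1 y hy).symm, fun h1 y hy => (h1 y hy).symm⟩
  have hφC : ∀ x ∈ C, φ x ∈ C := by
    intro x hx
    rw [hCmem] at hx ⊢
    intro e he
    have h1 : e = φ (f⁻¹ ⟨e, he⟩ : E) := by rw [hφ, MulAut.apply_inv_self]
    rw [h1, ← map_mul, ← map_mul, hx _ (f⁻¹ ⟨e, he⟩).2]
  have hmapC : C.map φ.toMonoidHom = C := by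
    apply Subgroup.eq_of_le_of_card_ge
    · rintro _ ⟨x, hx, rfl⟩
      exact hφC x hx
    · exact (Subgroup.card_map_of_injective φ.injective).ge
  have hQ : IsSyl p C (P ⊓ C) := by
    have h1 : C ≤ normalizer (E : Set G) := by
      intro x hx
      refine mem_normalizer_fin fun e he => ?_
      rw [(hCmem x).1 hx e he, mul_inv_cancel_right]
      exact he
    refine (h.syl_of_le h.P_le).inf_normal h1 ?_
    intro y hy x hx
    rw [hCmem] at hx ⊢
    intro e he
    have h2 : y⁻¹ * e * y ∈ E := by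
      have := mem_normalizer' (inv_mem hy) he
      rwa [inv_inv] at this
    have h3 : y * x * y⁻¹ * e = y * (x * (y⁻¹ * e * y)) * y⁻¹ := by group
    rw [h3, hx _ h2]
    group
  have h2 := hQ.map φ
  rw [hmapC] at h2
  obtain ⟨y, hy, hy2⟩ := hQ.conj h2
  refine ⟨MulAut.conj y⁻¹ * φ, fun x => ?_, fun x hx hxE => ?_⟩
  · rw [MulAut.mul_apply, MulAut.conj_apply, hφ, inv_inv]
    have h3 := (hCmem _).1 (inv_mem hy) _ (f x).2
    rw [h3, inv_mul_cancel_right]
  · have h3 : φ x ∈ (P ⊓ C).map φ.toMonoidHom := ⟨x, ⟨hx, (hCmem x).2 hxE⟩, rfl⟩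
    rw [hy2, mem_cj] at h3
    rw [MulAut.mul_apply, MulAut.conj_apply, inv_inv]
    exact ⟨h3.1, (hCmem _).1 h3.2⟩

/-- the coordinates in the case of a non-trivial action: `b` is a `w`-invariant element of order `p`, acting as a
transvection. -/
theorem exists_b (h : St p E P) (hp2 : p ≠ 2) (hH : Homog G) {u : G} (hu : u ∈ P) {e₀ : G} (he₀ : e₀ ∈ E)
    (hne : u * e₀ * u⁻¹ ≠ e₀) :
    ∃ b ∈ P, b ^ p = 1 ∧ ∃ c : E ≃* Multiplicative (Fin 2 → ZMod p), ActM c b !![1, 1; 0, 1] := by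
  obtain ⟨w, hw2, hwP, hwE⟩ := h.exists_w' hp2 hH
  obtain ⟨b, hb, hwb, hbu⟩ := exists_fixed hp2 h.hPE h.hP.isPGroup hw2 hwP hwE hu
  have hbp : ∃ k, b ^ p ^ k = 1 := by
    obtain ⟨k, hk⟩ := h.hP.isPGroup ⟨b, hb⟩
    exact ⟨k, congrArg Subtype.val hk⟩
  obtain ⟨z, hz, hz1, e, he, hez, hbz, hbe⟩ := exists_trans h.hE h.hEp h.hEc hbp (h.hPE b hb) he₀
    (by rw [hbu e₀ he₀]; exact hne)
  obtain ⟨c, hc1, hc2⟩ := exists_basis2 (A := E) (p := p) (fun x y => Subtype.ext (h.hE x x.2 y y.2))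
    (fun x => Subtype.ext (by simpa using h.hEp x x.2)) h.hEc (z := ⟨z, hz⟩) (e := ⟨e, he⟩)
    (fun h1 => hz1 (congrArg Subtype.val h1)) (by
      rintro ⟨i, hi⟩
      exact hez ⟨i, congrArg Subtype.val hi⟩)
  obtain ⟨M, hM⟩ := exists_actM c (h.hPE b hb)
  have hMz : mv c M ⟨z, hz⟩ = ⟨z, hz⟩ := Subtype.ext ((hM _).symm.trans hbz)
  have hMe : mv c M ⟨e, he⟩ = ⟨e, he⟩ * ⟨z, hz⟩ := Subtype.ext ((hM _).symm.trans hbe)
  have hM1 := congrArg (fun x => Multiplicative.toAdd (c x)) hMz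
  have hM2 := congrArg (fun x => Multiplicative.toAdd (c x)) hMe
  simp only [c_mv, map_mul, toAdd_mul, hc1, hc2, toAdd_ofAdd] at hM1 hM2
  have hMM : M = !![1, 1; 0, 1] := by
    have h00 := congrFun hM1 0
    have h10 := congrFun hM1 1
    have h01 := congrFun hM2 0
    have h11 := congrFun hM2 1
    simp [Matrix.mulVec, dotProduct, Fin.sum_univ_two] at h00 h10 h01 h11
    rw [Matrix.eta_fin_two M, h00, h10, h01, h11]
  subst hMM
  refine ⟨b, hb, ?_, c, hM⟩
  have hpow : ∀ n : ℕ, ActM c (b ^ n) !![1, (n : ZMod p); 0, 1] := by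
    intro n
    induction n with
    | zero =>
      rw [pow_zero, Nat.cast_zero, ← Matrix.one_fin_two]
      exact ActM.one
    | succ n ih =>
      rw [pow_succ]
      have h1 := ih.mul hM
      have h2 : !![1, (n : ZMod p); 0, 1] * !![1, 1; 0, 1] = !![1, ((n + 1 : ℕ) : ZMod p); 0, 1] := by
        rw [Matrix.mul_fin_two]
        simp [add_comm]
      rwa [h2] at h1
  have h1 := hpow p
  rw [ZMod.natCast_self, ← Matrix.one_fin_two] at h1
  refine fixed_trivial hp2 hwE h.hmax (by rw [map_pow, hwb]) (fun y hy => ?_) ?_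
  · have h2 := h1.centralises y hy
    have h3 : b ^ p * y * (b ^ p)⁻¹ * b ^ p = y * b ^ p := by rw [h2]
    rwa [inv_mul_cancel_right] at h3
  · obtain ⟨k, hk⟩ := hbp
    exact ⟨k, by rw [← pow_mul, mul_comm, pow_mul, hk, one_pow]⟩

end St

end Cfsg.Agent.H486.Hg
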