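import Mathlib
import Cfsg.Agent.H486.HgOddB

/-!
# Homogeneous finite groups: the Sylow subgroups for odd primes, III (helper486)

`C_P(E) = E` if `P` does not centralise `E`.
-/

set_option autoImplicit false
set_option linter.unusedSectionVars false

namespace Cfsg.Agent.H486.Hg

open Subgroup Cfsg.Agent.H486.Sn Cfsg.Agent.Schreier.Basic Matrix

universe u

variable {G : Type u} [Group G] [Finite G] {p : ℕ} [hp : Fact p.Prime]

namespace St

variable {E P : Subgroup G}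

/-- some homomorphism `E → E` mapping the fixed vector `z` of `b` to `e` -/
theorem Q_eq (h : St p E P) (hp2 : p ≠ 2) (hH : Homog G) {b : G} (hb : b ∈ P)
    {c : E ≃* Multiplicative (Fin 2 → ZMod p)} (hbM : ActM c b !![1, 1; 0, 1]) :
    ∀ x ∈ P, (∀ e ∈ E, x * e = e * x) → x ∈ E := by
  by_contra hcon
  push Not at hcon
  obtain ⟨x₀, hx₀P, hx₀E, hx₀⟩ := hcon
  set Q : Subgroup G := P ⊓ centralizer (E : Set G) with hQ
  have hQmem : ∀ x, x ∈ Q ↔ x ∈ P ∧ ∀ y ∈ E, x * y = y * x := by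
    intro x
    rw [hQ, mem_inf, mem_centralizer_iff]
    exact and_congr_right fun _ => ⟨fun h1 y hy => (h1 y hy).symm, fun h1 y hy => (h1 y hy).symm⟩
  have hQP : IsPGroup p Q := h.hP.isPGroup.to_le inf_le_left
  have hQc : ∀ x ∈ Q, ∀ y ∈ Q, x * y = y * x := by
    intro x hx y hy
    rw [hQmem] at hx hy
    exact h.comm hp2 hH hx.1 hy.1 hx.2 hy.2
  have hEQ : E ≤ Q := fun x hx => (hQmem x).2 ⟨h.hEP hx, fun y hy => h.hE x hx y hy⟩
  -- the exponent
  have hex : ∃ n, ∀ x ∈ Q, x ^ p ^ n = 1 := by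
    obtain ⟨n, hn⟩ := IsPGroup.iff_card.1 hQP
    refine ⟨n, fun x hx => ?_⟩
    have h1 : (⟨x, hx⟩ : Q) ^ Nat.card Q = 1 := pow_card_eq_one'
    rw [hn] at h1
    exact congrArg Subtype.val h1
  classical
  obtain ⟨m, hm⟩ : ∃ m, Nat.find hex = m + 1 := by
    refine Nat.exists_eq_succ_of_ne_zero fun h0 => ?_
    have h1 := Nat.find_spec hex
    rw [h0] at h1
    have h2 := h1 x₀ ((hQmem _).2 ⟨hx₀P, hx₀E⟩)
    rw [pow_zero, pow_one] at h2
    rw [h2] at hx₀
    exact hx₀ E.one_mem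
  have hexp : ∀ x ∈ Q, x ^ p ^ (m + 1) = 1 := by
    have := Nat.find_spec hex
    rwa [hm] at this
  have hm0 : m ≠ 0 := by
    rintro rfl
    have h1 := hexp x₀ ((hQmem _).2 ⟨hx₀P, hx₀E⟩)
    rw [zero_add, pow_one] at h1
    exact hx₀ (h.hmax x₀ hx₀E h1)
  obtain ⟨x₁, hx₁, hx₁m⟩ : ∃ x ∈ Q, x ^ p ^ m ≠ 1 := by
    have h1 := Nat.find_min hex (m := m) (by omega)
    push Not at h1
    exact h1
  have hpwE : ∀ x ∈ Q, x ^ p ^ m ∈ E := by
    intro x hx
    refine h.hmax _ (fun y hy => ?_) ?_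
    · exact (Commute.pow_left (show Commute x y from ((hQmem x).1 hx).2 y hy) _)
    · rw [← pow_mul, ← pow_succ]
      exact hexp x hx
  have hpw1 : ∀ y ∈ E, y ^ p ^ m = 1 := by
    intro y hy
    obtain ⟨m', rfl⟩ := Nat.exists_eq_succ_of_ne_zero hm0
    rw [pow_succ', pow_mul, h.hEp y hy, one_pow]
  -- the elements `z` and `e`
  set z : E := c.symm (Multiplicative.ofAdd ![1, 0]) with hz
  set e : E := c.symm (Multiplicative.ofAdd ![0, 1]) with he
  have hcz : Multiplicative.toAdd (c z) = ![1, 0] := by rw [hz, MulEquiv.apply_symm_apply]; rfl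
  have hce : Multiplicative.toAdd (c e) = ![0, 1] := by rw [he, MulEquiv.apply_symm_apply]; rfl
  have hz1 : (z : G) ≠ 1 := by
    intro h1
    have h2 : z = 1 := Subtype.ext h1
    rw [h2, map_one] at hcz
    have := congrFun hcz 0
    simp at this
  have hbz : b * z * b⁻¹ = z := by
    rw [hbM]
    congr 1
    apply c.injective
    apply Multiplicative.toAdd.injective
    rw [c_mv, hcz]
    ext i
    fin_cases i <;> simp
  have hbe : b * e * b⁻¹ = e * z := by
    rw [hbM, ← Subgroup.coe_mul]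
    congr 1
    apply c.injective
    apply Multiplicative.toAdd.injective
    rw [c_mv, map_mul, toAdd_mul, hcz, hce]
    ext i
    fin_cases i <;> simp
  -- an element of `Q` with power `z`
  obtain ⟨x, hx, hxz⟩ : ∃ x ∈ Q, x ^ p ^ m = z := by
    set y₁ : E := ⟨x₁ ^ p ^ m, hpwE x₁ hx₁⟩ with hy₁
    have hy₁1 : y₁ ≠ 1 := fun h1 => hx₁m (congrArg Subtype.val h1)
    obtain ⟨e', he'⟩ : ∃ e' : E, e' ∉ zpowers y₁ := by
      by_contra hcon
      push Not at hcon
      have h1 : zpowers y₁ = ⊤ := eq_top_iff.2 fun y _ => hcon y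
      have h2 : Nat.card (zpowers y₁) = p ^ 2 := by rw [h1, Subgroup.card_top, h.hEc]
      rw [Nat.card_zpowers, orderOf_eq_prime (Subtype.ext (by simpa using h.hEp y₁ y₁.2)) hy₁1] at h2
      have h3 := hp.out.one_lt
      nlinarith
    obtain ⟨c₁, hc₁, -⟩ := exists_basis2 (A := E) (p := p) (fun x y => Subtype.ext (h.hE x x.2 y y.2))
      (fun x => Subtype.ext (by simpa using h.hEp x x.2)) h.hEc hy₁1 he'
    obtain ⟨φ, hφ, hφQ⟩ := h.exists_aut_Q hH (c₁.trans c.symm)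
    refine ⟨φ x₁, (hQmem _).2 (hφQ x₁ ((hQmem _).1 hx₁).1 ((hQmem _).1 hx₁).2), ?_⟩
    rw [← map_pow]
    have h1 := hφ y₁
    have h2 : (c₁.trans c.symm) y₁ = z := by
      rw [MulEquiv.trans_apply, hc₁]
    rw [h2] at h1
    exact h1
  -- the automorphism `κ`
  let pw : Q → E := fun x => ⟨(x : G) ^ p ^ m, hpwE x x.2⟩
  have hpw : ∀ x y : Q, pw (x * y) = pw x * pw y := fun x y => by
    apply Subtype.ext
    change ((x : G) * y) ^ p ^ m = (x : G) ^ p ^ m * (y : G) ^ p ^ m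
    exact (show Commute (x : G) y from hQc x x.2 y y.2).mul_pow _
  have hpwe : ∀ y : Q, (y : G) ∈ E → pw y = 1 := fun y hy => Subtype.ext (hpw1 y hy)
  let N : Matrix (Fin 2) (Fin 2) (ZMod p) := !![0, 0; 1, 0]
  have hmv1 : mv c N 1 = 1 := by
    have := mv_mul c N 1 1
    rw [mul_one] at this
    exact (mul_eq_left.1 this.symm)
  let κ₀ : Q →* Q :=
    { toFun := fun x => ⟨x * mv c N (pw x), Q.mul_mem x.2 (hEQ (mv c N (pw x)).2)⟩
      map_one' := by
        apply Subtype.ext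
        change (1 : G) * mv c N (pw 1) = 1
        rw [hpwe 1 E.one_mem, hmv1]
        simp
      map_mul' := fun x y => by
        apply Subtype.ext
        change (x : G) * y * mv c N (pw (x * y)) = x * mv c N (pw x) * (y * mv c N (pw y))
        rw [hpw, mv_mul, Subgroup.coe_mul]
        have h1 := hQc _ y.2 _ (hEQ (mv c N (pw x)).2)
        rw [mul_assoc, ← mul_assoc (y : G), h1]
        group }
  have hκ₀ : Function.Injective κ₀ := by
    rw [injective_iff_map_eq_one]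
    intro x hx
    have h1 : (x : G) * mv c N (pw x) = 1 := congrArg Subtype.val hx
    have h2 : (x : G) ∈ E := by
      rw [eq_inv_of_mul_eq_one_left h1]
      exact E.inv_mem (mv c N (pw x)).2
    rw [hpwe x h2, hmv1] at h1
    exact Subtype.ext (by simpa using h1)
  obtain ⟨φ, hφ'⟩ := hH.exists_aut (E := Q) (MulEquiv.ofBijective κ₀ (Finite.injective_iff_bijective.1 hκ₀))
  have hφ : ∀ x : Q, φ (x : G) = x * mv c N (pw x) := fun x => hφ' x
  have hφE : ∀ y ∈ E, φ y = y := by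
    intro y hy
    have h1 := hφ ⟨y, hEQ hy⟩
    rw [hpwe _ hy, hmv1] at h1
    simpa using h1
  have hbE : ∀ y ∈ E, b⁻¹ * y * b ∈ E := by
    intro y hy
    have := h.hPE b⁻¹ (P.inv_mem hb) y hy
    rwa [inv_inv] at this
  have hbQ : ∀ y ∈ Q, b * y * b⁻¹ ∈ Q := by
    intro y hy
    rw [hQmem] at hy ⊢
    refine ⟨P.mul_mem (P.mul_mem hb hy.1) (P.inv_mem hb), fun a ha => ?_⟩
    have h1 := hy.2 _ (hbE a ha)
    have h2 : b * y * b⁻¹ * a = b * (y * (b⁻¹ * a * b)) * b⁻¹ := by group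
    rw [h2, h1]
    group
  have hbQ' : ∀ y ∈ Q, b⁻¹ * y * b ∈ Q := by
    intro y hy
    have h1 := mem_normalizer_fin hbQ
    have h2 := mem_normalizer' (inv_mem h1) hy
    rwa [inv_inv] at h2
  set n : G := b * φ b⁻¹ with hn
  have hnE : ∀ y ∈ E, n * y * n⁻¹ = y := by
    intro y hy
    have h1 : n * y * n⁻¹ = b * φ (b⁻¹ * y * b) * b⁻¹ := by
      rw [hn, map_mul, map_mul, hφE y hy, map_inv]
      group
    rw [h1, hφE _ (hbE y hy)]
    group
  -- the formula for the action on `Q`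
  have hform : ∀ x : Q, n * x * n⁻¹ =
      b * φ (b⁻¹ * (x * (mv c N (pw x) : G)⁻¹) * b) * b⁻¹ := by
    intro x
    have h1 : φ (x * (mv c N (pw x) : G)⁻¹) = x := by
      rw [map_mul, map_inv, hφE _ (mv c N (pw x)).2, hφ, mul_inv_cancel_right]
    rw [map_mul, map_mul, h1, hn, map_inv]
    group
  have hnQ : ∀ x ∈ Q, n * x * n⁻¹ ∈ Q := by
    intro x hx
    rw [hform ⟨x, hx⟩]
    apply hbQ
    have h1 : b⁻¹ * (x * (mv c N (pw ⟨x, hx⟩) : G)⁻¹) * b ∈ Q :=
      hbQ' _ (Q.mul_mem hx (Q.inv_mem (hEQ (mv c N (pw ⟨x, hx⟩)).2)))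
    have h2 := hφ ⟨_, h1⟩
    change φ (b⁻¹ * (x * (mv c N (pw ⟨x, hx⟩) : G)⁻¹) * b) = _ at h2
    rw [h2]
    exact Q.mul_mem h1 (hEQ (mv c N _).2)
  have hNz : mv c N z = e := by
    apply c.injective
    apply Multiplicative.toAdd.injective
    rw [c_mv, hcz, hce]
    ext i
    fin_cases i <;> simp [N]
  have hnx : n * x * n⁻¹ = x * z := by
    have hpx : pw ⟨x, hx⟩ = z := Subtype.ext hxz
    have h0 := hform ⟨x, hx⟩
    rw [hpx, hNz] at h0
    change n * x * n⁻¹ = b * φ (b⁻¹ * (x * (e : G)⁻¹) * b) * b⁻¹ at h0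
    have h1 : b⁻¹ * (x * (e : G)⁻¹) * b ∈ Q := hbQ' _ (Q.mul_mem hx (Q.inv_mem (hEQ e.2)))
    have h2 := hφ ⟨_, h1⟩
    have h3 : pw ⟨_, h1⟩ = z := by
      apply Subtype.ext
      change (b⁻¹ * (x * (e : G)⁻¹) * b) ^ p ^ m = z
      have h4 : b⁻¹ * (x * (e : G)⁻¹) * b = b⁻¹ * (x * (e : G)⁻¹) * b⁻¹⁻¹ := by rw [inv_inv]
      have h5 : Commute x (e : G)⁻¹ := hQc x hx _ (hEQ (E.inv_mem e.2))
      rw [h4, conj_pow, h5.mul_pow, hxz, hpw1 _ (E.inv_mem e.2), inv_inv, mul_one]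
      have h6 : b⁻¹ * (b * z * b⁻¹) * b = z := by group
      rwa [hbz] at h6
    rw [h3, hNz] at h2
    change φ (b⁻¹ * (x * (e : G)⁻¹) * b) = b⁻¹ * (x * (e : G)⁻¹) * b * e at h2
    rw [h0, h2]
    have h4 : b * (b⁻¹ * (x * (e : G)⁻¹) * b * e) * b⁻¹ = x * (e : G)⁻¹ * (b * e * b⁻¹) := by group
    rw [h4, hbe]
    group
  have hnpow : ∀ i : ℕ, n ^ i * x * (n ^ i)⁻¹ = x * (z : G) ^ i := by
    intro i
    induction i with
    | zero => simp
    | succ i ih =>
      have h1 : n ^ (i + 1) * x * (n ^ (i + 1))⁻¹ = n * (n ^ i * x * (n ^ i)⁻¹) * n⁻¹ := by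
        rw [pow_succ']; group
      have h2 : n * (x * (z : G) ^ i) * n⁻¹ = (n * x * n⁻¹) * (n * (z : G) ^ i * n⁻¹) := by group
      rw [h1, ih, h2, hnx, hnE _ (E.pow_mem z.2 i), pow_succ', mul_assoc]
  obtain ⟨t, ⟨j, rfl⟩, k, hk⟩ := exists_p_part (p := p) n 1
  -- `Q` is a Sylow subgroup of the centraliser
  have hQsyl : IsSyl p (centralizer (E : Set G)) Q := by
    refine (h.syl_of_le h.P_le).inf_normal (Subgroup.centralizer_le_normalizer (E : Set G)) ?_
    intro y hy x hx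
    rw [mem_centralizer_iff] at hx ⊢
    intro a ha
    have h2 : y⁻¹ * a * y ∈ E := by
      have := mem_normalizer' (inv_mem hy) ha
      rwa [inv_inv] at this
    have h3 : y * x * y⁻¹ * a = y * (x * (y⁻¹ * a * y)) * y⁻¹ := by group
    rw [h3, ← hx _ h2]
    group
  have hnC : n ∈ centralizer (E : Set G) := by
    rw [mem_centralizer_iff]
    intro y hy
    have h1 := hnE y hy
    have h2 : n * y * n⁻¹ * n = y * n := by rw [h1]
    rw [inv_mul_cancel_right] at h2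
    exact h2.symm
  have hu : n ^ (1 + p ^ 1 * j) ∈ Q :=
    hQsyl.mem_of_normalizes (pow_mem hnC _) ⟨k, hk⟩ (pow_mem (mem_normalizer_fin hnQ) _)
  have h1 := hnpow (1 + p ^ 1 * j)
  rw [hQc _ hu _ hx, mul_inv_cancel_right, pow_add, pow_one, pow_one, pow_mul, h.hEp _ z.2, one_pow, mul_one] at h1
  exact hz1 (left_eq_mul.1 h1)

end St

end Cfsg.Agent.H486.Hg
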