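import Mathlib
import Cfsg.Agent.H486.HgOddC

/-!
# Homogeneous finite groups: the Sylow subgroups for odd primes, IV (helper486)

`P` centralises `E`.
-/

set_option autoImplicit false
set_option linter.unusedSectionVars false

namespace Cfsg.Agent.H486.Hg

open Subgroup Cfsg.Agent.H486.Sn Cfsg.Agent.Schreier.Basic Matrix

universe u

variable {G : Type u} [Group G] [Finite G] {p : ℕ} [hp : Fact p.Prime]

namespace St

variable {E P : Subgroup G}

theorem upper_pow (d i : ZMod p) (n : ℕ) : ∃ j : ZMod p, !![1, i; 0, d] ^ n = !![1, j; 0, d ^ n] := by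
  induction n with
  | zero => exact ⟨0, by rw [pow_zero, pow_zero, Matrix.one_fin_two]⟩
  | succ n ih =>
    obtain ⟨j, hj⟩ := ih
    refine ⟨i + j * d, ?_⟩
    rw [pow_succ, hj, Matrix.mul_fin_two, pow_succ]
    simp

theorem actM_pow {c : E ≃* Multiplicative (Fin 2 → ZMod p)} {g : G} {M : Matrix (Fin 2) (Fin 2) (ZMod p)}
    (h : ActM c g M) (n : ℕ) : ActM c (g ^ n) (M ^ n) := by
  induction n with
  | zero => rw [pow_zero, pow_zero]; exact ActM.one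
  | succ n ih => rw [pow_succ, pow_succ]; exact ih.mul h

theorem ut_pow (n : ℕ) : (!![1, 1; 0, 1] : Matrix (Fin 2) (Fin 2) (ZMod p)) ^ n = !![1, (n : ZMod p); 0, 1] := by
  induction n with
  | zero => rw [pow_zero, Nat.cast_zero, Matrix.one_fin_two]
  | succ n ih =>
    rw [pow_succ, ih, Matrix.mul_fin_two]
    simp [add_comm]

/-- every element of `P` acts as an upper unitriangular matrix -/
theorem exists_ut (h : St p E P) {b : G} (hb : b ∈ P)
    {c : E ≃* Multiplicative (Fin 2 → ZMod p)} (hbM : ActM c b !![1, 1; 0, 1]) {a : G} (ha : a ∈ P) :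
    ∃ i : ZMod p, ActM c a !![1, i; 0, 1] := by
  obtain ⟨z₁, hz₁, hz₁1, hfix⟩ := exists_common_fixed h.isPGroupE (by
    intro h1
    have h2 := h.hEc
    rw [h1, Subgroup.card_bot] at h2
    exact absurd h2.symm (Nat.one_lt_pow two_ne_zero hp.out.one_lt).ne') h.hP.isPGroup h.hPE
  set v := Multiplicative.toAdd (c ⟨z₁, hz₁⟩) with hv
  have hM : ∀ a ∈ P, ∀ M, ActM c a M → M.mulVec v = v := by
    intro a ha M hM
    have h1 : mv c M ⟨z₁, hz₁⟩ = ⟨z₁, hz₁⟩ := Subtype.ext ((hM ⟨z₁, hz₁⟩).symm.trans (hfix a ha))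
    have h2 := congrArg (fun x => Multiplicative.toAdd (c x)) h1
    simpa only [c_mv] using h2
  have h1 := congrFun (hM b hb _ hbM) 0
  have hv1 : v 1 = 0 := by
    simp [Matrix.mulVec, dotProduct, Fin.sum_univ_two] at h1
    exact h1
  have hv0 : v 0 ≠ 0 := by
    intro h0
    have h2 : v = 0 := by
      ext i
      fin_cases i
      · exact h0
      · exact hv1
    have h3 : (⟨z₁, hz₁⟩ : E) = 1 := by
      apply c.injective
      apply Multiplicative.toAdd.injective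
      rw [map_one]
      exact h2
    exact hz₁1 (congrArg Subtype.val h3)
  obtain ⟨M, hMa⟩ := exists_actM c (h.hPE a ha)
  have h2 := hM a ha M hMa
  have h00 := congrFun h2 0
  have h10 := congrFun h2 1
  simp [Matrix.mulVec, dotProduct, Fin.sum_univ_two, hv1] at h00 h10
  have hM00 : M 0 0 = 1 := mul_right_cancel₀ hv0 (by rw [h00, one_mul])
  have hM10 : M 1 0 = 0 := by
    rcases h10 with h10 | h10
    · exact h10
    · exact absurd h10 hv0
  have hMeq : M = !![1, M 0 1; 0, M 1 1] := by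
    rw [← hM00, ← hM10]
    exact Matrix.eta_fin_two M
  obtain ⟨k, hk⟩ := h.hP.isPGroup ⟨a, ha⟩
  have hk' : a ^ p ^ k = 1 := congrArg Subtype.val hk
  have h3 := actM_pow hMa (p ^ k)
  rw [hk', hMeq] at h3
  obtain ⟨j, hj⟩ := upper_pow (M 1 1) (M 0 1) (p ^ k)
  rw [hj, ZMod.pow_card_pow] at h3
  have h4 := congrFun (congrFun (h3.unique ActM.one) 1) 1
  simp at h4
  rw [h4] at hMeq
  exact ⟨M 0 1, hMeq ▸ hMa⟩

/-- `P = E ⟨b⟩` -/
theorem exists_mul (h : St p E P) (hQ : ∀ x ∈ P, (∀ e ∈ E, x * e = e * x) → x ∈ E) {b : G} (hb : b ∈ P)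
    {c : E ≃* Multiplicative (Fin 2 → ZMod p)} (hbM : ActM c b !![1, 1; 0, 1]) {a : G} (ha : a ∈ P) :
    ∃ x ∈ E, ∃ i : ℕ, a = x * b ^ i := by
  obtain ⟨i, hi⟩ := h.exists_ut hb hbM ha
  have h1 := actM_pow hbM i.val
  rw [ut_pow, ZMod.natCast_val, ZMod.cast_id', id] at h1
  have h2 : ActM c (a * (b ^ i.val)⁻¹) 1 := by
    have h3 := hi.mul (h1.inv (M' := !![1, -i; 0, 1]) (by
      rw [Matrix.mul_fin_two, Matrix.one_fin_two]; simp))
    rw [Matrix.mul_fin_two] at h3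
    simp only [mul_one, mul_neg, one_mul, mul_zero, add_zero, neg_zero, zero_add, neg_add_cancel, zero_mul] at h3
    rwa [← Matrix.one_fin_two] at h3
  refine ⟨a * (b ^ i.val)⁻¹, hQ _ (P.mul_mem ha (P.inv_mem (P.pow_mem hb _))) (fun e he => ?_), i.val, by group⟩
  have h3 := h2.centralises e he
  have h4 : a * (b ^ i.val)⁻¹ * e * (a * (b ^ i.val)⁻¹)⁻¹ * (a * (b ^ i.val)⁻¹) = e * (a * (b ^ i.val)⁻¹) := by
    rw [h3]
  rwa [inv_mul_cancel_right] at h4

theorem m1 : (!![0, 1; 1, 0] * !![0, 1; 1, 0] : Matrix (Fin 2) (Fin 2) (ZMod p)) = 1 := by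
  ext i j
  fin_cases i <;> fin_cases j <;> simp [Matrix.mul_apply, Fin.sum_univ_two]

theorem m2 : (!![0, 1; 1, 0] * !![1, 1; 0, 1] * !![0, 1; 1, 0] * !![1, 0; -1, 1] :
    Matrix (Fin 2) (Fin 2) (ZMod p)) = 1 := by
  ext i j
  fin_cases i <;> fin_cases j <;> simp [Matrix.mul_apply, Fin.sum_univ_two]

theorem m3 : (!![1, 1; 0, 1] * !![1, 0; -1, 1] * !![1, 1; 0, 1] *
    (!![1, 1; 0, 1] * !![1, 0; -1, 1] * !![1, 1; 0, 1]) : Matrix (Fin 2) (Fin 2) (ZMod p)) = -1 := by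
  ext i j
  fin_cases i <;> fin_cases j <;> simp [Matrix.mul_apply, Fin.sum_univ_two]

/-- **A Sylow `p`-subgroup centralises `E`.** -/
theorem centralises_E (h : St p E P) (hp2 : p ≠ 2) (hH : Homog G) : ∀ a ∈ P, ∀ x ∈ E, a * x = x * a := by
  by_contra hcon
  push Not at hcon
  obtain ⟨u₀, hu₀, e₀, he₀, hne⟩ := hcon
  obtain ⟨b, hb, hbp, c, hbM⟩ := h.exists_b hp2 hH hu₀ he₀ (by
    intro h1
    apply hne
    have h2 : u₀ * e₀ * u₀⁻¹ * u₀ = e₀ * u₀ := by rw [h1]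
    rwa [inv_mul_cancel_right] at h2)
  have hQ := h.Q_eq hp2 hH hb hbM
  have h2ne : (2 : ZMod p) ≠ 0 := by
    intro h0
    have h1 : ((2 : ℕ) : ZMod p) = 0 := by exact_mod_cast h0
    rw [ZMod.natCast_eq_zero_iff] at h1
    exact hp2 ((Nat.prime_dvd_prime_iff_eq hp.out Nat.prime_two).1 h1)
  -- an element inverting `E`
  obtain ⟨φs, hφs⟩ := exists_autM hH c (A := !![0, 1; 1, 0]) (B := !![0, 1; 1, 0]) m1 m1
  have hb' := (hbM.aut m1 hφs).inv (M' := !![1, 0; -1, 1]) m2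
  have hg₁ := (hbM.mul hb').mul hbM
  have hg₀ := hg₁.mul hg₁
  have hg₀' : ActM c (b * (φs b)⁻¹ * b * (b * (φs b)⁻¹ * b)) (-1) := by
    rwa [m3] at hg₀
  set g₀ : G := b * (φs b)⁻¹ * b * (b * (φs b)⁻¹ * b) with hg₀def
  clear_value g₀
  have hg₀E : ∀ x ∈ E, g₀ * x * g₀⁻¹ = x⁻¹ := by
    intro x hx
    have h1 := hg₀' ⟨x, hx⟩
    rw [mv_neg, mv_one] at h1
    exact h1
  have hg₀E' : ∀ x ∈ E, g₀⁻¹ * x * g₀ = x⁻¹ := by
    intro x hx
    have h1 := hg₀E _ (E.inv_mem hx)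
    rw [inv_inv] at h1
    rw [← h1]
    have h2 : g₀⁻¹ * (g₀ * x⁻¹ * g₀⁻¹) * g₀ = x⁻¹ := by group
    rw [h2, h1]
  have hY : cj g₀ P ≤ YP E P h.hPE := by
    intro a₁ ha₁
    rw [mem_cj] at ha₁
    refine ⟨_, ha₁, fun x hx => ?_⟩
    have h1 : a₁ * x * a₁⁻¹ = g₀ * ((g₀⁻¹ * a₁ * g₀) * (g₀⁻¹ * x * g₀) * (g₀⁻¹ * a₁ * g₀)⁻¹) * g₀⁻¹ := by group
    rw [h1, hg₀E' x hx, hg₀E _ (h.hPE _ ha₁ _ (E.inv_mem hx))]
    simp only [_root_.mul_inv_rev, inv_inv, mul_assoc]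
  obtain ⟨y, ⟨a, ha, hya⟩, hyP⟩ := (h.syl_of_le (le_YP (h := h.hPE))).exists_conj_le hY (isPGroup_cj h.hP.isPGroup g₀)
  have hyinv : ∀ x ∈ E, y⁻¹ * x * y = a⁻¹ * x * a := by
    intro x hx
    have h1 : a⁻¹ * x * a ∈ E := by
      have := h.hPE a⁻¹ (P.inv_mem ha) x hx
      rwa [inv_inv] at this
    have h2 := hya _ h1
    have h3 : a * (a⁻¹ * x * a) * a⁻¹ = x := by group
    rw [h3] at h2
    calc y⁻¹ * x * y = y⁻¹ * (y * (a⁻¹ * x * a) * y⁻¹) * y := by rw [h2]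
      _ = a⁻¹ * x * a := by group
  set g : G := a * y⁻¹ * g₀ with hgdef
  have hgE : ∀ x ∈ E, g * x * g⁻¹ = x⁻¹ := by
    intro x hx
    have h1 : g * x * g⁻¹ = a * (y⁻¹ * (g₀ * x * g₀⁻¹) * y) * a⁻¹ := by rw [hgdef]; group
    rw [h1, hg₀E x hx, hyinv _ (E.inv_mem hx)]
    group
  have hgE' : ∀ x ∈ E, g⁻¹ * x * g = x⁻¹ := by
    intro x hx
    have h1 := hgE _ (E.inv_mem hx)
    rw [inv_inv] at h1
    have h2 : g⁻¹ * (g * x⁻¹ * g⁻¹) * g = x⁻¹ := by group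
    rwa [h1] at h2
  have hgP : ∀ x ∈ P, g * x * g⁻¹ ∈ P := by
    intro x hx
    have h1 : g₀ * x * g₀⁻¹ ∈ cj g₀ P := by
      rw [mem_cj]
      have h2 : g₀⁻¹ * (g₀ * x * g₀⁻¹) * g₀ = x := by group
      rwa [h2]
    have h2 := hyP h1
    rw [mem_cj] at h2
    have h3 := P.mul_mem (P.mul_mem ha h2) (P.inv_mem ha)
    have h4 : a * (y⁻¹ * (g₀ * x * g₀⁻¹) * y) * a⁻¹ = g * x * g⁻¹ := by rw [hgdef]; group
    rwa [h4] at h3
  clear_value g
  -- `g b g⁻¹ = b y₀`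
  set y₀ : G := b⁻¹ * (g * b * g⁻¹) with hy₀
  have hbE : ∀ y ∈ E, b⁻¹ * y * b ∈ E := by
    intro y hy
    have := h.hPE b⁻¹ (P.inv_mem hb) y hy
    rwa [inv_inv] at this
  have hy₀E : y₀ ∈ E := by
    refine hQ _ (P.mul_mem (P.inv_mem hb) (hgP b hb)) (fun x hx => ?_)
    have h1 : y₀ * x * y₀⁻¹ = b⁻¹ * (g * (b * (g⁻¹ * x * g) * b⁻¹) * g⁻¹) * b := by rw [hy₀]; group
    rw [hgE' x hx, hgE _ (h.hPE b hb _ (E.inv_mem hx))] at h1
    have h2 : b⁻¹ * (b * x⁻¹ * b⁻¹)⁻¹ * b = x := by group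
    rw [h2] at h1
    have h3 : y₀ * x * y₀⁻¹ * y₀ = x * y₀ := by rw [h1]
    rwa [inv_mul_cancel_right] at h3
  have hgb : g * b * g⁻¹ = b * y₀ := by rw [hy₀]; group
  have hgb' : g⁻¹ * b * g = b * y₀ := by
    have h1 : g * (b * y₀) * g⁻¹ = (g * b * g⁻¹) * (g * y₀ * g⁻¹) := by group
    rw [hgb, hgE y₀ hy₀E, mul_inv_cancel_right] at h1
    rw [← h1]
    have h2 : g⁻¹ * (g * (b * y₀) * g⁻¹) * g = b * y₀ := by group
    rw [h2, h1]
  -- the automorphism `σ` of `P`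
  have hut : ∀ a : P, ∃ i : ZMod p, ActM c (a : G) !![1, i; 0, 1] := fun a => h.exists_ut hb hbM a.2
  choose ι hι using hut
  have hιmul : ∀ a a' : P, ι (a * a') = ι a + ι a' := by
    intro a a'
    have h1 := (hι a).mul (hι a')
    have h2 := (hι (a * a')).unique h1
    rw [Matrix.mul_fin_two] at h2
    have h3 := congrFun (congrFun h2 0) 1
    simp at h3
    rw [h3, add_comm]
  have hι1 : ∀ a : P, (a : G) ∈ E → ι a = 0 := by
    intro a ha
    have h1 : ActM c (a : G) 1 := by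
      intro x
      rw [mv_one, h.hE _ ha _ x.2, mul_inv_cancel_right]
    have h2 := congrFun (congrFun ((hι a).unique h1) 0) 1
    simpa using h2
  let t : ZMod p → E := fun i => c.symm (Multiplicative.ofAdd ![-(i * (i - 1) / 2), i])
  have hct : ∀ i, Multiplicative.toAdd (c (t i)) = ![-(i * (i - 1) / 2), i] := fun i => by
    change Multiplicative.toAdd (c (c.symm _)) = _
    rw [MulEquiv.apply_symm_apply]
    rfl
  have ht0 : t 0 = 1 := by
    apply c.injective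
    apply Multiplicative.toAdd.injective
    rw [hct, map_one]
    ext i
    fin_cases i <;> simp
  have hinvM : ∀ a : P, ∀ x : E, (a : G)⁻¹ * x * a = (mv c !![1, -ι a; 0, 1] x : G) := by
    intro a x
    have h1 := (hι a).inv (M' := !![1, -ι a; 0, 1]) (by
      rw [Matrix.mul_fin_two, Matrix.one_fin_two]; simp)
    have h2 := h1 x
    rwa [inv_inv] at h2
  let σ₀ : P →* P :=
    { toFun := fun a => ⟨a * t (ι a), P.mul_mem a.2 (h.hEP (t (ι a)).2)⟩
      map_one' := by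
        apply Subtype.ext
        change (1 : G) * t (ι 1) = 1
        rw [hι1 1 E.one_mem, ht0]
        simp
      map_mul' := fun a a' => by
        apply Subtype.ext
        change (a : G) * a' * t (ι (a * a')) = a * t (ι a) * (a' * t (ι a'))
        have h1 : (a : G) * t (ι a) * (a' * t (ι a')) = a * a' * (((a' : G)⁻¹ * t (ι a) * a') * t (ι a')) := by group
        rw [h1, hinvM, hιmul]
        change (a : G) * a' * t (ι a + ι a') = a * a' * ((mv c !![1, -ι a'; 0, 1] (t (ι a)) * t (ι a') : E) : G)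
        refine congrArg (fun s : E => (a : G) * a' * s) ?_
        apply c.injective
        apply Multiplicative.toAdd.injective
        rw [map_mul, toAdd_mul, c_mv, hct, hct, hct]
        ext i
        fin_cases i
        · simp [Matrix.mulVec, dotProduct, Fin.sum_univ_two]
          field_simp
          ring
        · simp [Matrix.mulVec, dotProduct, Fin.sum_univ_two] }
  have hσ₀ : Function.Injective σ₀ := by
    rw [injective_iff_map_eq_one]
    intro x hx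
    have h1 : (x : G) * t (ι x) = 1 := congrArg Subtype.val hx
    have h2 : (x : G) ∈ E := by
      rw [eq_inv_of_mul_eq_one_left h1]
      exact E.inv_mem (t (ι x)).2
    rw [hι1 x h2, ht0] at h1
    exact Subtype.ext (by simpa using h1)
  obtain ⟨φ, hφ'⟩ := hH.exists_aut (E := P) (MulEquiv.ofBijective σ₀ (Finite.injective_iff_bijective.1 hσ₀))
  have hφ : ∀ a : P, φ (a : G) = a * t (ι a) := fun a => hφ' a
  have hφE : ∀ y ∈ E, φ y = y := by
    intro y hy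
    have h1 := hφ ⟨y, h.hEP hy⟩
    rw [hι1 _ hy, ht0] at h1
    simpa using h1
  set e : E := c.symm (Multiplicative.ofAdd ![0, 1]) with he
  have hce : Multiplicative.toAdd (c e) = ![0, 1] := by rw [he, MulEquiv.apply_symm_apply]; rfl
  have hφb : φ b = b * e := by
    have h1 := hφ ⟨b, hb⟩
    have h2 : ι ⟨b, hb⟩ = 1 := by
      have h3 := congrFun (congrFun ((hι ⟨b, hb⟩).unique hbM) 0) 1
      simpa using h3
    rw [h2] at h1
    rw [h1]
    congr 2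
    apply c.injective
    apply Multiplicative.toAdd.injective
    rw [hct, hce]
    ext i
    fin_cases i <;> simp
  set n : G := g * φ g⁻¹ with hn
  have hnE : ∀ y ∈ E, n * y * n⁻¹ = y := by
    intro y hy
    have h1 : n * y * n⁻¹ = g * φ (g⁻¹ * y * g) * g⁻¹ := by
      rw [hn, map_mul, map_mul, hφE y hy, map_inv]
      group
    rw [h1, hgE' y hy, hφE _ (E.inv_mem hy), hgE _ (E.inv_mem hy), inv_inv]
  have hnb : n * b * n⁻¹ = b * ((e : G)⁻¹ * (e : G)⁻¹) := by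
    have h1 : φ (b * (e : G)⁻¹) = b := by
      rw [map_mul, map_inv, hφE _ e.2, hφb, mul_inv_cancel_right]
    have h2 : n * b * n⁻¹ = g * φ (g⁻¹ * (b * (e : G)⁻¹) * g) * g⁻¹ := by
      rw [map_mul, map_mul, h1, hn, map_inv]
      group
    have h3 : g⁻¹ * (b * (e : G)⁻¹) * g = b * y₀ * e := by
      have h4 : g⁻¹ * (b * (e : G)⁻¹) * g = (g⁻¹ * b * g) * (g⁻¹ * (e : G)⁻¹ * g) := by group
      rw [h4, hgb', hgE' _ (E.inv_mem e.2), inv_inv]
    rw [h2, h3, map_mul, map_mul, hφb, hφE _ hy₀E, hφE _ e.2]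
    have h5 : g * (b * e * y₀ * e) * g⁻¹ =
        (g * b * g⁻¹) * (g * e * g⁻¹) * (g * y₀ * g⁻¹) * (g * e * g⁻¹) := by group
    rw [h5, hgb, hgE _ e.2, hgE _ hy₀E]
    have h6 := h.hE _ hy₀E _ (E.inv_mem e.2)
    have h7 : b * y₀ * (e : G)⁻¹ * y₀⁻¹ * (e : G)⁻¹ = b * (y₀ * (e : G)⁻¹) * y₀⁻¹ * (e : G)⁻¹ := by group
    rw [h7, h6]
    group
  have hnpow : ∀ i : ℕ, n ^ i * b * (n ^ i)⁻¹ = b * ((e : G)⁻¹ * (e : G)⁻¹) ^ i := by
    intro i
    induction i with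
    | zero => simp
    | succ i ih =>
      have h1 : n ^ (i + 1) * b * (n ^ (i + 1))⁻¹ = n * (n ^ i * b * (n ^ i)⁻¹) * n⁻¹ := by
        rw [pow_succ']; group
      have h2 : n * (b * ((e : G)⁻¹ * (e : G)⁻¹) ^ i) * n⁻¹ =
        (n * b * n⁻¹) * (n * ((e : G)⁻¹ * (e : G)⁻¹) ^ i * n⁻¹) := by group
      rw [h1, ih, h2, hnb, hnE _ (E.pow_mem (E.mul_mem (E.inv_mem e.2) (E.inv_mem e.2)) i), pow_succ', mul_assoc]
  have hnP : ∀ x ∈ P, n * x * n⁻¹ ∈ P := by
    intro x hx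
    obtain ⟨x', hx', i, rfl⟩ := h.exists_mul hQ hb hbM hx
    have h1 : n * (x' * b ^ i) * n⁻¹ = (n * x' * n⁻¹) * (n * b * n⁻¹) ^ i := by rw [conj_pow]; group
    rw [h1, hnE x' hx', hnb]
    exact P.mul_mem (h.hEP hx') (P.pow_mem (P.mul_mem hb (h.hEP (E.mul_mem (E.inv_mem e.2) (E.inv_mem e.2)))) i)
  obtain ⟨m, ⟨j, rfl⟩, k, hk⟩ := exists_p_part (p := p) n 1
  have hu : n ^ (1 + p ^ 1 * j) ∈ P :=
    h.hP.mem_of_normalizes trivial ⟨k, hk⟩ (pow_mem (mem_normalizer_fin hnP) _)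
  have hnC : n ∈ centralizer (E : Set G) := by
    rw [mem_centralizer_iff]
    intro y hy
    have h1 := hnE y hy
    have h2 : n * y * n⁻¹ * n = y * n := by rw [h1]
    rw [inv_mul_cancel_right] at h2
    exact h2.symm
  have huE : n ^ (1 + p ^ 1 * j) ∈ E := by
    refine hQ _ hu (fun x hx => ?_)
    have h1 := pow_mem hnC (1 + p ^ 1 * j)
    rw [mem_centralizer_iff] at h1
    exact (h1 x hx).symm
  have h1 := hnpow (1 + p ^ 1 * j)
  have h1' : ((e : G)⁻¹ * (e : G)⁻¹) ^ (1 + p ^ 1 * j) = (e : G)⁻¹ * (e : G)⁻¹ := by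
    rw [pow_add, pow_one, pow_one, pow_mul, h.hEp _ (E.mul_mem (E.inv_mem e.2) (E.inv_mem e.2)), one_pow, mul_one]
  rw [h1'] at h1
  set u : G := n ^ (1 + p ^ 1 * j) with hudef
  have h2 : b⁻¹ * u * b = (e : G)⁻¹ * (e : G)⁻¹ * u := by
    have h3 : b⁻¹ * (u * b * u⁻¹) * u = b⁻¹ * u * b := by group
    rw [← h3, h1]
    group
  have h3 := hinvM ⟨b, hb⟩ ⟨u, huE⟩
  have h4 : mv c !![1, -ι ⟨b, hb⟩; 0, 1] ⟨u, huE⟩ = e⁻¹ * e⁻¹ * ⟨u, huE⟩ := Subtype.ext (h3.symm.trans h2)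
  have h5 := congrFun (congrArg (fun x => Multiplicative.toAdd (c x)) h4) 1
  simp only [c_mv, map_mul, map_inv, toAdd_mul, toAdd_inv, hce] at h5
  simp [Matrix.mulVec, dotProduct, Fin.sum_univ_two] at h5
  apply h2ne
  linear_combination (-1 : ZMod p) * h5

end St

end Cfsg.Agent.H486.Hg
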