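import Mathlib
import Cfsg.Agent.H486.HgOddD
import Cfsg.Agent.H486.HgIface
import Cfsg.Agent.H821.SLTwo

/-!
# Homogeneous finite groups: the local information (helper486)

`loc` : every homogeneous finite group with the Schreier property satisfies `Loc`.
-/

set_option autoImplicit false
set_option linter.unusedSectionVars false

namespace Cfsg.Agent.H486.Hg

open Subgroup Cfsg.Agent.H486.Sn Cfsg.Agent.Schreier.Basic Matrix

universe u

variable {G : Type u} [Group G] [Finite G]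

theorem isSyl_top {p : ℕ} [Fact p.Prime] (S : Sylow p G) : IsSyl p (⊤ : Subgroup G) (S : Subgroup G) := by
  refine ⟨le_top, S.isPGroup', fun Q _ hQp => ?_⟩
  obtain ⟨S', hS'⟩ := hQp.exists_le_sylow
  refine (Subgroup.card_le_of_le hS').trans ?_
  rw [Sylow.card_eq_multiplicity, Sylow.card_eq_multiplicity]

/-- the alternative for Sylow subgroups -/
def Alt (p : ℕ) (P : Subgroup G) : Prop :=
  IsCyclic P ∨
    (p = 3 ∧ (∀ x ∈ P, ∀ y ∈ P, x * y = y * x) ∧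
      ∀ g ∈ normalizer (P : Set G),
        (∀ x ∈ P, g * x * g⁻¹ = x) ∨ (∀ x ∈ P, g * x * g⁻¹ = x⁻¹) ∨
          (∀ x ∈ P, g ^ 2 * x * (g ^ 2)⁻¹ = x⁻¹))

theorem alt {p : ℕ} [hp : Fact p.Prime] (hS : Sch G) (hH : Homog G) (hp2 : p ≠ 2) {P : Subgroup G}
    (hP : IsSyl p (⊤ : Subgroup G) P) : Alt p P := by
  by_cases hc : IsCyclic P
  · exact Or.inl hc
  obtain ⟨E, hE⟩ := exists_St hS hH hp2 hP hc
  have h1 := hE.centralises_E hp2 hH
  have h2 := hE.lt_five hS hH h1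
  have h3 : p = 3 := by
    have h4 := hp.out.two_le
    have h5 : p ≠ 4 := by rintro rfl; exact absurd hp.out (by norm_num)
    omega
  subst h3
  exact Or.inr ⟨rfl, hE.three hH h1⟩

/-! ### no elementary abelian subgroup of order 16 -/

section four

/-- `diag(ω, 1)` -/
def C1 : Matrix (Fin 4) (Fin 4) (ZMod 2) := !![0, 1, 0, 0; 1, 1, 0, 0; 0, 0, 1, 0; 0, 0, 0, 1]
/-- `diag(1, ω)` -/
def C2 : Matrix (Fin 4) (Fin 4) (ZMod 2) := !![1, 0, 0, 0; 0, 1, 0, 0; 0, 0, 0, 1; 0, 0, 1, 1]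
/-- `diag(s, 1)` -/
def T1 : Matrix (Fin 4) (Fin 4) (ZMod 2) := !![0, 1, 0, 0; 1, 0, 0, 0; 0, 0, 1, 0; 0, 0, 0, 1]

theorem C1C2 : C1 * C2 = C2 * C1 := by decide +kernel
theorem C1_cube : C1 * (C1 * C1) = 1 := by decide +kernel
theorem C2_cube : C2 * (C2 * C2) = 1 := by decide +kernel
theorem T1_sq : T1 * T1 = 1 := by decide +kernel
theorem T1C1 : T1 * C1 = C1 * C1 * T1 := by decide +kernel
theorem T1C2 : T1 * C2 = C2 * T1 := by decide +kernel
theorem C1_ne : C1 ≠ C1 * C1 := by decide +kernel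
theorem C2_ne : C2 ≠ C2 * C2 := by decide +kernel
theorem C2_ne1 : C2 ≠ 1 := by decide +kernel

theorem det_eq_one {M M' : Matrix (Fin 4) (Fin 4) (ZMod 2)} (h : M * M' = 1) : M.det = 1 := by
  have h1 := congrArg Matrix.det h
  rw [Matrix.det_mul, Matrix.det_one] at h1
  have h2 : ∀ a b : ZMod 2, a * b = 1 → a = 1 := by decide
  exact h2 _ _ h1

/-- an abelian Sylow subgroup normalised "up to" the centraliser of `T` -/
theorem exists_norm {p : ℕ} [hp : Fact p.Prime] {T P : Subgroup G} (hP : IsSyl p (⊤ : Subgroup G) P) (hTP : T ≤ P)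
    (hPc : ∀ x ∈ P, ∀ y ∈ P, x * y = y * x) {g : G} (hg : ∀ x ∈ T, g * x * g⁻¹ ∈ T) :
    ∃ h ∈ normalizer (P : Set G), ∀ x ∈ T, h * x * h⁻¹ = g * x * g⁻¹ := by
  set D : Subgroup G := centralizer (T : Set G) with hD
  have hDmem : ∀ x, x ∈ D ↔ ∀ e ∈ T, x * e = e * x := by
    intro x
    rw [hD, mem_centralizer_iff]
    exact ⟨fun h1 y hy => (h1 y hy).symm, fun h1 y hy => (h1 y hy).symm⟩
  have hPD : P ≤ D := fun x hx => (hDmem x).2 fun e he => hPc x hx e (hTP he)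
  have hgT := mem_normalizer_fin hg
  have h1 : cj g P ≤ D := by
    intro x hx
    rw [mem_cj] at hx
    rw [hDmem]
    intro e he
    have h2 : g⁻¹ * e * g ∈ T := by
      have := mem_normalizer' (inv_mem hgT) he
      rwa [inv_inv] at this
    have h3 := hPc _ hx _ (hTP h2)
    have h4 : x * e = g * ((g⁻¹ * x * g) * (g⁻¹ * e * g)) * g⁻¹ := by group
    rw [h4, h3]
    group
  obtain ⟨d, hd, hle⟩ := (hP.restrict hPD le_top).exists_conj_le h1 (isPGroup_cj hP.isPGroup g)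
  refine ⟨d⁻¹ * g, mem_normalizer_fin fun x hx => ?_, fun x hx => ?_⟩
  · have h2 : g * x * g⁻¹ ∈ cj g P := by
      rw [mem_cj]
      have h2 : g⁻¹ * (g * x * g⁻¹) * g = x := by group
      rwa [h2]
    have h3 := hle h2
    rw [mem_cj] at h3
    have h4 : d⁻¹ * (g * x * g⁻¹) * d = d⁻¹ * g * x * (d⁻¹ * g)⁻¹ := by group
    rwa [h4] at h3
  · have h2 := (hDmem _).1 (inv_mem hd) _ (hg x hx)
    have h3 : d⁻¹ * g * x * (d⁻¹ * g)⁻¹ = d⁻¹ * (g * x * g⁻¹) * d := by group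
    rw [h3, h2]
    group

theorem actM_pow' {E : Subgroup G} {p k : ℕ} [Fact p.Prime] {c : E ≃* Multiplicative (Fin k → ZMod p)} {g : G}
    {M : Matrix (Fin k) (Fin k) (ZMod p)} (h : ActM c g M) (n : ℕ) : ActM c (g ^ n) (M ^ n) := by
  induction n with
  | zero => rw [pow_zero, pow_zero]; exact ActM.one
  | succ n ih => rw [pow_succ, pow_succ]; exact ih.mul h

theorem CC_comm (i j : ℕ) : C1 ^ i * C2 ^ j = C2 ^ j * C1 ^ i :=
  ((show Commute C1 C2 from C1C2).pow_pow i j)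

theorem CC_mul (i j k l : ℕ) : C1 ^ i * C2 ^ j * (C1 ^ k * C2 ^ l) = C1 ^ (i + k) * C2 ^ (j + l) := by
  rw [pow_add, pow_add, mul_assoc, ← mul_assoc (C2 ^ j), ← CC_comm k j]
  simp only [mul_assoc]

theorem C1_pow3 : C1 ^ 3 = 1 := by rw [pow_succ', pow_two, C1_cube]
theorem C2_pow3 : C2 ^ 3 = 1 := by rw [pow_succ', pow_two, C2_cube]

theorem CC_inv (i j : ℕ) : C1 ^ i * C2 ^ j * (C1 ^ (2 * i) * C2 ^ (2 * j)) = 1 := by
  rw [CC_mul]
  have h1 : i + 2 * i = 3 * i := by ring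
  have h2 : j + 2 * j = 3 * j := by ring
  rw [h1, h2, pow_mul, pow_mul, C1_pow3, C2_pow3, one_pow, one_pow, mul_one]

theorem CC_inv' (i j : ℕ) : C1 ^ (2 * i) * C2 ^ (2 * j) * (C1 ^ i * C2 ^ j) = 1 := by
  rw [CC_mul]
  have h1 : 2 * i + i = 3 * i := by ring
  have h2 : 2 * j + j = 3 * j := by ring
  rw [h1, h2, pow_mul, pow_mul, C1_pow3, C2_pow3, one_pow, one_pow, mul_one]

/-- the elements acting as an element of `⟨C1, C2⟩` -/
def YC {E : Subgroup G} (c : E ≃* Multiplicative (Fin 4 → ZMod 2)) : Subgroup G where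
  carrier := {g | ∃ i j : ℕ, ActM c g (C1 ^ i * C2 ^ j)}
  mul_mem' := by
    rintro g g' ⟨i, j, h⟩ ⟨i', j', h'⟩
    refine ⟨i + i', j + j', ?_⟩
    rw [← CC_mul]
    exact h.mul h'
  one_mem' := ⟨0, 0, by rw [pow_zero, pow_zero, mul_one]; exact ActM.one⟩
  inv_mem' := by
    rintro g ⟨i, j, h⟩
    exact ⟨2 * i, 2 * j, h.inv (CC_inv i j)⟩

/-- **There is no elementary abelian subgroup of order 16.** -/
theorem no_sixteen (hS : Sch G) (hH : Homog G) {E : Subgroup G} (hE : ∀ x ∈ E, ∀ y ∈ E, x * y = y * x)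
    (hE2 : ∀ x ∈ E, x ^ 2 = 1) (hEc : Nat.card E = 2 ^ 4) : False := by
  have : Fact (Nat.Prime 2) := ⟨Nat.prime_two⟩
  have : Fact (Nat.Prime 3) := ⟨Nat.prime_three⟩
  obtain ⟨c⟩ := exists_equiv (A := E) (p := 2) (k := 4) (fun x y => Subtype.ext (hE x x.2 y y.2))
    (fun x => Subtype.ext (by simpa using hE2 x x.2)) hEc
  have hsl : ∀ M M' : Matrix (Fin 4) (Fin 4) (ZMod 2), M * M' = 1 → ∃ g : G, ActM c g M := by
    intro M M' hM
    obtain ⟨g, hg⟩ := exists_inner_sl hS hH c (Or.inl (by norm_num)) ⟨M, det_eq_one hM⟩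
    exact ⟨g, fun x => hg x⟩
  obtain ⟨T, hT⟩ := exists_isSyl 3 (YC c)
  have hYE : ∀ y ∈ YC c, ∀ x ∈ E, y * x * y⁻¹ ∈ E := by
    rintro y ⟨i, j, h⟩ x hx
    exact h.mem x hx
  have hab : ∀ y ∈ YC c, ∀ y' ∈ YC c, ∀ x ∈ E, y * (y' * x * y'⁻¹) * y⁻¹ = y' * (y * x * y⁻¹) * y'⁻¹ := by
    rintro y ⟨i, j, h⟩ y' ⟨i', j', h'⟩ x hx
    have h1 := (h.mul h') ⟨x, hx⟩
    have h2 := (h'.mul h) ⟨x, hx⟩
    rw [CC_mul] at h1 h2
    rw [add_comm i' i, add_comm j' j, ← h1] at h2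
    have h3 : y * (y' * x * y'⁻¹) * y⁻¹ = y * y' * x * (y * y')⁻¹ := by group
    have h4 : y' * (y * x * y⁻¹) * y'⁻¹ = y' * y * x * (y' * y)⁻¹ := by group
    rw [h3, h4]
    exact h2.symm
  have hτ : ∀ M : Matrix (Fin 4) (Fin 4) (ZMod 2), (∃ i j : ℕ, M = C1 ^ i * C2 ^ j) → ∃ τ ∈ T, ActM c τ M := by
    rintro _ ⟨i, j, rfl⟩
    obtain ⟨g, hg⟩ := hsl _ _ (CC_inv i j)
    obtain ⟨τ, hτ, hτ2⟩ := exists_act_eq (n := 1) hT hYE hab (g := g) ⟨i, j, hg⟩ (by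
      intro x hx
      have h1 := actM_pow' hg (3 ^ 1)
      have h2 : (C1 ^ i * C2 ^ j) ^ 3 ^ 1 = 1 := by
        rw [pow_one, pow_succ, pow_two, CC_mul, CC_mul]
        have h1 : i + i + i = 3 * i := by ring
        have h2 : j + j + j = 3 * j := by ring
        rw [h1, h2, pow_mul, pow_mul, C1_pow3, C2_pow3, one_pow, one_pow, mul_one]
      rw [h2] at h1
      exact h1.centralises x hx)
    exact ⟨τ, hτ, fun x => (hτ2 x x.2).trans (hg x)⟩
  obtain ⟨τ₁, hτ₁, hA₁⟩ := hτ C1 ⟨1, 0, by rw [pow_one, pow_zero, mul_one]⟩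
  obtain ⟨τ₂, hτ₂, hA₂⟩ := hτ C2 ⟨0, 1, by rw [pow_one, pow_zero, one_mul]⟩
  -- the element inducing `T1`
  obtain ⟨g₁, hg₁⟩ := hsl T1 T1 T1_sq
  have hg₁i : ActM c g₁⁻¹ T1 := hg₁.inv T1_sq
  have hcomm1 : ∀ i j : ℕ, T1 * (C1 ^ i * C2 ^ j) * T1 = C1 ^ (2 * i) * C2 ^ j := by
    have h1 : ∀ i : ℕ, T1 * C1 ^ i = C1 ^ (2 * i) * T1 := by
      intro i
      induction i with
      | zero => simp
      | succ i ih =>
        rw [pow_succ, ← mul_assoc, ih, mul_assoc, T1C1, ← mul_assoc, ← mul_assoc]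
        have : 2 * (i + 1) = 2 * i + 1 + 1 := by ring
        rw [this, pow_succ, pow_succ]
    have h2 : ∀ j : ℕ, T1 * C2 ^ j = C2 ^ j * T1 := fun j => (show Commute T1 C2 from T1C2).pow_right j
    intro i j
    rw [← mul_assoc, h1, mul_assoc, mul_assoc, ← mul_assoc T1, h2, mul_assoc, T1_sq, mul_one]
  have hY : cj g₁ T ≤ YC c := by
    intro x hx
    rw [mem_cj] at hx
    obtain ⟨i, j, h⟩ := hT.le hx
    have h1 := (hg₁.mul h).mul hg₁i
    rw [hcomm1] at h1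
    have h2 : g₁ * (g₁⁻¹ * x * g₁) * g₁⁻¹ = x := by group
    rw [h2] at h1
    exact ⟨_, _, h1⟩
  obtain ⟨y, ⟨i, j, hy⟩, hyT⟩ := hT.exists_conj_le hY (isPGroup_cj hT.isPGroup g₁)
  set g : G := y⁻¹ * g₁ with hg
  have hgT : ∀ x ∈ T, g * x * g⁻¹ ∈ T := by
    intro x hx
    have h1 : g₁ * x * g₁⁻¹ ∈ cj g₁ T := by
      rw [mem_cj]
      have h2 : g₁⁻¹ * (g₁ * x * g₁⁻¹) * g₁ = x := by group
      rwa [h2]
    have h2 := hyT h1
    rw [mem_cj] at h2
    have h3 : y⁻¹ * (g₁ * x * g₁⁻¹) * y = g * x * g⁻¹ := by rw [hg]; group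
    rwa [h3] at h2
  have hgA : ActM c g (C1 ^ (2 * i) * C2 ^ (2 * j) * T1) := (hy.inv (CC_inv i j)).mul hg₁
  have hgA' : ActM c g⁻¹ (T1 * (C1 ^ i * C2 ^ j)) := by
    refine hgA.inv ?_
    rw [mul_assoc, ← mul_assoc T1, T1_sq, one_mul, CC_inv']
  -- the action of `g`
  have hact1 : ActM c (g * τ₁ * g⁻¹) (C1 * C1) := by
    have h1 := (hgA.mul hA₁).mul hgA'
    have h2 : C1 ^ (2 * i) * C2 ^ (2 * j) * T1 * C1 * (T1 * (C1 ^ i * C2 ^ j)) = C1 * C1 := by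
      have h3 : C1 ^ (2 * i) * C2 ^ (2 * j) * T1 * C1 * (T1 * (C1 ^ i * C2 ^ j)) =
          C1 ^ (2 * i) * C2 ^ (2 * j) * (T1 * (C1 ^ 1 * C2 ^ 0) * T1) * (C1 ^ i * C2 ^ j) := by
        rw [pow_one, pow_zero, mul_one]; simp only [mul_assoc]
      rw [h3, hcomm1, CC_mul, CC_mul]
      have h4 : 2 * i + 2 * 1 + i = 3 * i + 2 := by ring
      have h5 : 2 * j + 0 + j = 3 * j := by ring
      rw [h4, h5, pow_add, pow_mul, pow_mul, C1_pow3, C2_pow3, one_pow, one_pow, mul_one, one_mul, pow_two]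
    rwa [h2] at h1
  have hact2 : ∀ τ, ActM c τ C2 → ActM c (g * τ * g⁻¹) C2 := by
    intro τ hτ
    have h1 := (hgA.mul hτ).mul hgA'
    have h2 : C1 ^ (2 * i) * C2 ^ (2 * j) * T1 * C2 * (T1 * (C1 ^ i * C2 ^ j)) = C2 := by
      have h3 : C1 ^ (2 * i) * C2 ^ (2 * j) * T1 * C2 * (T1 * (C1 ^ i * C2 ^ j)) =
          C1 ^ (2 * i) * C2 ^ (2 * j) * (T1 * (C1 ^ 0 * C2 ^ 1) * T1) * (C1 ^ i * C2 ^ j) := by
        rw [pow_one, pow_zero, one_mul]; simp only [mul_assoc]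
      rw [h3, hcomm1, CC_mul, CC_mul]
      have h4 : 2 * i + 2 * 0 + i = 3 * i := by ring
      have h5 : 2 * j + 1 + j = 3 * j + 1 := by ring
      rw [h4, h5, pow_add, pow_mul, pow_mul, C1_pow3, C2_pow3, one_pow, one_pow, one_mul, one_mul, pow_one]
    rwa [h2] at h1
  -- the Sylow subgroup
  obtain ⟨P, hP, hTP⟩ := exists_isSyl_ge (p := 3) (Y := (⊤ : Subgroup G)) le_top hT.isPGroup
  have hC2i : C2 * (C2 * C2) = 1 := C2_cube
  rcases alt hS hH (by norm_num) hP with hcyc | ⟨-, hPc, hPn⟩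
  · -- cyclic
    have hPc : ∀ x ∈ P, ∀ y ∈ P, x * y = y * x := by
      intro x hx y hy
      have : Std.Commutative (fun a b : P => a * b) := ⟨fun a b => (IsCyclic.commGroup (α := P)).mul_comm a b⟩
      exact congrArg Subtype.val ((IsCyclic.commGroup (α := P)).mul_comm ⟨x, hx⟩ ⟨y, hy⟩)
    obtain ⟨h, hh, hhT⟩ := exists_norm hP hTP hPc hgT
    obtain ⟨x₀, hx₀⟩ := hcyc.exists_generator
    have h1 : h * x₀ * h⁻¹ ∈ P := mem_normalizer' hh x₀.2
    obtain ⟨m, hm⟩ := (mem_powers_iff_mem_zpowers (x := x₀)).2 (hx₀ ⟨_, h1⟩)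
    have hm' : (x₀ : G) ^ m = h * x₀ * h⁻¹ := congrArg Subtype.val hm
    have h2 : ∀ x ∈ P, h * x * h⁻¹ = x ^ m := by
      intro x hx
      obtain ⟨l, hl⟩ := hx₀ ⟨x, hx⟩
      have hl' : (x₀ : G) ^ l = x := congrArg Subtype.val hl
      rw [← hl', ← conj_zpow, ← hm', ← zpow_natCast, ← zpow_natCast, ← _root_.zpow_mul, ← _root_.zpow_mul, mul_comm]
    have h3 := actM_pow' hA₁ m
    rw [← h2 _ (hTP hτ₁), hhT _ hτ₁] at h3
    have h4 := actM_pow' hA₂ m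
    rw [← h2 _ (hTP hτ₂), hhT _ hτ₂] at h4
    have h5 := h3.unique hact1
    have h6 := h4.unique (hact2 _ hA₂)
    have h7 : C1 ^ m = C1 ^ (m % 3) := by
      conv_lhs => rw [← Nat.div_add_mod m 3]
      rw [pow_add, pow_mul, C1_pow3, one_pow, one_mul]
    have h8 : C2 ^ m = C2 ^ (m % 3) := by
      conv_lhs => rw [← Nat.div_add_mod m 3]
      rw [pow_add, pow_mul, C2_pow3, one_pow, one_mul]
    rw [h7] at h5
    rw [h8] at h6
    have h9 : m % 3 < 3 := Nat.mod_lt _ (by norm_num)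
    interval_cases m % 3
    · rw [pow_zero] at h6; exact C2_ne1 h6.symm
    · rw [pow_one] at h5; exact C1_ne h5
    · rw [pow_two] at h6; exact C2_ne h6.symm
  · obtain ⟨h, hh, hhT⟩ := exists_norm hP hTP hPc hgT
    have hinv2 : ActM c τ₂⁻¹ (C2 * C2) := hA₂.inv C2_cube
    rcases hPn h hh with h1 | h1 | h1
    · have h2 := h1 _ (hTP hτ₁)
      rw [hhT _ hτ₁] at h2
      rw [h2] at hact1
      exact C1_ne (hA₁.unique hact1)
    · have h2 := h1 _ (hTP hτ₂)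
      rw [hhT _ hτ₂] at h2
      have h3 := hact2 _ hA₂
      rw [h2] at h3
      exact C2_ne (h3.unique hinv2)
    · have h2 := h1 _ (hTP hτ₂)
      have h3 : h ^ 2 * τ₂ * (h ^ 2)⁻¹ = h * (h * τ₂ * h⁻¹) * h⁻¹ := by rw [pow_two]; group
      rw [h3, hhT _ hτ₂, hhT _ (hgT _ hτ₂)] at h2
      have h4 := hact2 _ (hact2 _ hA₂)
      rw [h2] at h4
      exact C2_ne (h4.unique hinv2)

end four

/-! ### elementary abelian subgroups of order 8 -/

theorem dvd_of_eight (hS : Sch G) (hH : Homog G) {E : Subgroup G} (hE : ∀ x ∈ E, ∀ y ∈ E, x * y = y * x)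
    (hE2 : ∀ x ∈ E, x ^ 2 = 1) (hEc : Nat.card E = 8) : 1344 ∣ Nat.card G := by
  have : Fact (Nat.Prime 2) := ⟨Nat.prime_two⟩
  obtain ⟨c⟩ := exists_equiv (A := E) (p := 2) (k := 3) (fun x y => Subtype.ext (hE x x.2 y y.2))
    (fun x => Subtype.ext (by simpa using hE2 x x.2)) (by rw [hEc]; norm_num)
  let N : Subgroup G :=
    { carrier := {g | ∃ M : SpecialLinearGroup (Fin 3) (ZMod 2), ActM c g M.1}
      mul_mem' := by
        rintro g g' ⟨M, h⟩ ⟨M', h'⟩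
        exact ⟨M * M', h.mul h'⟩
      one_mem' := ⟨1, ActM.one⟩
      inv_mem' := by
        rintro g ⟨M, h⟩
        exact ⟨M⁻¹, h.inv (congrArg Subtype.val (mul_inv_cancel M))⟩ }
  let ρ : N →* SpecialLinearGroup (Fin 3) (ZMod 2) :=
    { toFun := fun g => g.2.choose
      map_one' := Subtype.ext ((1 : N).2.choose_spec.unique ActM.one)
      map_mul' := fun g g' => Subtype.ext
        ((g * g').2.choose_spec.unique (g.2.choose_spec.mul g'.2.choose_spec)) }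
  have hρ : ∀ (g : N) (M : SpecialLinearGroup (Fin 3) (ZMod 2)), ActM c (g : G) M.1 → ρ g = M := fun g M h =>
    Subtype.ext (g.2.choose_spec.unique h)
  have hsurj : Function.Surjective ρ := by
    intro M
    obtain ⟨g, hg⟩ := exists_inner_sl hS hH c (Or.inl (by norm_num)) M
    exact ⟨⟨g, M, fun x => hg x⟩, hρ _ _ (fun x => hg x)⟩
  have hE1 : ∀ x ∈ E, ActM c x (1 : SpecialLinearGroup (Fin 3) (ZMod 2)).1 := by
    intro x hx y
    change _ = (mv c 1 y : G)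
    rw [mv_one, hE x hx y y.2, mul_inv_cancel_right]
  have hEN : E ≤ N := fun x hx => ⟨1, hE1 x hx⟩
  have hker : E.subgroupOf N ≤ ρ.ker := by
    intro x hx
    rw [MonoidHom.mem_ker]
    exact hρ x 1 (hE1 x hx)
  have h8 : 8 ∣ Nat.card ρ.ker := by
    have h1 := Subgroup.card_dvd_of_le hker
    rwa [Nat.card_congr (Subgroup.subgroupOfEquivOfLe hEN).toEquiv, hEc] at h1
  have h1 : Nat.card ρ.ker * 168 = Nat.card N := by
    rw [← Subgroup.card_mul_index ρ.ker, Subgroup.index_ker, MonoidHom.range_eq_top.2 hsurj, Subgroup.card_top,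
      Cfsg.Agent.H821.SLTwo.card_three]
  have h2 : 1344 ∣ Nat.card N := by
    rw [← h1]
    exact Nat.mul_dvd_mul h8 (dvd_refl 168)
  exact h2.trans (Subgroup.card_subgroup_dvd_card N)

/-- **The local information about homogeneous groups.** -/
theorem loc (hS : Sch G) (hH : Homog G) : Loc G where
  odd p _ hp2 P := alt hS hH hp2 (isSyl_top P)
  two E hE hE2 := by
    by_contra hcon
    push Not at hcon
    have : Fact (Nat.Prime 2) := ⟨Nat.prime_two⟩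
    have hEP : IsPGroup 2 E := fun x => ⟨1, Subtype.ext (by simpa using hE2 x x.2)⟩
    obtain ⟨n, hn⟩ := IsPGroup.iff_card.1 hEP
    have hn4 : 4 ≤ n := by
      by_contra h4
      push Not at h4
      have : n ≤ 3 := by omega
      have := Nat.pow_le_pow_right (n := 2) (by norm_num) this
      omega
    obtain ⟨F, hF⟩ := Sylow.exists_subgroup_card_pow_prime (G := E) 2 (n := 4) (by
      rw [hn]; exact Nat.pow_dvd_pow 2 hn4)
    refine no_sixteen hS hH (E := F.map E.subtype) ?_ ?_ ?_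
    · rintro _ ⟨x, -, rfl⟩ _ ⟨y, -, rfl⟩
      exact hE x x.2 y y.2
    · rintro _ ⟨x, -, rfl⟩
      exact hE2 x x.2
    · rw [Subgroup.card_map_of_injective E.subtype_injective, hF]
  two8 E hE hE2 hc := dvd_of_eight hS hH hE hE2 hc

end Cfsg.Agent.H486.Hg
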