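import Mathlib
import Cfsg.Agent.H486.HgTwo
import Cfsg.Agent.Lib.AutSL2
import Cfsg.Agent.S0262

/-!
# Homogeneous finite groups: `SL₂(q)` and `PSL₂(q)` (helper486)
-/

set_option autoImplicit false
set_option linter.unusedSectionVars false

namespace Cfsg.Agent.H486.Hg.SLT

open Subgroup Cfsg.Agent.H486.Hg Cfsg.Agent.Schreier.Basic Cfsg.Agent.Lib.SL2Mat Cfsg.Agent.Lib.AutSL2

universe u

theorem exists_zpowers_equiv {G H : Type*} [Group G] [Group H] {x : G} {y : H} (h : orderOf x = orderOf y) :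
    ∃ e : zpowers x ≃* zpowers y, (e ⟨x, mem_zpowers x⟩ : H) = y := by
  have hx : ∀ z : zpowers x, z ∈ zpowers (⟨x, mem_zpowers x⟩ : zpowers x) := by
    rintro ⟨z, k, rfl⟩
    exact ⟨k, Subtype.ext rfl⟩
  have hy : ∀ z : zpowers y, z ∈ zpowers (⟨y, mem_zpowers y⟩ : zpowers y) := by
    rintro ⟨z, k, rfl⟩
    exact ⟨k, Subtype.ext rfl⟩
  refine ⟨mulEquivOfOrderOfEq hx hy (by rw [Subgroup.orderOf_mk, Subgroup.orderOf_mk, h]), ?_⟩
  rw [mulEquivOfOrderOfEq_apply_gen]

/-- in a homogeneous group elements of the same order are conjugate under the automorphism group -/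
theorem exists_aut_of_orderOf {G : Type*} [Group G] (hH : Homog G) {x y : G} (h : orderOf x = orderOf y) :
    ∃ φ : MulAut G, φ x = y := by
  obtain ⟨e, he⟩ := exists_zpowers_equiv h
  obtain ⟨φ, hφ⟩ := hH _ _ e
  exact ⟨φ, (hφ ⟨x, mem_zpowers x⟩).trans he⟩

section tr

variable {F : Type*} [Field F]

/-- the trace -/
def tr (x : Matrix.SpecialLinearGroup (Fin 2) F) : F := ent x 0 0 + ent x 1 1

theorem tr_eq (x : Matrix.SpecialLinearGroup (Fin 2) F) : tr x = x.1.trace := by
  rw [Matrix.trace_fin_two]; rfl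

theorem tr_conjGL (g : Matrix.GeneralLinearGroup (Fin 2) F) (x : Matrix.SpecialLinearGroup (Fin 2) F) :
    tr (conjGL g x) = tr x := by
  rw [tr_eq, conjGL_val, Matrix.trace_mul_comm, ← Matrix.mul_assoc, inv_val_mul_val, Matrix.one_mul, tr_eq]

theorem tr_fieldAut (σ : F ≃+* F) (x : Matrix.SpecialLinearGroup (Fin 2) F) : tr (fieldAut σ x) = σ (tr x) := by
  simp [tr]

theorem center_cases {c : Matrix.SpecialLinearGroup (Fin 2) F}
    (hc : c ∈ center (Matrix.SpecialLinearGroup (Fin 2) F)) :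
    ent c 0 1 = 0 ∧ ent c 1 0 = 0 ∧ ((ent c 0 0 = 1 ∧ ent c 1 1 = 1) ∨ (ent c 0 0 = -1 ∧ ent c 1 1 = -1)) := by
  rw [Matrix.SpecialLinearGroup.mem_center_iff] at hc
  obtain ⟨r, hr, hrA⟩ := hc
  have h00 : ent c 0 0 = r := by
    have := congrFun (congrFun hrA 0) 0
    simp at this
    exact this.symm
  have h11 : ent c 1 1 = r := by
    have := congrFun (congrFun hrA 1) 1
    simp at this
    exact this.symm
  have h01 : ent c 0 1 = 0 := by
    have := congrFun (congrFun hrA 0) 1
    simp at this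
    exact this.symm
  have h10 : ent c 1 0 = 0 := by
    have := congrFun (congrFun hrA 1) 0
    simp at this
    exact this.symm
  refine ⟨h01, h10, ?_⟩
  rw [h00, h11]
  have hr2 : r * r = 1 := by rw [← pow_two]; simpa using hr
  rcases mul_self_eq_one_iff.1 hr2 with h | h
  · exact Or.inl ⟨h, h⟩
  · exact Or.inr ⟨h, h⟩

theorem tr_one_mul {c x : Matrix.SpecialLinearGroup (Fin 2) F}
    (hc : c ∈ center (Matrix.SpecialLinearGroup (Fin 2) F)) : tr (c * x) = tr x ∨ tr (c * x) = - tr x := by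
  obtain ⟨h01, h10, ⟨h00, h11⟩ | ⟨h00, h11⟩⟩ := center_cases hc
  · left
    simp only [tr, ent_mul, h00, h01, h10, h11]; ring
  · right
    simp only [tr, ent_mul, h00, h01, h10, h11]; ring

theorem tr_sq (x : Matrix.SpecialLinearGroup (Fin 2) F) : tr (x ^ 2) = tr x ^ 2 - 2 := by
  rw [pow_two]
  simp only [tr, ent_mul]
  linear_combination (-2 : F) * det_eq x

/-- Cayley–Hamilton -/
theorem ch00 (x : Matrix.SpecialLinearGroup (Fin 2) F) (i j : Fin 2) :
    ent (x ^ 2) i j = tr x * ent x i j - ent 1 i j := by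
  rw [pow_two]
  have h := det_eq x
  fin_cases i <;> fin_cases j
  · simp [tr, ent_mul]; linear_combination -h
  · simp [tr, ent_mul]; ring
  · simp [tr, ent_mul]; ring
  · simp [tr, ent_mul]; linear_combination -h

variable {G : Type*} [Group G] (π : Matrix.SpecialLinearGroup (Fin 2) F →* G)

theorem tr_of_eq (hk : π.ker ≤ center (Matrix.SpecialLinearGroup (Fin 2) F))
    {x y : Matrix.SpecialLinearGroup (Fin 2) F} (h : π x = π y) : tr x = tr y ∨ tr x = - tr y := by
  have h1 : x * y⁻¹ ∈ π.ker := by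
    rw [MonoidHom.mem_ker, map_mul, map_inv, h, mul_inv_cancel]
  have h2 := tr_one_mul (x := y) (hk h1)
  rwa [inv_mul_cancel_right] at h2

/-- the trace under automorphisms -/
theorem tr_aut [Finite F] (hπ : Function.Surjective π) (hk : π.ker ≤ center (Matrix.SpecialLinearGroup (Fin 2) F))
    (hσ : ∀ (σ : F ≃+* F) (a : F), σ a = a) (φ : MulAut G) {x y : Matrix.SpecialLinearGroup (Fin 2) F}
    (h : φ (π x) = π y) : tr x = tr y ∨ tr x = - tr y := by
  obtain ⟨g, σ, hg⟩ := exists_gl_ringEquiv π hπ hk φ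
  rw [hg] at h
  have h1 := tr_of_eq π hk h
  rwa [tr_conjGL, tr_fieldAut, hσ] at h1

theorem ch (x : Matrix.SpecialLinearGroup (Fin 2) F) : x.1 * x.1 = tr x • x.1 - 1 := by
  ext i j
  have h := ch00 x i j
  rw [pow_two] at h
  change (x.1 * x.1) i j = tr x * x.1 i j - (1 : Matrix (Fin 2) (Fin 2) F) i j at h
  rw [h, Matrix.sub_apply, Matrix.smul_apply, smul_eq_mul]

theorem coe_pow' (x : Matrix.SpecialLinearGroup (Fin 2) F) (n : ℕ) : (x ^ n).1 = x.1 ^ n :=
  Matrix.SpecialLinearGroup.coe_pow x n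

/-- **Elements of odd order prime to `p` have order 1 or 3.** -/
theorem cube_eq_one [Finite F] {p : ℕ} [hp : Fact p.Prime] [CharP F p] (hp2 : p ≠ 2) [Finite G] (hH : Homog G)
    (hπ : Function.Surjective π) (hk : π.ker ≤ center (Matrix.SpecialLinearGroup (Fin 2) F))
    (hσ : ∀ (σ : F ≃+* F) (a : F), σ a = a) {x : Matrix.SpecialLinearGroup (Fin 2) F} {n : ℕ} (hn : Odd n)
    (hnp : Nat.Coprime p n) (hx : x ^ n = 1) : x ^ 3 = 1 := by
  have hodd : Nat.Coprime (orderOf (π x)) 2 := by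
    have h1 : orderOf (π x) ∣ n := orderOf_dvd_of_pow_eq_one (by rw [← map_pow, hx, map_one])
    exact (Nat.coprime_two_right.2 (Odd.of_dvd_nat hn h1))
  have h1 : orderOf (π x) = orderOf (π x ^ 2) := (Nat.Coprime.orderOf_pow hodd).symm
  obtain ⟨φ, hφ⟩ := exists_aut_of_orderOf hH h1
  rw [← map_pow] at hφ
  have h2 := tr_aut π hπ hk hσ φ hφ
  rw [tr_sq] at h2
  have hCH := ch x
  set X := x.1 with hX
  set t := tr x with ht
  have hch : CharP (Matrix (Fin 2) (Fin 2) F) p := inferInstance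
  have hgcd : ∀ m : ℕ, X ^ m = 1 → x ^ Nat.gcd m n = 1 := by
    intro m hm
    rw [pow_gcd_eq_one]
    refine ⟨Subtype.ext ?_, hx⟩
    rw [coe_pow']; exact hm
  have hpodd : Odd p := hp.out.odd_of_ne_two hp2
  have hcases : t = 2 ∨ t = -1 ∨ t = -2 ∨ t = 1 := by
    rcases h2 with h2 | h2
    · have h3 : (t - 2) * (t + 1) = 0 := by linear_combination -h2
      rcases mul_eq_zero.1 h3 with h3 | h3
      · exact Or.inl (by linear_combination h3)
      · exact Or.inr (Or.inl (by linear_combination h3))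
    · have h3 : (t + 2) * (t - 1) = 0 := by linear_combination h2
      rcases mul_eq_zero.1 h3 with h3 | h3
      · exact Or.inr (Or.inr (Or.inl (by linear_combination h3)))
      · exact Or.inr (Or.inr (Or.inr (by linear_combination h3)))
  rcases hcases with h3 | h3 | h3 | h3
  · rw [h3] at hCH
    have hN : (X - 1) ^ 2 = 0 := by
      rw [pow_two, sub_mul, mul_sub, hCH, one_mul, mul_one, two_smul]; abel
    have h4 : X ^ p = 1 := by
      have h5 : X = 1 + (X - 1) := by abel
      rw [h5, add_pow_char_of_commute p (Commute.one_left _), one_pow]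
      have h6 : (X - 1) ^ p = 0 := by
        obtain ⟨k, hk⟩ := Nat.exists_eq_add_of_le hp.out.two_le
        rw [hk, pow_add, hN, zero_mul]
      rw [h6, add_zero]
    have h5 := hgcd p h4
    rw [hnp, pow_one] at h5
    rw [h5, one_pow]
  · rw [h3] at hCH
    have h4 : X ^ 3 = 1 := by
      rw [pow_succ, pow_two, hCH, sub_mul, one_mul, neg_smul, one_smul, neg_mul, hCH, neg_smul, one_smul]; abel
    apply Subtype.ext
    rw [coe_pow']; exact h4
  · rw [h3] at hCH
    have hN : (X + 1) ^ 2 = 0 := by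
      rw [pow_two, add_mul, mul_add, hCH, one_mul, mul_one, neg_smul, two_smul]; abel
    have h4 : X ^ p = -1 := by
      have h5 : X = -1 + (X + 1) := by abel
      rw [h5, add_pow_char_of_commute p ((Commute.one_left _).neg_left), hpodd.neg_one_pow]
      have h6 : (X + 1) ^ p = 0 := by
        obtain ⟨k, hk⟩ := Nat.exists_eq_add_of_le hp.out.two_le
        rw [hk, pow_add, hN, zero_mul]
      rw [h6, add_zero]
    have h4' : X ^ (p * 2) = 1 := by rw [pow_mul, h4]; simp
    have h5 := hgcd _ h4'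
    have h6 : Nat.gcd (p * 2) n = 1 := Nat.Coprime.mul_left hnp (Nat.coprime_two_left.2 hn)
    rw [h6, pow_one] at h5
    rw [h5, one_pow]
  · rw [h3] at hCH
    have h4 : X ^ 3 = -1 := by
      rw [pow_succ, pow_two, hCH, sub_mul, one_mul, one_smul, hCH, one_smul]; abel
    have h4' : X ^ (3 * 2) = 1 := by rw [pow_mul, h4]; simp
    have h5 := hgcd _ h4'
    have h6 : Nat.gcd (3 * 2) n ∣ 3 := by
      have h7 : Nat.Coprime (Nat.gcd (3 * 2) n) 2 :=
        Nat.coprime_two_right.2 (Odd.of_dvd_nat hn (Nat.gcd_dvd_right _ _))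
      exact h7.dvd_of_dvd_mul_right (Nat.gcd_dvd_left _ _)
    obtain ⟨k, hk⟩ := h6
    rw [hk, pow_mul, h5, one_pow]

end tr

/-- automorphisms of a prime field are trivial -/
theorem rigid {F : Type*} [Field F] [Fintype F] {p : ℕ} [hp : Fact p.Prime] (hF : Fintype.card F = p) :
    ∀ (σ : F ≃+* F) (a : F), σ a = a := by
  have hch : CharP F p := by
    have := charP_of_card_eq_prime (R := F) (p := p) (by rw [hF])
    exact this
  intro σ a
  let c : ZMod p →+* F := ZMod.castHom (dvd_refl p) F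
  have hc : Function.Bijective c := by
    rw [Fintype.bijective_iff_injective_and_card]
    exact ⟨c.injective, by rw [ZMod.card, hF]⟩
  obtain ⟨z, rfl⟩ := hc.2 a
  have h1 : (σ.toRingHom.comp c) = c := Subsingleton.elim _ _
  exact DFunLike.congr_fun h1 z

/-- arithmetic -/
theorem five_or_seven {p : ℕ} (hp : p.Prime) (h5 : 5 ≤ p)
    (h : ∀ r : ℕ, r.Prime → r ≠ 2 → r ≠ p → r ∣ p * (p ^ 2 - 1) → r = 3) (h9 : ¬ 9 ∣ p * (p ^ 2 - 1)) :
    p = 5 ∨ p = 7 := by
  have hodd : Odd p := hp.odd_of_ne_two (by omega)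
  obtain ⟨m, hm⟩ := hodd
  have hm2 : 2 ≤ m := by omega
  have hfac : p ^ 2 - 1 = 4 * (m * (m + 1)) := by
    rw [hm]
    have : (2 * m + 1) ^ 2 = 4 * (m * (m + 1)) + 1 := by ring
    omega
  have hnp : ¬ p ∣ p ^ 2 - 1 := by
    intro h1
    have h2 : p ∣ p ^ 2 := dvd_pow_self p two_ne_zero
    have h3 : 1 ≤ p ^ 2 := Nat.one_le_pow _ _ hp.pos
    have h4 := (Nat.dvd_sub_iff_right h3 h2).1 h1
    exact hp.one_lt.ne' (Nat.dvd_one.1 h4)
  have key : ∀ k : ℕ, Odd k → k ∣ m * (m + 1) → k = 1 ∨ k = 3 := by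
    intro k hk hkm
    have hkd : k ∣ p ^ 2 - 1 := by rw [hfac]; exact hkm.mul_left 4
    have hk0 : k ≠ 0 := by rintro rfl; simp at hk
    have h1 : k = 3 ^ k.primeFactorsList.length := by
      refine Nat.eq_prime_pow_of_unique_prime_dvd hk0 fun {d} hd hdk => ?_
      refine h d hd ?_ ?_ ((hdk.trans hkd).mul_left p)
      · rintro rfl
        exact (Nat.not_even_iff_odd.2 hk) (even_iff_two_dvd.2 hdk)
      · rintro rfl
        exact hnp (hdk.trans hkd)
    generalize k.primeFactorsList.length = c at h1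
    have hc : c < 2 := by
      by_contra hc
      push Not at hc
      apply h9
      have h2 : 9 ∣ k := by
        rw [h1]
        exact (by norm_num : (9 : ℕ) = 3 ^ 2) ▸ pow_dvd_pow 3 hc
      exact (h2.trans hkd).mul_left p
    interval_cases c
    · left; simpa using h1
    · right; simpa using h1
  rcases Nat.even_or_odd m with he | ho
  · have h1 := key (m + 1) (he.add_one) (dvd_mul_left _ _)
    omega
  · have h1 := key m ho (dvd_mul_right _ _)
    omega

end Cfsg.Agent.H486.Hg.SLT
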