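import Mathlib
import Cfsg.Agent.H486.HgSL
import Cfsg.Agent.ClassicalGeometry.PSL2Basic

/-!
# Homogeneous finite groups: `SL₂(q)` and `PSL₂(q)`, II (helper486)
-/

set_option autoImplicit false
set_option linter.unusedSectionVars false

namespace Cfsg.Agent.H486.Hg.SLT

open Subgroup Cfsg.Agent.H486.Hg Cfsg.Agent.Schreier.Basic Cfsg.Agent.Lib.SL2Mat Cfsg.Agent.Lib.AutSL2

universe u

section

variable {F : Type*} [Field F] {G : Type*} [Group G] (π : Matrix.SpecialLinearGroup (Fin 2) F →* G)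

theorem up_inj' (h2 : (2 : F) ≠ 0) (hk : π.ker ≤ center (Matrix.SpecialLinearGroup (Fin 2) F)) {b c : F}
    (h : π (up b) = π (up c)) : b = c := by
  have h1 : up b * (up c)⁻¹ ∈ π.ker := by
    rw [MonoidHom.mem_ker, map_mul, map_inv, h, mul_inv_cancel]
  rw [up_inv, up_mul] at h1
  have h3 := (center_cases (hk h1)).1
  rw [up_01] at h3
  linear_combination h3

/-- conjugation of the elements `up b` -/
theorem up_conj (h2 : (2 : F) ≠ 0) (hk : π.ker ≤ center (Matrix.SpecialLinearGroup (Fin 2) F)) {b c : F}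
    {g : Matrix.SpecialLinearGroup (Fin 2) F} (hb : b ≠ 0) (h : π g * π (up b) * (π g)⁻¹ = π (up c)) :
    ∃ a : F, c = a ^ 2 * b := by
  have h1 : (g * up b * g⁻¹) * (up c)⁻¹ ∈ π.ker := by
    rw [MonoidHom.mem_ker, map_mul, map_mul, map_mul, map_inv, map_inv, h, mul_inv_cancel]
  set z := (g * up b * g⁻¹) * (up c)⁻¹ with hz
  have hzc := hk h1
  have h3 : g * up b = z * up c * g := by rw [hz]; group
  have e00 := congrArg (fun y => ent y 0 0) h3
  have e01 := congrArg (fun y => ent y 0 1) h3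
  have e10 := congrArg (fun y => ent y 1 0) h3
  have e11 := congrArg (fun y => ent y 1 1) h3
  obtain ⟨h01, h10, ⟨h00, h11⟩ | ⟨h00, h11⟩⟩ := center_cases hzc
  · simp only [ent_mul, up_00, up_01, up_10, up_11, h01, h10, h00, h11] at e00 e01 e10 e11
    have hg10 : ent g 1 0 = 0 := by
      have : ent g 1 0 * b = 0 := by linear_combination e11
      exact (mul_eq_zero.1 this).resolve_right hb
    have hdet := det_eq g
    rw [hg10] at hdet
    refine ⟨ent g 0 0, ?_⟩
    have h4 : ent g 0 0 * b = c * ent g 1 1 := by linear_combination e01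
    have h5 : ent g 0 0 * ent g 1 1 = 1 := by linear_combination hdet
    linear_combination (-ent g 0 0) * h4 - c * h5
  · exfalso
    simp only [ent_mul, up_00, up_01, up_10, up_11, h01, h10, h00, h11] at e00 e01 e10 e11
    -- trace: `-1` is not possible
    have hg10 : ent g 1 0 = 0 := by
      have : 2 * ent g 1 0 = 0 := by linear_combination e10
      exact (mul_eq_zero.1 this).resolve_left h2
    have hg11 : ent g 1 1 = 0 := by
      have : 2 * ent g 1 1 = 0 := by rw [hg10] at e11; linear_combination e11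
      exact (mul_eq_zero.1 this).resolve_left h2
    have hdet := det_eq g
    rw [hg10, hg11] at hdet
    simp at hdet

end

/-- **`q = p` or `q = 9`** -/
theorem card_cases {F : Type*} [Field F] [Fintype F] {G : Type u} [Group G] [Finite G]
    (π : Matrix.SpecialLinearGroup (Fin 2) F →* G)
    (hk : π.ker ≤ center (Matrix.SpecialLinearGroup (Fin 2) F)) (hS : Sch G) (hH : Homog G)
    (hodd : Odd (Fintype.card F)) : (Fintype.card F).Prime ∨ Fintype.card F = 9 := by
  obtain ⟨p, hpc⟩ := CharP.exists F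
  obtain ⟨n, hpp, hn⟩ := FiniteField.card F p
  have hp : Fact p.Prime := ⟨hpp⟩
  have hp2 : p ≠ 2 := by
    rintro rfl
    rw [hn] at hodd
    exact (Nat.not_even_iff_odd.2 hodd) ((Nat.even_pow.2 ⟨even_two, n.ne_zero⟩))
  have h2 : (2 : F) ≠ 0 := by
    intro h0
    have h1 : ((2 : ℕ) : F) = 0 := by exact_mod_cast h0
    rw [CharP.cast_eq_zero_iff F p] at h1
    exact hp2 ((Nat.prime_dvd_prime_iff_eq hpp Nat.prime_two).1 h1)
  set E : Subgroup G := (upG F).map π with hE
  have hEc : Nat.card E = Fintype.card F := by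
    rw [← Nat.card_eq_fintype_card]
    refine (Nat.card_congr (Equiv.ofBijective (fun b : F => (⟨π (up b), ⟨up b, up_mem b, rfl⟩⟩ : E)) ⟨?_, ?_⟩)).symm
    · intro b c hbc
      exact up_inj' π h2 hk (congrArg Subtype.val hbc)
    · rintro ⟨_, _, ⟨b, rfl⟩, rfl⟩
      exact ⟨b, rfl⟩
  have hEcomm : ∀ x ∈ E, ∀ y ∈ E, x * y = y * x := by
    rintro _ ⟨_, ⟨b, rfl⟩, rfl⟩ _ ⟨_, ⟨c, rfl⟩, rfl⟩
    rw [← map_mul, ← map_mul, up_mul, up_mul, add_comm]
  have hEp : ∀ x ∈ E, x ^ p = 1 := by
    rintro _ ⟨_, ⟨b, rfl⟩, rfl⟩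
    rw [← map_pow, up_pow, CharP.cast_eq_zero, zero_mul, up_zero, map_one]
  have hEP : IsPGroup p E := fun x => ⟨1, Subtype.ext (by simpa using hEp x x.2)⟩
  have hcomm : IsMulCommutative E := ⟨⟨fun a b => Subtype.ext (hEcomm _ a.2 _ b.2)⟩⟩
  have hrank := prankLE_two hS hH hp2 E hcomm hEp
  rw [hEc, hn, Nat.pow_le_pow_iff_right hpp.one_lt] at hrank
  obtain ⟨P, hP, hEP'⟩ := exists_isSyl_ge (p := p) (Y := (⊤ : Subgroup G)) le_top hEP
  have hn0 : (n : ℕ) ≠ 0 := n.ne_zero
  have hn12 : (n : ℕ) = 1 ∨ (n : ℕ) = 2 := by omega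
  rcases hn12 with h1 | h1
  · left
    rw [hn, h1, pow_one]; exact hpp
  · rcases alt hS hH hp2 hP with hc | ⟨rfl, -⟩
    · exfalso
      have hEcyc : IsCyclic E := by
        have := hc
        exact isCyclic_of_injective (Subgroup.inclusion hEP') (Subgroup.inclusion_injective hEP')
      obtain ⟨g, hg⟩ := hEcyc.exists_generator
      have h3 : orderOf g = Nat.card E := orderOf_eq_card_of_forall_mem_zpowers hg
      have h4 : orderOf g ∣ p := orderOf_dvd_of_pow_eq_one (Subtype.ext (by simpa using hEp g g.2))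
      rw [h3, hEc, hn, h1] at h4
      have h5 := Nat.le_of_dvd hpp.pos h4
      have := hpp.one_lt
      nlinarith
    · right
      rw [hn, h1]
      norm_num

/-- **`q ≠ 9`** -/
theorem card_ne_nine {F : Type*} [Field F] [Fintype F] {G : Type u} [Group G] [Finite G]
    (π : Matrix.SpecialLinearGroup (Fin 2) F →* G) (hπ : Function.Surjective π)
    (hk : π.ker ≤ center (Matrix.SpecialLinearGroup (Fin 2) F)) (hH : Homog G) : Fintype.card F ≠ 9 := by
  intro h9
  have hp : Fact (Nat.Prime 3) := ⟨Nat.prime_three⟩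
  have hpc : CharP F 3 := charP_of_card_eq_prime_pow (R := F) (p := 3) (f := 2) (by rw [h9]; norm_num)
  have h30 : (3 : F) = 0 := by exact_mod_cast CharP.cast_eq_zero F 3
  have h2 : (2 : F) ≠ 0 := by
    intro h0
    have h1 : ((2 : ℕ) : F) = 0 := by exact_mod_cast h0
    rw [CharP.cast_eq_zero_iff F 3] at h1
    omega
  have hring : ringChar F ≠ 2 := by
    rw [ringChar.eq F 3]
    norm_num
  -- a square root of `-1`, which is a square
  obtain ⟨i, hi⟩ : IsSquare (-1 : F) := by
    rw [FiniteField.isSquare_neg_one_iff, h9]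
    norm_num
  have hi0 : i ≠ 0 := by
    rintro rfl
    rw [zero_mul] at hi
    exact one_ne_zero (neg_eq_zero.1 hi)
  have hi3 : i ^ 3 = -i := by linear_combination (-i) * hi
  obtain ⟨a, ha⟩ : IsSquare i := by
    rw [FiniteField.isSquare_iff hring hi0, h9]
    norm_num
    linear_combination (-(i ^ 2) + 1) * hi
  have ha0 : a ≠ 0 := by
    rintro rfl
    rw [zero_mul] at ha
    exact hi0 ha
  have hpow9 : ∀ x : F, x ^ 9 = x := by
    intro x
    have := FiniteField.pow_card x
    rwa [h9] at this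
  -- the additive map
  let f : F →+ F :=
    { toFun := fun x => x + i * (x - x ^ 3)
      map_zero' := by ring
      map_add' := fun x y => by
        rw [add_pow_char_of_commute 3 (Commute.all x y)]; ring }
  have hf : ∀ x, f x = x + i * (x - x ^ 3) := fun x => rfl
  have hfinj : Function.Injective f := by
    rw [injective_iff_map_eq_zero]
    intro x hx
    rw [hf] at hx
    have h1 : (x - x ^ 3) ^ 3 = -(x - x ^ 3) := by
      have h4 : (x - x ^ 3) ^ 3 = x ^ 3 - (x ^ 3) ^ 3 := sub_pow_char_of_commute 3 (Commute.all _ _)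
      rw [h4]
      have h5 : (x ^ 3) ^ 3 = x := by rw [← pow_mul]; exact hpow9 x
      rw [h5]; ring
    have h3 : x = -(i * (x - x ^ 3)) := by linear_combination hx
    have h4 : x ^ 3 = -(i ^ 3 * (x - x ^ 3) ^ 3) := by
      conv_lhs => rw [h3]
      ring
    rw [hi3, h1] at h4
    have h5 : x - x ^ 3 = 0 := by linear_combination h3 - h4
    rw [h5, mul_zero, neg_zero] at h3
    exact h3
  have hfbij : Function.Bijective f := Finite.injective_iff_bijective.1 hfinj
  -- the corresponding automorphism of `E`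
  set E : Subgroup G := (upG F).map π with hE
  let ψ : Multiplicative F →* E :=
    { toFun := fun b => ⟨π (up (Multiplicative.toAdd b)), ⟨_, up_mem _, rfl⟩⟩
      map_one' := Subtype.ext (by change π (up 0) = 1; rw [up_zero, map_one])
      map_mul' := fun b c => Subtype.ext (by
        change π (up (Multiplicative.toAdd b + Multiplicative.toAdd c)) = π (up _) * π (up _)
        rw [← map_mul, up_mul]) }
  have hψ : Function.Bijective ψ := by
    constructor
    · intro b c hbc
      exact Multiplicative.toAdd.injective (up_inj' π h2 hk (congrArg Subtype.val hbc))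
    · rintro ⟨_, _, ⟨b, rfl⟩, rfl⟩
      exact ⟨Multiplicative.ofAdd b, rfl⟩
  let Ψ : Multiplicative F ≃* E := MulEquiv.ofBijective ψ hψ
  let fe : Multiplicative F ≃* Multiplicative F := AddEquiv.toMultiplicative (AddEquiv.ofBijective f hfbij)
  obtain ⟨φ, hφ⟩ := hH.exists_aut (E := E) ((Ψ.symm.trans fe).trans Ψ)
  have hφup : ∀ b : F, φ (π (up b)) = π (up (f b)) := by
    intro b
    have h1 := hφ (Ψ (Multiplicative.ofAdd b))
    rw [MulEquiv.trans_apply, MulEquiv.trans_apply, MulEquiv.symm_apply_apply] at h1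
    exact h1
  obtain ⟨g, hg⟩ := hπ (φ (π (dg a ha0)))
  have h1 : π g * π (up 1) * (π g)⁻¹ = π (up (i + 1)) := by
    have h3 : π (up 1) = φ (π (up 1)) := by
      rw [hφup, hf]; congr 2; ring
    have e1 : π (dg a ha0) * π (up 1) * (π (dg a ha0))⁻¹ = π (up (a ^ 2 * 1)) := by
      rw [← map_mul, ← map_inv, ← map_mul, dg_up, mul_inv_cancel_right]
    rw [hg, h3, ← map_inv φ, ← map_mul φ, ← map_mul φ, e1, hφup, hf]
    congr 2
    have h4 : a ^ 2 * 1 = i := by rw [mul_one, pow_two, ha]
    rw [h4, hi3]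
    have h5 : i * (i - -i) = 1 := by linear_combination (-2 : F) * hi - h30
    rw [h5]
  obtain ⟨s, hs⟩ := up_conj π h2 hk one_ne_zero h1
  rw [mul_one] at hs
  -- `s² = i + 1`
  have hs8 : s ^ 9 = s := hpow9 s
  have hs0 : s ≠ 0 := by
    rintro rfl
    have h6 : i = -1 := by linear_combination hs
    rw [h6] at hi
    have h7 : (2 : F) = 0 := by linear_combination -hi
    exact h2 h7
  have h8 : s ^ 8 = 1 := by
    have h9' : s * (s ^ 8 - 1) = 0 := by linear_combination hs8
    have := (mul_eq_zero.1 h9').resolve_left hs0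
    linear_combination this
  have h10 : (i + 1) ^ 4 = 1 := by rw [hs, ← pow_mul]; exact h8
  have h11 : (i + 1) ^ 4 = -4 := by
    linear_combination (-(i ^ 2) - 4 * i - 5) * hi
  rw [h11] at h10
  have h12 : (1 : F) = 0 := by linear_combination (2 : F) * h30 + h10
  exact one_ne_zero h12

/-- **`q ∈ {5, 7}`** -/
theorem card_five_seven {F : Type*} [Field F] [Fintype F] {G : Type u} [Group G] [Finite G]
    (π : Matrix.SpecialLinearGroup (Fin 2) F →* G) (hπ : Function.Surjective π)
    (hk : π.ker ≤ center (Matrix.SpecialLinearGroup (Fin 2) F)) (hS : Sch G) (hH : Homog G)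
    (hodd : Odd (Fintype.card F)) (h3 : 3 < Fintype.card F) : Fintype.card F = 5 ∨ Fintype.card F = 7 := by
  rcases card_cases π hk hS hH hodd with hpr | h9
  · set p := Fintype.card F with hpd
    have hp : Fact p.Prime := ⟨hpr⟩
    have hpc : CharP F p := charP_of_card_eq_prime (R := F) (p := p) hpd.symm
    have hp2 : p ≠ 2 := by omega
    have h4 : p ≠ 4 := by rintro h; rw [h] at hpr; exact absurd hpr (by norm_num)
    have hσ := rigid (F := F) (p := p) hpd.symm
    have hcard : Nat.card (Matrix.SpecialLinearGroup (Fin 2) F) = p * (p ^ 2 - 1) :=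
      Cfsg.Agent.ClassicalGeometry.PSL2Basic.card_SL2 F
    have hcube : ∀ (x : Matrix.SpecialLinearGroup (Fin 2) F) (n : ℕ), Odd n → Nat.Coprime p n → x ^ n = 1 →
        x ^ 3 = 1 := fun x n hn hnp hx => cube_eq_one π hp2 hH hπ hk hσ hn hnp hx
    refine five_or_seven hpr (by omega) ?_ ?_
    · intro r hr hr2 hrp hrd
      rw [← hcard] at hrd
      have : Fact r.Prime := ⟨hr⟩
      obtain ⟨x, hx⟩ := exists_prime_orderOf_dvd_card' (G := Matrix.SpecialLinearGroup (Fin 2) F) r hrd
      have h5 := hcube x r (hr.odd_of_ne_two hr2) ((Nat.coprime_primes hpr hr).2 (Ne.symm hrp))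
        (by rw [← hx, pow_orderOf_eq_one])
      have h6 := orderOf_dvd_of_pow_eq_one h5
      rw [hx] at h6
      exact (Nat.prime_dvd_prime_iff_eq hr Nat.prime_three).1 h6
    · intro h9
      rw [← hcard] at h9
      have : Fact (Nat.Prime 3) := ⟨Nat.prime_three⟩
      obtain ⟨R⟩ : Nonempty (Sylow 3 (Matrix.SpecialLinearGroup (Fin 2) F)) := inferInstance
      have h5 := Cfsg.Agent.S0262.result p 3 (by norm_num) (by omega) R
      obtain ⟨g, hg⟩ := h5.exists_generator
      have h6 : orderOf g = Nat.card (R : Subgroup (Matrix.SpecialLinearGroup (Fin 2) F)) :=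
        orderOf_eq_card_of_forall_mem_zpowers hg
      have h7 : 3 ^ 2 ∣ Nat.card (R : Subgroup (Matrix.SpecialLinearGroup (Fin 2) F)) :=
        R.pow_dvd_card_of_pow_dvd_card (by norm_num; exact h9)
      obtain ⟨k, hk'⟩ := IsPGroup.iff_card.1 R.isPGroup'
      have h8 := hcube g.1 (3 ^ k) (Odd.pow (by decide))
        (Nat.Coprime.pow_right k ((Nat.coprime_primes hpr Nat.prime_three).2 (by omega)))
        (by
          have h9 : g ^ 3 ^ k = 1 := by rw [← hk']; exact pow_card_eq_one'
          exact congrArg Subtype.val h9)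
      have h9 : g ^ 3 = 1 := Subtype.ext h8
      have h10 := orderOf_dvd_of_pow_eq_one h9
      rw [h6] at h10
      have h11 := Nat.le_of_dvd (by norm_num) (h7.trans h10)
      norm_num at h11
  · exact absurd h9 (card_ne_nine π hπ hk hH)

/-- **`SL₂(7)` is not homogeneous** -/
theorem sl_ne_seven {F : Type*} [Field F] [Fintype F] {G : Type u} [Group G] [Finite G]
    (e : Matrix.SpecialLinearGroup (Fin 2) F ≃* G) (hH : Homog G) : Fintype.card F ≠ 7 := by
  intro h7
  have hp : Fact (Nat.Prime 7) := ⟨by norm_num⟩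
  have hpc : CharP F 7 := charP_of_card_eq_prime (R := F) (p := 7) h7
  have h70 : (7 : F) = 0 := by exact_mod_cast CharP.cast_eq_zero F 7
  have hσ := rigid (F := F) (p := 7) h7
  let x : Matrix.SpecialLinearGroup (Fin 2) F := mk 0 (-1) 1 3 (by ring)
  have hx2 : x ^ 2 = mk (-1) (-3) 3 8 (by ring) := by
    rw [pow_two]
    refine ext_ent ?_ ?_ ?_ ?_ <;> rw [ent_mul] <;> simp [x] <;> norm_num
  have hx4 : x ^ 4 = mk (-1) 0 0 (-1) (by ring) := by
    have h1 : x ^ 4 = x ^ 2 * x ^ 2 := by rw [← pow_add]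
    rw [h1, hx2]
    refine ext_ent ?_ ?_ ?_ ?_ <;> rw [ent_mul] <;> simp
    · linear_combination (-1 : F) * h70
    · linear_combination (-3 : F) * h70
    · linear_combination (3 : F) * h70
    · linear_combination (8 : F) * h70
  have hx8 : x ^ 8 = 1 := by
    have h1 : x ^ 8 = x ^ 4 * x ^ 4 := by rw [← pow_add]
    rw [h1, hx4]
    refine ext_ent ?_ ?_ ?_ ?_ <;> rw [ent_mul] <;> simp
  have hord : Nat.Coprime (orderOf (e x)) 3 := by
    have h1 : orderOf (e x) ∣ 8 := orderOf_dvd_of_pow_eq_one (by rw [← map_pow, hx8, map_one])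
    exact Nat.Coprime.coprime_dvd_left h1 (by norm_num)
  have h1 : orderOf (e x) = orderOf (e x ^ 3) := (Nat.Coprime.orderOf_pow hord).symm
  obtain ⟨φ, hφ⟩ := exists_aut_of_orderOf hH h1
  rw [← map_pow] at hφ
  obtain ⟨g, σ, hg⟩ := exists_gl_ringEquiv e.toMonoidHom e.surjective (by
    rw [(MonoidHom.ker_eq_bot_iff _).2 e.injective]; exact bot_le) φ
  have h2 : e (conjGL g (fieldAut σ x)) = e (x ^ 3) := (hg x).symm.trans hφ
  have h3 := congrArg tr (e.injective h2)
  rw [tr_conjGL, tr_fieldAut, hσ] at h3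
  have h4 : x ^ 3 = x ^ 2 * x := by rw [pow_succ]
  rw [h4, hx2] at h3
  simp only [tr, ent_mul] at h3
  simp [x] at h3
  have h5 : (1 : F) = 0 := by linear_combination -h3 - (2 : F) * h70
  exact one_ne_zero h5

end Cfsg.Agent.H486.Hg.SLT
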