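import Cfsg.Agent.H486.KgvArith
import Cfsg.Agent.H960.KGV.Defs
import Cfsg.Agent.H960.KGV.RowTab
import Cfsg.Agent.H163.PG.Ord
import Cfsg.Agent.H864.NoBadPSL
import Cfsg.Agent.H991.PermThree
import Cfsg.Agent.Blocks.CliffordCentral
import Cfsg.Agent.S0243
import Cfsg.Agent.S2299
import Cfsg.Agent.S2300
import Cfsg.Agent.S2392
import Cfsg.Agent.S2480

/-!
# `Row` for the groups `PSL_n(q)` (task KGV of helper960)
-/

set_option autoImplicit false

namespace Cfsg.Agent.H486.Kgv

open Cfsg Cfsg.Agent.H960.KGV Matrix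

/-! ### the complex representation -/

/-- a trivial irreducible representation has degree one -/
theorem le_one_of_trivial {T : Type*} [Group T] {k : ℕ} {ρ : Representation ℂ T (Fin k → ℂ)}
    (h : ρ.IsIrreducible) (h1 : ∀ g, ρ g = 1) : k ≤ 1 := by
  by_contra hk
  have hk' : 0 < k := by omega
  let v : Fin k → ℂ := Pi.single ⟨0, hk'⟩ 1
  have hv : v ≠ 0 := by
    intro h
    have := congrFun h ⟨0, hk'⟩
    simp [v] at this
  let W : Subrepresentation ρ :=
    { toSubmodule := Submodule.span ℂ {v}
      apply_mem_toSubmodule := by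
        intro g x hx
        rw [h1 g]
        exact hx }
  have hs : IsSimpleOrder (Subrepresentation ρ) := h
  rcases hs.eq_bot_or_eq_top W with h2 | h2
  · have h3 : Submodule.span ℂ {v} = ⊥ := congrArg Subrepresentation.toSubmodule h2
    rw [Submodule.span_singleton_eq_bot] at h3
    exact hv h3
  · have h3 : Submodule.span ℂ {v} = ⊤ := congrArg Subrepresentation.toSubmodule h2
    have h4 := finrank_span_singleton (K := ℂ) hv
    rw [h3, finrank_top, Module.finrank_fin_fun] at h4
    omega

/-- a nontrivial irreducible representation of a non-abelian simple group is faithful of degree `≥ 2` -/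
theorem faithful {T : Type*} [Group T] [IsSimpleGroup T] (hT : ¬ IsMulCommutative T) {k : ℕ}
    {ρ : Representation ℂ T (Fin k → ℂ)} (h : ρ.IsIrreducible) (h1 : ρ.character ≠ fun _ => 1) :
    2 ≤ k ∧ Function.Injective ρ := by
  have hk0 : k ≠ 0 := by
    rintro rfl
    have hs : IsSimpleOrder (Subrepresentation ρ) := h
    apply (bot_ne_top : (⊥ : Subrepresentation ρ) ≠ ⊤)
    apply Subrepresentation.toSubmodule_injective
    exact Subsingleton.elim _ _
  have hinj : Function.Injective ρ := by
    rw [← MonoidHom.ker_eq_bot_iff]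
    rcases (inferInstance : ρ.ker.Normal).eq_bot_or_eq_top with h2 | h2
    · exact h2
    · exfalso
      have h3 : ∀ g, ρ g = 1 := fun g => (MonoidHom.mem_ker).1 (by rw [h2]; trivial)
      have h4 := le_one_of_trivial h h3
      apply h1
      funext g
      rw [Representation.character, h3 g]
      have : k = 1 := by omega
      subst this
      rw [LinearMap.trace_one, Module.finrank_fin_fun, Nat.cast_one]
  refine ⟨?_, hinj⟩
  by_contra hk
  have hk1 : k = 1 := by omega
  subst hk1
  apply hT
  refine ⟨⟨fun a b => hinj ?_⟩⟩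
  rw [map_mul, map_mul]
  have hf : Module.finrank ℂ (Fin 1 → ℂ) = 1 := Module.finrank_fin_fun ℂ
  ext x
  have e1 : ∀ u : (Fin 1 → ℂ) →ₗ[ℂ] (Fin 1 → ℂ), ∃ c : ℂ, ∀ x, u x = c • x := by
    intro u
    refine ⟨u (Pi.single 0 1) 0, fun x => ?_⟩
    have hx : x = x 0 • (Pi.single 0 1 : Fin 1 → ℂ) := by
      ext i
      have : i = 0 := Subsingleton.elim _ _
      subst this
      simp
    conv_lhs => rw [hx, map_smul]
    ext i
    have : i = 0 := Subsingleton.elim _ _
    subst this
    simp [mul_comm]
  obtain ⟨c, hc⟩ := e1 (ρ a)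
  obtain ⟨c', hc'⟩ := e1 (ρ b)
  simp only [Module.End.mul_apply, LinearMap.comp_apply, hc, hc', smul_smul, mul_comm]

/-- the representation given by `Sit.adj` -/
theorem Sit_rep {T : Type} [Group T] [IsSimpleGroup T] (hT : ¬ IsMulCommutative T) {p f d : ℕ}
    (S : Sit T p f d) : ∃ (k : ℕ) (ρ : Representation ℂ T (Fin k → ℂ)), ρ.IsIrreducible ∧ 2 ≤ k ∧
      k + 1 ≤ d ^ 2 ∧ Function.Injective ρ := by
  obtain ⟨⟨χ, k, ρ, hρ, rfl⟩, h1, h2⟩ := S.adj
  obtain ⟨hk, hinj⟩ := faithful hT hρ h1
  refine ⟨k, ρ, hρ, hk, ?_, hinj⟩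
  have h3 : charDegree (ρ.character : T → ℂ) = k := by
    rw [charDegree, Representation.char_one, Module.finrank_fin_fun]
    simp
  have h4 : charDegree (ρ.character : T → ℂ) ≤ d ^ 2 - 1 := h2
  rw [h3] at h4
  have : 0 < d ^ 2 := by
    have := S.three_le
    positivity
  omega

/-! ### degrees for `PSL_n(q)` -/

section Deg

variable {T : Type} [Group T] [IsSimpleGroup T] {F : Type} [Field F] [Fintype F]

theorem deg_ge_three (hT : ¬ IsMulCommutative T) {p f d : ℕ} (S : Sit T p f d) {n : ℕ} (hn : 3 ≤ n)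
    (e : T ≃* ProjectiveSpecialLinearGroup (Fin n) F) : Fintype.card F ^ (n - 1) ≤ d ^ 2 := by
  obtain ⟨k, ρ, hρ, hk, hkd, hinj⟩ := Sit_rep hT S
  let φ : SpecialLinearGroup (Fin n) F →* T :=
    e.symm.toMonoidHom.comp (QuotientGroup.mk' (Subgroup.center (SpecialLinearGroup (Fin n) F)))
  let σ : SpecialLinearGroup (Fin n) F →* GL (Fin k) ℂ :=
    (((LinearMap.toMatrixAlgEquiv' : ((Fin k → ℂ) →ₗ[ℂ] (Fin k → ℂ)) ≃ₐ[ℂ] Matrix (Fin k) (Fin k) ℂ).toAlgHom.toMonoidHom).comp
      (ρ.comp φ)).toHomUnits
  have hker : σ.ker ≤ Subgroup.center (SpecialLinearGroup (Fin n) F) := by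
    intro g hg
    rw [MonoidHom.mem_ker, Units.ext_iff, MonoidHom.coe_toHomUnits, Units.val_one] at hg
    have h1 : (LinearMap.toMatrixAlgEquiv' : ((Fin k → ℂ) →ₗ[ℂ] (Fin k → ℂ)) ≃ₐ[ℂ] _) (ρ (φ g)) =
        (LinearMap.toMatrixAlgEquiv' : ((Fin k → ℂ) →ₗ[ℂ] (Fin k → ℂ)) ≃ₐ[ℂ] _) 1 := by
      rw [map_one]
      exact hg
    have h2 : ρ (φ g) = 1 := (LinearMap.toMatrixAlgEquiv' : ((Fin k → ℂ) →ₗ[ℂ] (Fin k → ℂ)) ≃ₐ[ℂ] _).injective h1
    have h3 : φ g = 1 := hinj (by rw [h2, map_one])
    have h4 : (QuotientGroup.mk' (Subgroup.center (SpecialLinearGroup (Fin n) F))) g = 1 := by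
      apply e.symm.injective
      rw [map_one]
      exact h3
    exact (QuotientGroup.eq_one_iff g).1 h4
  have hK : ringChar ℂ ≠ ringChar F := by
    rw [ringChar.eq_zero]
    have := CharP.ringChar_ne_zero_of_finite F
    exact fun h => this h.symm
  have h1 := S2392.result (F := F) rfl n hn hK σ hker
  have h2 : 0 < Fintype.card F ^ (n - 1) := pow_pos Fintype.card_pos _
  omega

theorem deg_two_odd (hT : ¬ IsMulCommutative T) {p f d : ℕ} (S : Sit T p f d)
    (hodd : Odd (Fintype.card F)) (h5 : 5 ≤ Fintype.card F)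
    (e : T ≃* ProjectiveSpecialLinearGroup (Fin 2) F) : Fintype.card F + 1 ≤ 2 * d ^ 2 := by
  obtain ⟨k, ρ, hρ, hk, hkd, hinj⟩ := Sit_rep hT S
  let φ : SpecialLinearGroup (Fin 2) F →* T :=
    e.symm.toMonoidHom.comp (QuotientGroup.mk' (Subgroup.center (SpecialLinearGroup (Fin 2) F)))
  have hφ : Function.Surjective φ := e.symm.surjective.comp (QuotientGroup.mk'_surjective _)
  have h0 := Cfsg.Agent.Blocks.CliffordCentral.isIrrCharacter_comp (θ := ρ.character) ⟨k, ρ, hρ, rfl⟩ φ hφ
  have h1 := (S2299.result hodd).1 _ h0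
  have h2 : ρ.character (φ 1) = (k : ℂ) := by
    rw [map_one, Representation.char_one, Module.finrank_fin_fun]
  simp only [h2] at h1
  obtain ⟨m, hm⟩ := hodd
  rcases h1 with h | h | h | h | h | h
  · have : k = 1 := by exact_mod_cast h
    omega
  · have : k = Fintype.card F := by exact_mod_cast h
    omega
  · have : k = Fintype.card F + 1 := by exact_mod_cast h
    omega
  · have h' : ((k + 1 : ℕ) : ℂ) = (Fintype.card F : ℂ) := by
      push_cast
      rw [h]; ring
    have : k + 1 = Fintype.card F := by exact_mod_cast h'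
    omega
  · have : k = (Fintype.card F + 1) / 2 := by exact_mod_cast h
    omega
  · have : k = (Fintype.card F - 1) / 2 := by exact_mod_cast h
    omega

theorem deg_two_even (hT : ¬ IsMulCommutative T) {p f d : ℕ} (S : Sit T p f d)
    [CharP F 2] (e : T ≃* ProjectiveSpecialLinearGroup (Fin 2) F) : Fintype.card F ≤ d ^ 2 := by
  obtain ⟨k, ρ, hρ, hk, hkd, hinj⟩ := Sit_rep hT S
  let φ : SpecialLinearGroup (Fin 2) F →* T :=
    e.symm.toMonoidHom.comp (QuotientGroup.mk' (Subgroup.center (SpecialLinearGroup (Fin 2) F)))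
  have hφ : Function.Surjective φ := e.symm.surjective.comp (QuotientGroup.mk'_surjective _)
  have h0 := Cfsg.Agent.Blocks.CliffordCentral.isIrrCharacter_comp (θ := ρ.character) ⟨k, ρ, hρ, rfl⟩ φ hφ
  have h1 := (S2300.result (F := F)).1 _ h0
  have h2 : ρ.character (φ 1) = (k : ℂ) := by
    rw [map_one, Representation.char_one, Module.finrank_fin_fun]
  simp only [h2] at h1
  rcases h1 with h | h | h | h
  · have : k = 1 := by exact_mod_cast h
    omega
  · have h' : ((k + 1 : ℕ) : ℂ) = (Fintype.card F : ℂ) := by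
      push_cast
      rw [h]; ring
    have : k + 1 = Fintype.card F := by exact_mod_cast h'
    omega
  · have : k = Fintype.card F := by exact_mod_cast h
    omega
  · have : k = Fintype.card F + 1 := by exact_mod_cast h
    omega

end Deg

/-! ### orders, class numbers and outer automorphisms -/

section X

variable {T : Type} [Group T] [Finite T] [IsSimpleGroup T] {F : Type} [Field F] [Fintype F]

theorem three_dvd (F : Type) [Field F] {n : ℕ} (hn : 2 ≤ n) :
    3 ∣ Nat.card (ProjectiveSpecialLinearGroup (Fin n) F) := by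
  rcases hn.eq_or_lt with rfl | hn
  · exact H991.three_dvd_psl2 F
  have h01 : (⟨0, by omega⟩ : Fin n) ≠ ⟨1, by omega⟩ := by simp
  have h02 : (⟨0, by omega⟩ : Fin n) ≠ ⟨2, by omega⟩ := by simp
  have h12 : (⟨1, by omega⟩ : Fin n) ≠ ⟨2, by omega⟩ := by simp
  have hc : (Equiv.swap (⟨0, by omega⟩ : Fin n) ⟨1, by omega⟩ * Equiv.swap (⟨0, by omega⟩ : Fin n) ⟨2, by omega⟩).IsThreeCycle :=
    Equiv.Perm.isThreeCycle_swap_mul_swap_same h01 h02 h12
  set σ := Equiv.swap (⟨0, by omega⟩ : Fin n) ⟨1, by omega⟩ * Equiv.swap (⟨0, by omega⟩ : Fin n) ⟨2, by omega⟩ with hσ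
  let g : Matrix.SpecialLinearGroup (Fin n) F := ⟨σ.permMatrix F, by
    rw [Matrix.det_permutation, hc.sign, Units.val_one, Int.cast_one]⟩
  have hg3 : g ^ 3 = 1 := by
    apply Subtype.ext
    show σ.permMatrix F ^ 3 = 1
    rw [pow_three, ← Matrix.permMatrix_mul, ← Matrix.permMatrix_mul]
    have h3 : σ * σ * σ = 1 := by
      have := pow_orderOf_eq_one σ
      rw [hc.orderOf] at this
      rw [← this, pow_three, mul_assoc]
    rw [h3, Matrix.permMatrix_one]
  refine H991.three_dvd_of (x := (QuotientGroup.mk g : Matrix.ProjectiveSpecialLinearGroup (Fin n) F)) ?_ ?_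
  · rw [← QuotientGroup.mk_pow, hg3]; rfl
  · intro h
    have h0 : g ∈ Subgroup.center (Matrix.SpecialLinearGroup (Fin n) F) := (QuotientGroup.eq_one_iff g).1 h
    rw [Matrix.SpecialLinearGroup.mem_center_iff] at h0
    obtain ⟨c, -, hc'⟩ := h0
    have h1 := congrFun (congrFun hc' ⟨0, by omega⟩) (σ ⟨0, by omega⟩)
    have h2 : σ ⟨0, by omega⟩ = ⟨2, by omega⟩ := by
      rw [hσ, Equiv.Perm.mul_apply, Equiv.swap_apply_left, Equiv.swap_apply_of_ne_of_ne h02.symm h12.symm]
    rw [Matrix.scalar_apply, Matrix.diagonal_apply_ne _ (by rw [h2]; exact h02)] at h1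
    have h3 : (g : Matrix (Fin n) (Fin n) F) ⟨0, by omega⟩ (σ ⟨0, by omega⟩) = 1 := by
      show σ.permMatrix F _ _ = 1
      rw [Equiv.Perm.permMatrix, PEquiv.toMatrix_apply, if_pos]
      simp
    rw [h3] at h1
    exact zero_ne_one h1

omit [Finite T] [IsSimpleGroup T] in
theorem five_le {p f d : ℕ} (S : Sit T p f d) {n : ℕ} (hn : 2 ≤ n)
    (e : T ≃* ProjectiveSpecialLinearGroup (Fin n) F) : 5 ≤ p := by
  have h2 : 2 ∣ Nat.card T := by
    have : Nontrivial (Fin n) := Fin.nontrivial_iff_two_le.2 hn
    rw [Nat.card_congr e.toEquiv]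
    exact H864.NoBadPSL.two_dvd
  have h3 : 3 ∣ Nat.card T := by
    rw [Nat.card_congr e.toEquiv]
    exact three_dvd F hn
  have hp := S.prime
  have hc := S.coprime
  by_contra hlt
  have : p < 5 := by omega
  interval_cases p
  · exact absurd hp (by decide)
  · exact absurd hp (by decide)
  · exact hc h2
  · exact hc h3
  · exact absurd hp (by decide)

theorem seven_le {p : ℕ} (hp : p.Prime) (h : 5 ≤ p) (h5 : p ≠ 5) : 7 ≤ p := by
  by_contra hlt
  have : p = 6 := by omega
  subst this
  exact absurd hp (by decide)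

theorem eleven_le {p : ℕ} (hp : p.Prime) (h : 5 ≤ p) (h5 : p ≠ 5) (h7 : p ≠ 7) : 11 ≤ p := by
  have := seven_le hp h h5
  by_contra hlt
  have : p < 11 := by omega
  interval_cases p
  · exact h7 rfl
  · exact absurd hp (by decide)
  · exact absurd hp (by decide)
  · exact absurd hp (by decide)

omit [Finite T] [Fintype F] in
theorem center_psl (hT : ¬ IsMulCommutative T) {n : ℕ} (e : T ≃* ProjectiveSpecialLinearGroup (Fin n) F) :
    Subgroup.center (ProjectiveSpecialLinearGroup (Fin n) F) = ⊥ := by
  have h1 : Subgroup.center T = ⊥ := by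
    rcases (inferInstance : (Subgroup.center T).Normal).eq_bot_or_eq_top with h | h
    · exact h
    · exfalso
      apply hT
      refine ⟨⟨fun a b => ?_⟩⟩
      have ha : a ∈ Subgroup.center T := by rw [h]; trivial
      exact (Subgroup.mem_center_iff.1 ha b).symm
  rw [eq_bot_iff]
  intro z hz
  have h2 : e.symm z ∈ Subgroup.center T := by
    rw [Subgroup.mem_center_iff]
    intro g
    apply e.injective
    rw [map_mul, map_mul, e.apply_symm_apply]
    exact Subgroup.mem_center_iff.1 hz (e g)
  rw [h1, Subgroup.mem_bot] at h2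
  rw [Subgroup.mem_bot, ← e.apply_symm_apply z, h2, map_one]

theorem exists_pf (F : Type) [Field F] [Fintype F] : ∃ p f : ℕ, p.Prime ∧ 1 ≤ f ∧ Fintype.card F = p ^ f ∧ CharP F p := by
  obtain ⟨n, hp, h⟩ := FiniteField.card F (ringChar F)
  exact ⟨ringChar F, n, hp, n.pos, h, inferInstance⟩

omit [Finite T] in
theorem X_ge_three (hT : ¬ IsMulCommutative T) {n : ℕ} (hn : 3 ≤ n)
    (e : T ≃* ProjectiveSpecialLinearGroup (Fin n) F) {r a : ℕ} (hr : r.Prime) (ha : 1 ≤ a)
    (hF : Fintype.card F = r ^ a) : Nat.card (ConjClasses T) * Nat.card (Cfsg.Out T) ≤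
      2 * a * (Fintype.card F ^ (n - 1) + 5 * Fintype.card F ^ (n - 2)) := by
  rw [H540.ClassNum.card_conjClasses_congr e, H934.OutB.card_out_congr e,
    H163.PG.card_out_psl hr ha hF hn (center_psl hT e)]
  have h1 := (S2480.result (F := F) n (by omega)).2
  calc _ = 2 * a * (Nat.gcd n (Fintype.card F - 1) *
        Nat.card (ConjClasses (Matrix.ProjectiveSpecialLinearGroup (Fin n) F))) := by ring
    _ ≤ _ := Nat.mul_le_mul_left _ h1

omit [Finite T] in
theorem X_two (hT : ¬ IsMulCommutative T) (h4 : 4 ≤ Fintype.card F)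
    (e : T ≃* ProjectiveSpecialLinearGroup (Fin 2) F) {r a : ℕ} (hr : r.Prime) (ha : 1 ≤ a)
    (hF : Fintype.card F = r ^ a) : Nat.card (ConjClasses T) * Nat.card (Cfsg.Out T) ≤
      a * (Fintype.card F + 5) := by
  rw [H540.ClassNum.card_conjClasses_congr e, H934.OutB.card_out_congr e,
    H163.PG.card_out_psl_two hr ha hF h4 (center_psl hT e)]
  have h1 := (S2480.result (F := F) 2 (by omega)).2
  have h2 : Fintype.card F ^ (2 - 1) + 5 * Fintype.card F ^ (2 - 2) = Fintype.card F + 5 := by simp
  rw [h2] at h1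
  calc _ = a * (Nat.gcd 2 (Fintype.card F - 1) *
        Nat.card (ConjClasses (Matrix.ProjectiveSpecialLinearGroup (Fin 2) F))) := by ring
    _ ≤ _ := Nat.mul_le_mul_left _ h1

theorem two_mul_le {r a : ℕ} (hr : 2 ≤ r) (ha : 1 ≤ a) : 2 * a ≤ r ^ a := by
  have h1 : 2 * a ≤ 2 ^ a := by
    obtain ⟨b, rfl⟩ : ∃ b, a = b + 1 := ⟨a - 1, by omega⟩
    have : b < 2 ^ b := Nat.lt_two_pow_self
    rw [pow_succ]
    omega
  exact h1.trans (Nat.pow_le_pow_left hr a)

end X

/-! ### the rows -/

theorem dvd_three {T : Type} [Group T] {p : ℕ} (S : Sit T p 1 3) : Nat.card T ∣ (p ^ 2 - 1) * (p ^ 3 - 1) := by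
  have h := S.dvd
  rw [pow_one, Finset.prod_Icc_succ_top (by norm_num), Finset.Icc_self, Finset.prod_singleton] at h
  exact h

theorem dvd_four {T : Type} [Group T] {p : ℕ} (S : Sit T p 1 4) :
    Nat.card T ∣ (p ^ 2 - 1) * (p ^ 3 - 1) * (p ^ 4 - 1) := by
  have h := S.dvd
  rw [pow_one, Finset.prod_Icc_succ_top (by norm_num), Finset.prod_Icc_succ_top (by norm_num), Finset.Icc_self,
    Finset.prod_singleton] at h
  exact h

/-- the case `p ≥ 5`, `d = 3` with `|T|` not dividing `|PGL_3(5)|` -/
theorem row_d3 {T : Type} [Group T] {p f X : ℕ} (S : Sit T p f 3) (h5 : 5 ≤ p)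
    (hX : X ≤ 66) (hX7 : p = 7 → f = 1 → X ≤ 28) (h55 : p = 5 → f = 1 → X ≤ 15) :
    2 * f * (p ^ f - 1) * X ≤ (p ^ f) ^ 3 := by
  rcases S.f_pos.eq_or_lt with hf | hf
  · subst hf
    by_cases hp5 : p = 5
    · have := h55 hp5 rfl
      exact base_le (r := 5) (by norm_num) h5 le_rfl le_rfl (by norm_num; omega)
    · have h7 := seven_le S.prime h5 hp5
      by_cases hp7 : p = 7
      · have := hX7 hp7 rfl
        exact base_le (r := 7) (by norm_num) h7 le_rfl le_rfl (by norm_num; omega)
      · have h11 := eleven_le S.prime h5 hp5 hp7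
        exact base_le (r := 11) (by norm_num) h11 le_rfl le_rfl (by norm_num; omega)
  · apply ext_le (by omega) hf le_rfl
    have : 5 ^ (2 * (3 - 1)) ≤ p ^ (2 * (3 - 1)) := Nat.pow_le_pow_left h5 _
    norm_num at this ⊢
    omega

theorem row_three {T : Type} [Group T] [Finite T] [IsSimpleGroup T] (hT : ¬ IsMulCommutative T)
    {F : Type} [Field F] [Fintype F] {n : ℕ} (hn : 3 ≤ n)
    (e : T ≃* ProjectiveSpecialLinearGroup (Fin n) F) : Row T := by
  intro p f d S
  obtain ⟨r, a, hr, ha, hF, -⟩ := exists_pf F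
  have hX := X_ge_three hT hn e hr ha hF
  have hN := deg_ge_three hT S hn e
  have h5 := five_le S (by omega) e
  have haq := two_mul_le hr.two_le ha
  rw [← hF] at haq
  have hcard := S0243.result (F := F) rfl n (by omega)
  rw [← Nat.card_congr e.toEquiv] at hcard
  have hq1 : 1 < Fintype.card F := Fintype.one_lt_card
  have hd3 := S.three_le
  have hcop := S.coprime
  clear hF
  generalize Nat.card (ConjClasses T) * Nat.card (Cfsg.Out T) = X at hX ⊢
  generalize Fintype.card F = q at *
  by_cases hd : 5 ≤ d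
  · apply base_le (r := 5) (by norm_num) h5 S.f_pos S.three_le
    have hqd : q ≤ d := by
      have h1 : q ^ 2 ≤ q ^ (n - 1) := Nat.pow_le_pow_right (by omega) (by omega)
      have h2 : q ^ 2 ≤ d ^ 2 := h1.trans hN
      exact (Nat.pow_le_pow_iff_left (by norm_num)).1 h2
    have h3 : q * q ^ (n - 2) = q ^ (n - 1) := by
      rw [← pow_succ']
      congr 1
      omega
    have h4 : X ≤ d * d ^ 2 + 5 * d ^ 2 := by
      calc X ≤ 2 * a * (q ^ (n - 1) + 5 * q ^ (n - 2)) := hX
        _ ≤ q * (q ^ (n - 1) + 5 * q ^ (n - 2)) := Nat.mul_le_mul_right _ haq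
        _ = q * q ^ (n - 1) + 5 * (q * q ^ (n - 2)) := by ring
        _ = q * q ^ (n - 1) + 5 * q ^ (n - 1) := by rw [h3]
        _ ≤ _ := Nat.add_le_add (Nat.mul_le_mul hqd hN) (Nat.mul_le_mul_left _ hN)
    calc 2 * (5 - 1) * X = 8 * X := by norm_num
      _ ≤ 8 * (d * d ^ 2 + 5 * d ^ 2) := Nat.mul_le_mul_left _ h4
      _ ≤ _ := cube_le hd
  · have hd' : d ≤ 4 := by omega
    have hN16 : q ^ (n - 1) ≤ 16 := hN.trans (by
      calc d ^ 2 ≤ 4 ^ 2 := Nat.pow_le_pow_left hd' 2
        _ = 16 := by norm_num)
    have hn5 : n ≤ 5 := by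
      by_contra hcon
      have h1 : 2 ^ 5 ≤ 2 ^ (n - 1) := Nat.pow_le_pow_right (by norm_num) (by omega)
      have h2 : 2 ^ (n - 1) ≤ q ^ (n - 1) := Nat.pow_le_pow_left (by omega) _
      omega
    have hq4 : q ≤ 4 := by
      by_contra hcon
      have h1 : q ^ 2 ≤ q ^ (n - 1) := Nat.pow_le_pow_right (by omega) (by omega)
      have h2 : 5 ^ 2 ≤ q ^ 2 := Nat.pow_le_pow_left (by omega) _
      omega
    have hkey : (q = 2 ∧ n = 3) ∨ (q = 2 ∧ n = 4) ∨ (q = 2 ∧ n = 5) ∨ (q = 3 ∧ n = 3) ∨ (q = 4 ∧ n = 3) := by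
      interval_cases q <;> interval_cases n <;> simp at hN16 ⊢
    rcases hkey with ⟨rfl, rfl⟩ | ⟨rfl, rfl⟩ | ⟨rfl, rfl⟩ | ⟨rfl, rfl⟩ | ⟨rfl, rfl⟩
    · -- `PSL_3(2)`
      have hc : Nat.card T = 168 := by
        norm_num [Fin.prod_univ_succ] at hcard
        omega
      have ha1 : a = 1 := by omega
      subst ha1
      norm_num at hX
      have hd34 : d = 3 ∨ d = 4 := by omega
      rcases hd34 with rfl | rfl
      · refine row_d3 S h5 (by omega) (fun _ _ => hX) ?_
        rintro rfl rfl
        have := dvd_three S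
        rw [hc] at this
        exact absurd this (by norm_num)
      · exact base_le (r := 5) (by norm_num) h5 S.f_pos S.three_le (by norm_num; omega)
    · -- `PSL_4(2)`
      have hc : Nat.card T = 20160 := by
        norm_num [Fin.prod_univ_succ] at hcard
        omega
      have ha1 : a = 1 := by omega
      subst ha1
      norm_num at hX
      rw [hc] at hcop
      have hp5 : p ≠ 5 := by
        rintro rfl
        exact hcop (by norm_num)
      have hp7 : p ≠ 7 := by
        rintro rfl
        exact hcop (by norm_num)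
      have h11 := eleven_le S.prime h5 hp5 hp7
      apply base_le (r := 11) (by norm_num) h11 S.f_pos S.three_le
      calc 2 * (11 - 1) * X ≤ 11 ^ 3 := by norm_num; omega
        _ ≤ _ := Nat.pow_le_pow_right (by norm_num) hd3
    · -- `PSL_5(2)`
      have hc : 5 ∣ Nat.card T := by
        norm_num [Fin.prod_univ_succ] at hcard
        omega
      have ha1 : a = 1 := by omega
      subst ha1
      norm_num at hX hN
      have hp5 : p ≠ 5 := by
        rintro rfl
        exact hcop hc
      have h7 := seven_le S.prime h5 hp5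
      have hd4 : d = 4 := by
        by_contra hcon
        have : d = 3 := by omega
        subst this
        norm_num at hN
      subst hd4
      exact base_le (r := 7) (by norm_num) h7 S.f_pos S.three_le (by norm_num; omega)
    · -- `PSL_3(3)`
      have hc : Nat.card T = 5616 := by
        norm_num [Fin.prod_univ_succ] at hcard
        omega
      have ha1 : a = 1 := by omega
      subst ha1
      norm_num at hX
      have hd34 : d = 3 ∨ d = 4 := by omega
      rcases hd34 with rfl | rfl
      · refine row_d3 S h5 (by omega) ?_ ?_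
        · rintro rfl rfl
          have := dvd_three S
          rw [hc] at this
          exact absurd this (by norm_num)
        · rintro rfl rfl
          have := dvd_three S
          rw [hc] at this
          exact absurd this (by norm_num)
      · exact base_le (r := 5) (by norm_num) h5 S.f_pos S.three_le (by norm_num; omega)
    · -- `PSL_3(4)`
      have hc : Nat.card T = 20160 := by
        norm_num [Fin.prod_univ_succ] at hcard
        omega
      have ha1 : a ≤ 2 := by omega
      have hX' : X ≤ 144 := by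
        refine hX.trans ?_
        norm_num
        omega
      rw [hc] at hcop
      have hp5 : p ≠ 5 := by
        rintro rfl
        exact hcop (by norm_num)
      have hp7 : p ≠ 7 := by
        rintro rfl
        exact hcop (by norm_num)
      have h11 := eleven_le S.prime h5 hp5 hp7
      have hd4 : d = 4 := by
        by_contra hcon
        have : d = 3 := by omega
        subst this
        norm_num at hN
      subst hd4
      exact base_le (r := 11) (by norm_num) h11 S.f_pos S.three_le (by norm_num; omega)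

theorem odd_of_pow {r a : ℕ} (hr : r.Prime) (h : r ≠ 2) : Odd (r ^ a) :=
  Odd.pow (hr.odd_of_ne_two h)

theorem card_two_mul {T : Type} [Group T] {F : Type} [Field F] [Fintype F]
    (e : T ≃* ProjectiveSpecialLinearGroup (Fin 2) F) :
    Nat.gcd 2 (Fintype.card F - 1) * ((Fintype.card F - 1) * Nat.card T) =
      (Fintype.card F ^ 2 - 1) * (Fintype.card F ^ 2 - Fintype.card F) := by
  have h := S0243.result (F := F) rfl 2 le_rfl
  rw [← Nat.card_congr e.toEquiv] at h
  rw [h, Fin.prod_univ_two]
  simp

theorem row_two {T : Type} [Group T] [Finite T] [IsSimpleGroup T] (hT : ¬ IsMulCommutative T)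
    {F : Type} [Field F] [Fintype F] (h4 : 4 ≤ Fintype.card F)
    (e : T ≃* ProjectiveSpecialLinearGroup (Fin 2) F) : Row T := by
  intro p f d S
  obtain ⟨r, a, hr, ha, hF, hchar⟩ := exists_pf F
  have hX := X_two hT h4 e hr ha hF
  have hE : r = 2 → Fintype.card F ≤ d ^ 2 := by
    rintro rfl
    exact deg_two_even hT S e
  have hO : r ≠ 2 → Fintype.card F + 1 ≤ 2 * d ^ 2 := by
    intro h
    have hodd : Odd (Fintype.card F) := by
      rw [hF]
      exact odd_of_pow hr h
    have h5' : 5 ≤ Fintype.card F := by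
      obtain ⟨m, hm⟩ := hodd
      omega
    exact deg_two_odd hT S hodd h5' e
  have h5 := five_le S (by omega) e
  have haq := two_mul_le hr.two_le ha
  rw [← hF] at haq
  have hcard := card_two_mul e
  have hd3 := S.three_le
  have hcop := S.coprime
  have hall : Fintype.card F + 1 ≤ 2 * d ^ 2 := by
    by_cases h : r = 2
    · have := hE h
      omega
    · exact hO h
  have h2a : 2 ^ a ≤ Fintype.card F := by
    rw [hF]
    exact Nat.pow_le_pow_left hr.two_le a
  generalize Nat.card (ConjClasses T) * Nat.card (Cfsg.Out T) = X at hX ⊢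
  generalize Fintype.card F = q at *
  by_cases hd : 7 ≤ d
  · apply base_le (r := 5) (by norm_num) h5 S.f_pos S.three_le
    calc 2 * (5 - 1) * X = 8 * X := by norm_num
      _ ≤ 8 * (a * (q + 5)) := Nat.mul_le_mul_left _ hX
      _ = 4 * ((2 * a) * (q + 5)) := by ring
      _ ≤ 4 * ((2 * d ^ 2) * (2 * d ^ 2 + 4)) := by
          apply Nat.mul_le_mul_left
          exact Nat.mul_le_mul (by omega) (by omega)
      _ ≤ _ := four_le hd
  have hd6 : d = 3 ∨ d = 4 ∨ d = 5 ∨ d = 6 := by omega
  rcases hd6 with rfl | rfl | rfl | rfl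
  · -- `d = 3`
    norm_num at hall hE hO
    have ha4 : a ≤ 4 := by
      by_contra hcon
      have : 2 ^ 5 ≤ 2 ^ a := Nat.pow_le_pow_right (by norm_num) (by omega)
      omega
    have key : (a = 1 ∧ (q = 5 ∨ q = 7 ∨ q = 11 ∨ q = 13 ∨ q = 17)) ∨ (a = 2 ∧ (q = 4 ∨ q = 9)) ∨ (a = 3 ∧ q = 8) := by
      interval_cases a
      · left
        refine ⟨rfl, ?_⟩
        rw [pow_one] at hF
        subst hF
        interval_cases q <;> first | omega | exact absurd hr (by decide)
      · right; left
        refine ⟨rfl, ?_⟩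
        have : r ≤ 4 := by
          by_contra hcon
          have : 5 ^ 2 ≤ r ^ 2 := Nat.pow_le_pow_left (by omega) 2
          omega
        interval_cases r
        · norm_num at hF; omega
        · norm_num at hF; omega
        · norm_num at hF; omega
        · norm_num at hF; omega
        · exact absurd hr (by decide)
      · right; right
        refine ⟨rfl, ?_⟩
        have : r ≤ 2 := by
          by_contra hcon
          have : 3 ^ 3 ≤ r ^ 3 := Nat.pow_le_pow_left (by omega) 3
          omega
        interval_cases r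
        · norm_num at hF; omega
        · norm_num at hF; omega
        · norm_num at hF; omega
      · exfalso
        have : r ≤ 2 := by
          by_contra hcon
          have : 3 ^ 4 ≤ r ^ 4 := Nat.pow_le_pow_left (by omega) 4
          omega
        have h2 : r = 2 := by
          have := hr.two_le
          omega
        have := hE h2
        subst h2
        norm_num at hF
        omega
    rcases key with ⟨rfl, rfl | rfl | rfl | rfl | rfl⟩ | ⟨rfl, rfl | rfl⟩ | ⟨rfl, rfl⟩
    all_goals norm_num at hcard hX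
    · -- 5
      exact row_d3 S h5 (by omega) (fun _ _ => by omega) (fun _ _ => by omega)
    · -- 7
      exact row_d3 S h5 (by omega) (fun _ _ => by omega) (fun _ _ => by omega)
    · -- 11
      have hc : 5 ∣ Nat.card T := by omega
      exact row_d3 S h5 (by omega) (fun _ _ => by omega) (fun h _ => by subst h; exact absurd hc hcop)
    · -- 13
      have hc : Nat.card T = 1092 := by omega
      refine row_d3 S h5 (by omega) (fun _ _ => by omega) ?_
      rintro rfl rfl
      have := dvd_three S
      rw [hc] at this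
      exact absurd this (by norm_num)
    · -- 17
      have hc : Nat.card T = 2448 := by omega
      refine row_d3 S h5 (by omega) (fun _ _ => by omega) ?_
      rintro rfl rfl
      have := dvd_three S
      rw [hc] at this
      exact absurd this (by norm_num)
    · -- 4
      have hc : 5 ∣ Nat.card T := by omega
      exact row_d3 S h5 (by omega) (fun _ _ => by omega) (fun h _ => by subst h; exact absurd hc hcop)
    · -- 9
      have hc : 5 ∣ Nat.card T := by omega
      exact row_d3 S h5 (by omega) (fun _ _ => by omega) (fun h _ => by subst h; exact absurd hc hcop)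
    · -- 8
      have hc : Nat.card T = 504 := by omega
      refine row_d3 S h5 (by omega) ?_ ?_
      · rintro rfl -
        rw [hc] at hcop
        exact absurd (by norm_num) hcop
      · rintro rfl rfl
        have := dvd_three S
        rw [hc] at this
        exact absurd this (by norm_num)
  · -- `d = 4`
    norm_num at hall hE hO
    have ha4 : a ≤ 4 := by
      by_contra hcon
      have : 2 ^ 5 ≤ 2 ^ a := Nat.pow_le_pow_right (by norm_num) (by omega)
      omega
    by_cases ha2 : a ≤ 2
    · apply base_le (r := 5) (by norm_num) h5 S.f_pos S.three_le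
      have : a * (q + 5) ≤ 2 * 36 := Nat.mul_le_mul ha2 (by omega)
      norm_num
      omega
    have key : (a = 3 ∧ (q = 8 ∨ q = 27)) ∨ (a = 4 ∧ q = 16) := by
      interval_cases a
      · left
        refine ⟨rfl, ?_⟩
        have : r ≤ 3 := by
          by_contra hcon
          have : 4 ^ 3 ≤ r ^ 3 := Nat.pow_le_pow_left (by omega) 3
          omega
        interval_cases r
        · norm_num at hF; omega
        · norm_num at hF; omega
        · norm_num at hF; omega
        · norm_num at hF; omega
      · right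
        refine ⟨rfl, ?_⟩
        have : r ≤ 2 := by
          by_contra hcon
          have : 3 ^ 4 ≤ r ^ 4 := Nat.pow_le_pow_left (by omega) 4
          omega
        interval_cases r
        · norm_num at hF; omega
        · norm_num at hF; omega
        · norm_num at hF; omega
    rcases key with ⟨rfl, rfl | rfl⟩ | ⟨rfl, rfl⟩
    all_goals norm_num at hcard hX
    · exact base_le (r := 5) (by norm_num) h5 S.f_pos S.three_le (by norm_num; omega)
    · -- 27
      have hc : Nat.card T = 9828 := by omega
      by_cases hp5 : p = 5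
      · subst hp5
        rcases S.f_pos.eq_or_lt with hf | hf
        · subst hf
          exfalso
          have := dvd_four S
          rw [hc] at this
          exact absurd this (by norm_num)
        · exact ext_le (by omega) hf S.three_le (by norm_num; omega)
      · have h7 := seven_le S.prime h5 hp5
        exact base_le (r := 7) (by norm_num) h7 S.f_pos S.three_le (by norm_num; omega)
    · -- 16
      have hc : 5 ∣ Nat.card T := by omega
      have hp5 : p ≠ 5 := by
        rintro rfl
        exact hcop hc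
      have h7 := seven_le S.prime h5 hp5
      exact base_le (r := 7) (by norm_num) h7 S.f_pos S.three_le (by norm_num; omega)
  · -- `d = 5`
    norm_num at hall
    have ha4 : a ≤ 5 := by
      by_contra hcon
      have : 2 ^ 6 ≤ 2 ^ a := Nat.pow_le_pow_right (by norm_num) (by omega)
      omega
    apply base_le (r := 5) (by norm_num) h5 S.f_pos S.three_le
    have : a * (q + 5) ≤ 5 * 54 := Nat.mul_le_mul ha4 (by omega)
    norm_num
    omega
  · -- `d = 6`
    norm_num at hall
    have ha4 : a ≤ 6 := by
      by_contra hcon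
      have : 2 ^ 7 ≤ 2 ^ a := Nat.pow_le_pow_right (by norm_num) (by omega)
      omega
    apply base_le (r := 5) (by norm_num) h5 S.f_pos S.three_le
    have : a * (q + 5) ≤ 6 * 76 := Nat.mul_le_mul ha4 (by omega)
    norm_num
    omega

/-- **the row of the linear groups** -/
theorem row_psl : RowOf (fun T _ => IsPSL T) := by
  intro T _ _ _ hT h
  obtain ⟨F, hF, hFf, n, hn, h4, ⟨e⟩⟩ := h
  rcases hn.eq_or_lt with rfl | hn
  · exact row_two hT (h4 rfl) e
  · exact row_three hT hn e

end Cfsg.Agent.H486.Kgv
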